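/-
Class sizes `1, n, m, nm` with `n`, `m` coprime: the case of a "good" element.
-/
import Mathlib
import Cfsg.Agent.Lib.FGStruct.NMBasic

set_option autoImplicit false
set_option linter.style.haveILetI false
set_option linter.unusedSectionVars false

namespace Cfsg.Agent.Lib.FGStruct.NMPart1

open Subgroup
open Cfsg.Agent.Lib.ClassGraph.Basic (cs mem_cen cs_eq_one_iff cs_of_isConj cs_conj)
open Cfsg.Agent.Lib.FGStruct.NMBasic
open scoped Pointwise

variable {G : Type*} [Group G] [Finite G] {n m : ℕ}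

/-- Values of the class size in the centralizer of a good element. -/
theorem val_in_cen (H : Hyp G n m) {r : ℕ} [Fact r.Prime] {y : G} (hcy : cs y = m)
    (hyr : PE r y) (g' : C y) (hg' : (orderOf g').Coprime r) : cs g' = 1 ∨ cs g' = n := by
  have hr : r.Prime := Fact.out
  have hc : Commute (g' : G) y := mem_C_comm.1 g'.2
  have ho : (orderOf (g' : G)).Coprime (orderOf y) := by
    rw [Subgroup.orderOf_coe]
    exact (hyr.coprime hr ((Nat.Prime.coprime_iff_not_dvd hr).1 hg'.symm)).symm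
  rw [cs_sub]
  exact H.rel_of_m hc ho hcy

/-- Elements of coprime orders in the centralizer of a good element. -/
theorem comm_in_cen (H : Hyp G n m) {r : ℕ} [Fact r.Prime] {y g z : G} (hcy : cs y = m)
    (hrn : ¬ r ∣ n) (hyr : PE r y) (hg : g ∈ C y) (hz : z ∈ C y) (hgr : (orderOf g).Coprime r)
    (hzr : PE r z) : Commute g z := by
  have hr : r.Prime := Fact.out
  have hnd : ∀ y' : C y, (orderOf y').Coprime r → ¬ r ∣ (centralizer ({y'} : Set (C y))).index := by
    intro y' hy'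
    change ¬ r ∣ cs y'
    rcases val_in_cen H hcy hyr y' hy' with h1 | h1
    · rw [h1]; exact Nat.Prime.not_dvd_one hr
    · rwa [h1]
  obtain ⟨R⟩ : Nonempty (Sylow r (C y)) := inferInstance
  obtain ⟨hRn, hRc⟩ := Cfsg.Agent.Lib.Transfer.ClassSize.normal_of_forall_not_dvd_index r hnd R
  have hz' : PE r (⟨z, hz⟩ : C y) := by
    obtain ⟨k, hk⟩ := hzr
    exact ⟨k, Subtype.ext (by simpa using hk)⟩
  have hzR := mem_of_normal_sylow R hRn hz'
  have h1 := hRc ⟨g, hg⟩ (by rwa [Subgroup.orderOf_mk]) _ hzR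
  exact congrArg Subtype.val h1

/-- `T1`. -/
theorem T1 (H : Hyp G n m) {r : ℕ} [Fact r.Prime] {y x : G} (hy : PE r y) (hcy : cs y = m)
    (hrn : ¬ r ∣ n) (hcx : cs x = n) :
    ∃ s k : ℕ, s.Prime ∧ 0 < k ∧ s ≠ r ∧ n = s ^ k ∧
      ∀ x₁ : G, cs x₁ = n → ∃ a b : G, x₁ = a * b ∧ PE s a ∧ b ∈ center G := by
  have hr : r.Prime := Fact.out
  have hm0 : 0 < m := by have := H.hm; omega
  have hcomm : ∀ x₁ : G, cs x₁ = n → x₁ ∈ C y := by
    intro x₁ h1
    have := comm_of_coprime (x := x₁) (y := y) hy (by rwa [h1]) (by rw [h1, hcy]; exact H.cop)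
    exact mem_C_comm.2 this
  have hrel : ∀ x₁ : G, cs x₁ = n → (C x₁).relIndex (C y) = n := by
    intro x₁ h1
    have h2 := Cfsg.Agent.Lib.FG85.ClassGraph.index_inf_of_coprime (C x₁) (C y)
      (by change (cs x₁).Coprime (cs y); rw [h1, hcy]; exact H.cop)
    have h3 := relIndex_mul_index (inf_le_right : C x₁ ⊓ C y ≤ C y)
    rw [inf_relIndex_right, h2] at h3
    change _ * cs y = cs x₁ * cs y at h3
    rw [h1, hcy] at h3
    exact Nat.eq_of_mul_eq_mul_right hm0 h3
  have hx' : cs (⟨x, hcomm x hcx⟩ : C y) = n := by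
    rw [cs_sub]
    exact hrel x hcx
  have hnc : (⟨x, hcomm x hcx⟩ : C y) ∉ center (C y) := by
    intro hc
    have h1 := cs_eq_one_iff.2 hc
    have := H.hn
    omega
  obtain ⟨s, k, hs, hk, hsr, he, hcen⟩ := key_K H.hn hrn (val_in_cen H hcy hy) hnc hx'.dvd
  refine ⟨s, k, hs, hk, hsr, he, fun x₁ hx₁ => ?_⟩
  haveI : Fact s.Prime := ⟨hs⟩
  obtain ⟨a, b, e, -, ha, hb, -, hbz⟩ := split s x₁
  refine ⟨a, b, e.symm, ha, ?_⟩
  have hbC : b ∈ C y := mem_C_of_mem_zpowers (hcomm x₁ hx₁) hbz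
  have hbc := hcen ⟨b, hbC⟩ (by rwa [Subgroup.orderOf_mk]) (by
    rw [cs_sub, ← hrel x₁ hx₁]
    exact relIndex_dvd_of_le_left _ (C_le_of_mem_zpowers hbz))
  have hle := center_of_C_sub _ hbc
  exact H.center_of_dvd_both ((cs_dvd_of_mem_zpowers hbz).trans hx₁.dvd)
    ((cs_dvd_of_le hle).trans hcy.dvd)

/-- Iterating a conjugation. -/
theorem conj_pow_iter {c v d : G} (h : c * v * c⁻¹ = d * v) (hcd : Commute c d) (k : ℕ) :
    c ^ k * v * (c ^ k)⁻¹ = d ^ k * v := by
  induction k with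
  | zero => simp
  | succ k ih =>
    have e : c ^ (k + 1) * v * (c ^ (k + 1))⁻¹ = c * (c ^ k * v * (c ^ k)⁻¹) * c⁻¹ := by
      rw [pow_succ']
      group
    rw [e, ih]
    have h1 : c * d ^ k = d ^ k * c := (hcd.pow_right k).eq
    calc c * (d ^ k * v) * c⁻¹ = (c * d ^ k) * v * c⁻¹ := by group
      _ = d ^ k * (c * v * c⁻¹) := by rw [h1]; group
      _ = d ^ (k + 1) * v := by rw [h, pow_succ]; group

/-- `StepB`. -/
theorem stepB (H : Hyp G n m) {s r l : ℕ} [Fact s.Prime] [Fact r.Prime] (hsr : s ≠ r) (hsm : ¬ s ∣ m)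
    (hrn : ¬ r ∣ n) (hml : m = r ^ l) {a y : G} (ha : PE s a) (hy : PE r y) (hcy : cs y = m) :
    Commute a y := by
  have hs : s.Prime := Fact.out
  have hr : r.Prime := Fact.out
  obtain ⟨P, hP⟩ := ha.isPGroup_zpowers.exists_le_sylow
  have haP : a ∈ (P : Subgroup G) := hP (mem_zpowers a)
  obtain ⟨Q, hQ⟩ := exists_sylow_le_C (p := s) (y := y) (by rwa [hcy])
  obtain ⟨t, ht⟩ := MulAction.exists_smul_eq G P Q
  set y' := t⁻¹ * y * t⁻¹⁻¹ with hy'
  have hPy' : ∀ c ∈ (P : Subgroup G), c ∈ C y' := by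
    intro c hc
    have h1 : t * c * t⁻¹ ∈ (Q : Subgroup G) := by
      rw [← ht, Sylow.smul_def]
      exact Subgroup.smul_mem_pointwise_smul _ (MulAut.conj t) _ hc
    have h2 := mem_C.1 (hQ h1)
    rw [mem_C, hy']
    calc c * (t⁻¹ * y * t⁻¹⁻¹) = t⁻¹ * ((t * c * t⁻¹) * y) * t := by group
      _ = t⁻¹ * (y * (t * c * t⁻¹)) * t := by rw [h2]
      _ = _ := by group
  have hcy' : cs y' = m := by rw [hy', cs_conj]; exact hcy
  have hyr' : PE r y' := hy.conj _
  -- the normal closure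
  let W : Subgroup G := normalClosure ({y} : Set G)
  have hWr : ∀ w ∈ W, PE r w := by
    obtain ⟨R⟩ : Nonempty (Sylow r G) := inferInstance
    have hle : W ≤ (R : Subgroup G) := by
      apply Subgroup.closure_le _ |>.2
      rintro z hz
      obtain ⟨w, hw, hz⟩ := Group.mem_conjugatesOfSet_iff.1 hz
      rw [Set.mem_singleton_iff.1 hw] at hz
      obtain ⟨g, rfl⟩ := isConj_iff.1 hz
      apply mem_sylow_of_cs_pow (s := r) (j := l) (hy.conj g)
      rw [cs_conj, hcy, hml]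
    exact fun w hw => PE.of_mem R.isPGroup' (hle hw)
  have hyW : y ∈ W := subset_normalClosure (Set.mem_singleton y)
  have hWn : W.Normal := normalClosure_normal
  have hy'W : y' ∈ W := hWn.conj_mem y hyW _
  have hgoal : W ≤ centralizer ((P : Subgroup G) : Set G) := by
    by_contra hne
    set U : Subgroup W := (centralizer ((P : Subgroup G) : Set G)).subgroupOf W with hU
    have hUtop : U < ⊤ := by
      rw [lt_top_iff_ne_top]
      intro h
      apply hne
      intro w hw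
      have : (⟨w, hw⟩ : W) ∈ U := by rw [h]; trivial
      exact mem_subgroupOf.1 this
    have hWp : IsPGroup r W := isPGroup_of_PE hWr
    haveI : Group.IsNilpotent W := hWp.isNilpotent
    have hcond := Group.normalizerCondition_of_isNilpotent (G := W) U hUtop
    obtain ⟨v, hvN, hvU⟩ := SetLike.exists_of_lt hcond
    have hvinv : v⁻¹ ∈ normalizer (U : Set W) := (normalizer (U : Set W)).inv_mem hvN
    rw [mem_normalizer_iff] at hvinv
    apply hvU
    rw [hU, mem_subgroupOf, mem_centralizer_iff]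
    intro c hc
    -- `z = v⁻¹ y' v` is fixed by `c`
    have hy'U : (⟨y', hy'W⟩ : W) ∈ U := by
      rw [hU, mem_subgroupOf, mem_centralizer_iff]
      intro c' hc'
      exact mem_C.1 (hPy' c' hc')
    have hzU := (hvinv _).1 hy'U
    rw [hU, mem_subgroupOf, mem_centralizer_iff] at hzU
    have hz := hzU c hc
    simp only [coe_mul, InvMemClass.coe_inv, inv_inv] at hz
    set vv : G := (v : G) with hvv
    have hcy1 : c * y' = y' * c := mem_C.1 (hPy' c hc)
    set d := c * vv * c⁻¹ * vv⁻¹ with hd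
    have hdW : d ∈ W := by
      refine W.mul_mem ?_ (W.inv_mem v.2)
      exact hWn.conj_mem _ v.2 _
    have hdy : d * y' = y' * d := by
      have e1 : d * y' * d⁻¹ = y' := by
        have hz1 : c⁻¹ * (vv⁻¹ * y' * vv) * c = vv⁻¹ * y' * vv := by
          rw [mul_assoc c⁻¹, ← hz]
          group
        calc d * y' * d⁻¹ = c * vv * (c⁻¹ * (vv⁻¹ * y' * vv) * c) * vv⁻¹ * c⁻¹ := by rw [hd]; group
          _ = c * vv * (vv⁻¹ * y' * vv) * vv⁻¹ * c⁻¹ := by rw [hz1]
          _ = c * y' * c⁻¹ := by group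
          _ = y' := by rw [hcy1]; group
      calc d * y' = (d * y' * d⁻¹) * d := by group
        _ = y' * d := by rw [e1]
    have hdP : ∀ c' ∈ (P : Subgroup G), c' * d = d * c' := by
      intro c' hc'
      have h1 := comm_in_cen H hcy' hrn hyr' (hPy' c' hc') (mem_C.2 hdy)
        ((PE.of_mem P.isPGroup' hc').coprime hs
          (fun hd' => hsr ((Nat.prime_dvd_prime_iff_eq hs hr).1 hd'))) (hWr d hdW)
      exact h1.eq
    have hcd : Commute c d := hdP c hc
    obtain ⟨e, he⟩ := PE.of_mem P.isPGroup' hc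
    have hiter := conj_pow_iter (c := c) (v := vv) (d := d) (by rw [hd]; group) hcd (s ^ e)
    rw [he] at hiter
    have hds : d ^ s ^ e = 1 := by
      have : vv = d ^ s ^ e * vv := by rw [← hiter]; group
      exact (mul_eq_right.1 this.symm)
    obtain ⟨f, hf⟩ := hWr d hdW
    have hd1 : d = 1 := eq_one_of_orders
      (Nat.Coprime.pow _ _ ((Nat.coprime_primes hs hr).2 hsr)) hds hf
    rw [hd] at hd1
    have := mul_inv_eq_one.1 hd1
    have h3 := mul_inv_eq_iff_eq_mul.1 this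
    exact h3
  have := hgoal hyW
  rw [mem_centralizer_iff] at this
  exact this a haP

/-- The setting after two applications of `T1`. -/
structure St2 (G : Type*) [Group G] (n m s r : ℕ) : Prop where
  H : Hyp G n m
  hs : s.Prime
  hr : r.Prime
  hsr : s ≠ r
  ns : ∃ k : ℕ, 0 < k ∧ n = s ^ k
  mr : ∃ l : ℕ, 0 < l ∧ m = r ^ l
  x₀ : ∃ x : G, PE s x ∧ cs x = n
  y₀ : ∃ y : G, PE r y ∧ cs y = m

namespace St2

variable {s r : ℕ}

theorem symm (S : St2 G n m s r) : St2 G m n r s where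
  H := S.H.symm
  hs := S.hr
  hr := S.hs
  hsr := S.hsr.symm
  ns := S.mr
  mr := S.ns
  x₀ := S.y₀
  y₀ := S.x₀

theorem hsn (S : St2 G n m s r) : s ∣ n := by
  obtain ⟨k, hk, e⟩ := S.ns
  rw [e]
  exact dvd_pow_self _ hk.ne'

theorem hrm (S : St2 G n m s r) : r ∣ m := S.symm.hsn

theorem hsm (S : St2 G n m s r) : ¬ s ∣ m := fun h => by
  have h1 := Nat.dvd_gcd S.hsn h
  rw [S.H.cop] at h1
  exact S.hs.one_lt.ne' (Nat.dvd_one.1 h1)

theorem hrn (S : St2 G n m s r) : ¬ r ∣ n := S.symm.hsm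

theorem stepB₁ (S : St2 G n m s r) {a y : G} (ha : PE s a) (hy : PE r y) (hcy : cs y = m) :
    Commute a y := by
  haveI : Fact s.Prime := ⟨S.hs⟩
  haveI : Fact r.Prime := ⟨S.hr⟩
  obtain ⟨l, -, e⟩ := S.mr
  exact stepB S.H S.hsr S.hsm S.hrn e ha hy hcy

theorem stepB₂ (S : St2 G n m s r) {b x : G} (hb : PE r b) (hx : PE s x) (hcx : cs x = n) :
    Commute b x :=
  S.symm.stepB₁ hb hx hcx

theorem central_other (S : St2 G n m s r) {p : ℕ} (hp : p.Prime) (h1 : p ≠ s) (h2 : p ≠ r) {e : G}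
    (he : PE p e) : e ∈ center G := by
  haveI : Fact p.Prime := ⟨hp⟩
  obtain ⟨k, -, ek⟩ := S.ns
  obtain ⟨l, -, el⟩ := S.mr
  have hns : ¬ p ∣ n := by
    rw [ek]
    intro hd
    exact h1 ((Nat.prime_dvd_prime_iff_eq hp S.hs).1 (hp.dvd_of_dvd_pow hd))
  have hnr : ¬ p ∣ m := by
    rw [el]
    intro hd
    exact h2 ((Nat.prime_dvd_prime_iff_eq hp S.hr).1 (hp.dvd_of_dvd_pow hd))
  have hnd : ∀ g : G, ¬ p ∣ cs g := by
    intro g
    rcases S.H.val g with h | h | h | h <;> rw [h]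
    · exact Nat.Prime.not_dvd_one hp
    · exact hns
    · exact hnr
    · intro hd
      rcases (Nat.Prime.dvd_mul hp).1 hd with h3 | h3
      · exact hns h3
      · exact hnr h3
  obtain ⟨P⟩ : Nonempty (Sylow p G) := inferInstance
  obtain ⟨hPn, -⟩ := Cfsg.Agent.Lib.Transfer.ClassSize.normal_of_forall_not_dvd_index p
    (fun y _ => hnd y) P
  have heP := mem_of_normal_sylow P hPn he
  apply mem_center_of_C
  intro g
  rw [mem_C_symm]
  exact le_C_of_normal_sylow P hPn (hnd g) heP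

theorem c_is_s (S : St2 G n m s r) {a b : G} (ha : PE s a) (hb : PE r b) :
    PE s (a⁻¹ * b⁻¹ * a * b) := by
  have hs := S.hs
  have hr := S.hr
  haveI : Fact s.Prime := ⟨hs⟩
  haveI : Fact r.Prime := ⟨hr⟩
  have hsr := S.hsr
  have hH := S.H
  have hsn := S.hsn
  have hrm := S.hrm
  have hsm := S.hsm
  have hrn := S.hrn
  obtain ⟨x₀, hx₀, hcx₀⟩ := S.x₀
  obtain ⟨y₀, hy₀, hcy₀⟩ := S.y₀
  obtain ⟨k, hk, ek⟩ := S.ns
  set c := a⁻¹ * b⁻¹ * a * b with hc
  have hc1 : ∀ x₁ : G, PE s x₁ → cs x₁ = n → Commute c x₁ := by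
    intro x₁ h1 h2
    have e : c = (a⁻¹ * b⁻¹ * a⁻¹⁻¹) * b := by rw [hc]; group
    rw [e]
    exact Commute.mul_left (S.stepB₂ (hb.inv.conj _) h1 h2) (S.stepB₂ hb h1 h2)
  have hc2 : ∀ y₁ : G, PE r y₁ → cs y₁ = m → Commute c y₁ := by
    intro y₁ h1 h2
    have e : c = a⁻¹ * (b⁻¹ * a * b⁻¹⁻¹) := by rw [hc]; group
    rw [e]
    exact Commute.mul_left (S.stepB₁ ha.inv h1 h2) (S.stepB₁ (ha.conj _) h1 h2)
  obtain ⟨cs', c', e, hcomm, hcs', hc', hcs'z, hc'z⟩ := split s c
  have hz1 : zpowers c' ≤ zpowers c := zpowers_le.2 hc'z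
  -- Claim 1
  have hC1 : c' ∈ C a := by
    apply mem_of_primary
    intro q hq f hfz hqf
    by_cases hqs : q = s
    · subst hqs
      have h1 : (orderOf f).Coprime q :=
        Nat.Coprime.coprime_dvd_left (orderOf_dvd_of_mem_zpowers hfz) hc'
      rw [hqf.eq_one_of_coprime h1]
      exact (C a).one_mem
    by_cases hqr : q = r
    · subst hqr
      have hf0 : f ∈ C y₀ := mem_C_of_mem_zpowers (mem_C_comm.2 (hc2 y₀ hy₀ hcy₀)) (hz1 hfz)
      obtain ⟨T, hT⟩ := exists_sylow_le_C (p := s) (y := y₀) (by rwa [hcy₀])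
      have hTf : (T : Subgroup G) ≤ C f := by
        intro g hg
        have := Cfsg.Agent.Lib.FGStruct.NMPart1.comm_in_cen hH hcy₀ hrn hy₀ (hT hg) hf0
          ((PE.of_mem T.isPGroup' hg).coprime hs
            (fun hd' => hsr ((Nat.prime_dvd_prime_iff_eq hs hr).1 hd'))) hqf
        exact mem_C_comm.2 this
      have hndf := not_dvd_cs_of_sylow_le T hTf
      rcases hH.val f with h | h | h | h
      · exact mem_C_symm.1 (C_of_center (cs_eq_one_iff.1 h))
      · rw [h] at hndf; exact absurd hsn hndf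
      · exact mem_C_comm.2 (S.stepB₁ ha hqf h).symm
      · rw [h] at hndf; exact absurd (hsn.mul_right m) hndf
    · exact mem_C_symm.1 (C_of_center (S.central_other hq hqs hqr hqf))
  -- Claim 2
  have hC2 : ∀ Q : Sylow s G, cs' ∈ (Q : Subgroup G) := by
    intro Q
    have hcs0 : cs' ∈ C x₀ := mem_C_of_mem_zpowers (mem_C_comm.2 (hc1 x₀ hx₀ hcx₀)) hcs'z
    obtain ⟨R, hR⟩ := exists_sylow_le_C (p := r) (y := x₀) (by rwa [hcx₀])
    have hRc : (R : Subgroup G) ≤ C cs' := by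
      intro g hg
      have := Cfsg.Agent.Lib.FGStruct.NMPart1.comm_in_cen hH.symm hcx₀ hsm hx₀ (hR hg) hcs0
        ((PE.of_mem R.isPGroup' hg).coprime hr
          (fun hd' => hsr ((Nat.prime_dvd_prime_iff_eq hr hs).1 hd').symm)) hcs'
      exact mem_C_comm.2 this
    have hndc := not_dvd_cs_of_sylow_le R hRc
    rcases hH.val cs' with h | h | h | h
    · exact mem_sylow_of_cs_pow (j := 0) hcs' (by rw [h, pow_zero]) Q
    · exact mem_sylow_of_cs_pow (j := k) hcs' (by rw [h, ek]) Q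
    · rw [h] at hndc; exact absurd hrm hndc
    · rw [h] at hndc; exact absurd (hrm.mul_left n) hndc
  -- final
  obtain ⟨P, hP⟩ := ha.isPGroup_zpowers.exists_le_sylow
  have haP : a ∈ (P : Subgroup G) := hP (mem_zpowers a)
  have hw : PE s (a * cs') := PE.of_mem P.isPGroup' ((P : Subgroup G).mul_mem haP (hC2 P))
  have hwc : Commute (a * cs') c' := Commute.mul_left (mem_C_comm.1 hC1).symm hcomm
  have he2 : a * cs' * c' = b⁻¹ * a * b⁻¹⁻¹ := by
    rw [mul_assoc, e, hc]
    group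
  obtain ⟨E, hE⟩ := ha.conj b⁻¹
  obtain ⟨F, hF⟩ := hw
  rw [← he2] at hE
  have hpow : c' ^ s ^ (E + F) = 1 := by
    have h1 : (a * cs' * c') ^ s ^ (E + F) = 1 := by
      rw [pow_add, pow_mul, hE, one_pow]
    rw [hwc.mul_pow] at h1
    have h2 : (a * cs') ^ s ^ (E + F) = 1 := by
      rw [add_comm, pow_add, pow_mul, hF, one_pow]
    rwa [h2, one_mul] at h1
  have hc'1 : c' = 1 := PE.eq_one_of_coprime ⟨_, hpow⟩ hc'
  have : c = cs' := by rw [← e, hc'1, mul_one]
  rw [this]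
  exact hcs'

theorem stepC (S : St2 G n m s r) {a b : G} (ha : PE s a) (hb : PE r b) : Commute a b := by
  have h1 := S.c_is_s ha hb
  have h2 := S.symm.c_is_s hb ha
  have e : b⁻¹ * a⁻¹ * b * a = (a⁻¹ * b⁻¹ * a * b)⁻¹ := by group
  rw [e] at h2
  have h3 : a⁻¹ * b⁻¹ * a * b = 1 := PE.eq_one_of_ne S.hs S.hr S.hsr h1 (by simpa using h2.inv)
  have h4 : (b * a)⁻¹ * (a * b) = 1 := by
    rw [← h3]; group
  have h5 := inv_mul_eq_one.1 h4
  exact h5.symm

theorem nilpotent (S : St2 G n m s r) : Group.IsNilpotent G := by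
  have hcomm : ∀ {p q : ℕ}, p.Prime → q.Prime → p ≠ q → ∀ {a b : G}, PE p a → PE q b →
      Commute a b := by
    intro p q hp hq hne a b ha hb
    by_cases h1 : p = s
    · subst h1
      by_cases h2 : q = r
      · subst h2
        exact S.stepC ha hb
      · exact (mem_center_iff.1 (S.central_other hq hne.symm h2 hb) a)
    by_cases h2 : p = r
    · subst h2
      by_cases h3 : q = s
      · subst h3
        exact S.symm.stepC ha hb
      · exact (mem_center_iff.1 (S.central_other hq h3 hne.symm hb) a)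
    · exact (mem_center_iff.1 (S.central_other hp h1 h2 ha) b).symm
  apply (Group.isNilpotent_of_finite_tfae (G := G)).out 3 0 |>.mp
  intro p hp P
  refine (Cfsg.Agent.Lib.Transfer.ClassSize.normal_of_forall_not_dvd_index p ?_ P).1
  intro y hy
  have hle : (P : Subgroup G) ≤ C y := by
    intro a ha
    have := comm_of_coprime_order (p := p) (a := a) (y := y)
      (fun q hq hne b hb => hcomm hp.out hq hne.symm (PE.of_mem P.isPGroup' ha) hb) hy
    exact mem_C_comm.2 this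
  exact not_dvd_cs_of_sylow_le P hle

end St2

/-- Part 1: a good element forces nilpotency and prime powers. -/
theorem part1 (H : Hyp G n m) {r : ℕ} (hr : r.Prime) {y x : G} (hy : PE r y) (hcy : cs y = m)
    (hrn : ¬ r ∣ n) (hcx : cs x = n) :
    Group.IsNilpotent G ∧ IsPrimePow n ∧ IsPrimePow m := by
  haveI : Fact r.Prime := ⟨hr⟩
  obtain ⟨s, k, hs, hk, hsr, he, hx⟩ := T1 H hy hcy hrn hcx
  haveI : Fact s.Prime := ⟨hs⟩
  have hsn : s ∣ n := he ▸ dvd_pow_self _ hk.ne'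
  have hsm : ¬ s ∣ m := fun h => by
    have h1 := Nat.dvd_gcd hsn h
    rw [H.cop] at h1
    exact hs.one_lt.ne' (Nat.dvd_one.1 h1)
  obtain ⟨a, b, e, ha, hbc⟩ := hx x hcx
  have hca : cs a = n := by
    rw [← hcx, e]
    exact (Cfsg.Agent.Lib.FG85.ClassGraph.idx_mul_central hbc).symm
  obtain ⟨r', l, hr', hl, hr's, he', hy'⟩ := T1 H.symm ha hca hsm hcy
  obtain ⟨a', b', e', ha', hbc'⟩ := hy' y hcy
  have hca' : cs a' = m := by
    rw [← hcy, e']
    exact (Cfsg.Agent.Lib.FG85.ClassGraph.idx_mul_central hbc').symm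
  have S : St2 G n m s r' :=
    { H := H, hs := hs, hr := hr', hsr := hr's.symm, ns := ⟨k, hk, he⟩, mr := ⟨l, hl, he'⟩,
      x₀ := ⟨a, ha, hca⟩, y₀ := ⟨a', ha', hca'⟩ }
  refine ⟨S.nilpotent, ?_, ?_⟩
  · exact he ▸ (hs.isPrimePow.pow hk.ne')
  · exact he' ▸ (hr'.isPrimePow.pow hl.ne')

end Cfsg.Agent.Lib.FGStruct.NMPart1
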