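/-
Class sizes `1, n, m, nm` with `n`, `m` coprime: no good element, non commuting classes.
-/
import Mathlib
import Cfsg.Agent.Lib.FGStruct.NMBasic
import Cfsg.Agent.Lib.FGStruct.NMPart1

set_option autoImplicit false
set_option linter.style.haveILetI false
set_option linter.unusedSectionVars false

namespace Cfsg.Agent.Lib.FGStruct.NMCaseN

open Subgroup
open Cfsg.Agent.Lib.ClassGraph.Basic (cs mem_cen cs_eq_one_iff cs_of_isConj cs_conj card_class
  isConj_mul St mem_St St_normal card_St_dvd mem_St_of_le')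
open Cfsg.Agent.Lib.ClassGraph.Top (eq_of_le_of_index_eq)
open Cfsg.Agent.Lib.FGStruct.NMBasic
open scoped Pointwise

variable {G : Type*} [Group G] [Finite G] {n m : ℕ}

/-- No good element. -/
structure NoGood (G : Type*) [Group G] (n m : ℕ) : Prop where
  left : ∀ (p : ℕ) (y : G), p.Prime → PE p y → cs y = m → p ∣ n
  right : ∀ (p : ℕ) (x : G), p.Prime → PE p x → cs x = n → p ∣ m

theorem NoGood.symm (h : NoGood G n m) : NoGood G m n := ⟨h.right, h.left⟩

/-- The configuration of the final part of Case N. -/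
structure NS (G : Type*) [Group G] (n m : ℕ) (L : Subgroup G) (y : G) (s : ℕ) : Prop where
  H : Hyp G n m
  NG : NoGood G n m
  hlt : n < m
  hs : s.Prime
  hL : L.Normal
  cardL : Nat.card L ∣ m
  hcn : ∀ v ∈ L, v ≠ 1 → cs v = n
  fpf : ∀ v ∈ L, v * y = y * v → v = 1
  ne : ∃ v ∈ L, v ≠ 1
  hcy : cs y = m
  hys : PE s y

namespace NS

variable {L : Subgroup G} {y : G} {s : ℕ}

/-- `N1`. -/
theorem no_comm (S : NS G n m L y s) {x₁ : G} (hx₁ : cs x₁ = n) (hc : x₁ ∈ C y) : False := by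
  have hH := S.H
  have hLn := S.hL
  have hco : (cs y).Coprime (cs x₁) := by rw [S.hcy, hx₁]; exact hH.cop.symm
  have hconj : ∀ g : G, g * x₁ * g⁻¹ ∈ C y := by
    intro g
    obtain ⟨k, hk, c, hc', e⟩ := Cfsg.Agent.Lib.ClassGraph.Basic.exists_mul_of_coprime hco g
    have e1 : g * x₁ * g⁻¹ = k * x₁ * k⁻¹ := by
      rw [e]
      have h1 := mem_C.1 hc'
      have : k * c * x₁ * (k * c)⁻¹ = k * (c * x₁) * c⁻¹ * k⁻¹ := by group
      rw [this, h1]
      group
    rw [e1]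
    exact (C y).mul_mem ((C y).mul_mem hk hc) ((C y).inv_mem hk)
  have hLx : L ≤ C x₁ := by
    apply le_C_of_normal
    rw [hx₁]
    exact Nat.Coprime.coprime_dvd_left S.cardL hH.cop.symm
  obtain ⟨u, huL, hu1⟩ := S.ne
  have hcxu : Commute u x₁ := mem_C_comm.1 (hLx huL)
  have hle : C (x₁ * u) ≤ C x₁ := by
    intro g hg
    rw [mem_C] at hg
    have hg' : (g * x₁ * g⁻¹) * (g * u * g⁻¹) = x₁ * u := by
      calc (g * x₁ * g⁻¹) * (g * u * g⁻¹) = g * (x₁ * u) * g⁻¹ := by group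
        _ = (x₁ * u) * g * g⁻¹ := by rw [hg]
        _ = x₁ * u := by group
    set lam := x₁⁻¹ * (g * x₁ * g⁻¹) with hlam
    have h1 : lam = u * (g * u * g⁻¹)⁻¹ := by
      rw [hlam]
      have : x₁⁻¹ * (g * x₁ * g⁻¹) * (g * u * g⁻¹) = u := by
        rw [mul_assoc, hg']; group
      exact eq_mul_inv_of_mul_eq this
    have h2 : lam ∈ L := by
      rw [h1]
      exact L.mul_mem huL (L.inv_mem (hLn.conj_mem _ huL _))
    have h3 : lam ∈ C y := (C y).mul_mem ((C y).inv_mem hc) (hconj g)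
    have h4 : lam = 1 := S.fpf lam h2 (mem_C.1 h3)
    have h5 : g * x₁ * g⁻¹ = x₁ := by
      rw [hlam] at h4
      exact (inv_mul_eq_one.1 h4).symm
    exact C_inv_mem.1 h5
  have hge : C x₁ ⊓ C u ≤ C (x₁ * u) := by
    intro g hg
    obtain ⟨h1, h2⟩ := mem_inf.1 hg
    rw [mem_C] at h1 h2 ⊢
    calc g * (x₁ * u) = (g * x₁) * u := by group
      _ = x₁ * (g * u) := by rw [h1]; group
      _ = x₁ * (u * g) := by rw [h2]
      _ = x₁ * u * g := by group
  have hd : n ∣ cs (x₁ * u) := hx₁ ▸ cs_dvd_of_le hle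
  have hbd : cs (x₁ * u) ≤ n * n := by
    have h1 : cs (x₁ * u) ≤ (C x₁ ⊓ C u).index :=
      Nat.le_of_dvd (Nat.pos_of_ne_zero index_ne_zero_of_finite) (index_dvd_of_le hge)
    have h2 : (C x₁ ⊓ C u).index ≤ (C x₁).index * (C u).index := index_inf_le
    have h3 : (C u).index = n := S.hcn u huL hu1
    have h4 : (C x₁).index = n := hx₁
    rw [h3, h4] at h2
    exact h1.trans h2
  have hcsn : cs (x₁ * u) = n := by
    have hn0 : 0 < n := by have := hH.hn; omega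
    rcases hH.val (x₁ * u) with h | h | h | h
    · rw [h] at hd
      have := Nat.dvd_one.1 hd
      have := hH.hn
      omega
    · exact h
    · rw [h] at hd; exact absurd hd hH.not_dvd
    · rw [h] at hbd
      have := Nat.le_of_mul_le_mul_left hbd hn0
      have := S.hlt
      omega
  have heq : C (x₁ * u) = C x₁ := eq_of_le_of_index_eq hle (by rw [show (C x₁).index = n from hx₁]; exact hcsn)
  have hyx : y ∈ C x₁ := mem_C_symm.1 hc
  rw [← heq, mem_C] at hyx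
  have hyx' := mem_C.1 (mem_C_symm.1 hc)
  have hyu : u * y = y * u := by
    have h1 : x₁ * (y * u) = x₁ * (u * y) := by
      calc x₁ * (y * u) = (x₁ * y) * u := by group
        _ = (y * x₁) * u := by rw [hyx']
        _ = y * (x₁ * u) := by group
        _ = (x₁ * u) * y := hyx
        _ = x₁ * (u * y) := by group
    exact (mul_left_cancel h1).symm
  exact hu1 (S.fpf u huL hyu)

theorem hsn (S : NS G n m L y s) : s ∣ n := S.NG.left s y S.hs S.hys S.hcy

theorem not_dvd_of_dvd (S : NS G n m L y s) {t : ℕ} (ht : t.Prime) (htm : t ∣ m) : ¬ t ∣ n := fun h => by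
  have h1 := Nat.dvd_gcd h htm
  rw [S.H.cop] at h1
  exact ht.one_lt.ne' (Nat.dvd_one.1 h1)

/-- `N2`. -/
theorem central (S : NS G n m L y s) {z : G} {t : ℕ} (ht : t.Prime) (htm : t ∣ m) (hz : PE t z)
    (hzy : z ∈ C y) : z ∈ center G := by
  have hH := S.H
  have hLn := S.hL
  haveI : Fact t.Prime := ⟨ht⟩
  have htn := S.not_dvd_of_dvd ht htm
  rcases hH.val z with h | h | h | h
  · exact cs_eq_one_iff.1 h
  · exact (S.no_comm h hzy).elim
  · exact absurd (S.NG.left t z ht hz h) htn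
  · exfalso
    have hst : s ≠ t := by
      rintro rfl
      exact htn S.hsn
    have hle : C z ≤ C y := hH.le_of_nm (mem_C_comm.1 (mem_C_symm.1 hzy))
      (PE.coprime_order S.hs ht hst S.hys hz) h
    obtain ⟨u, huL, hu1⟩ := S.ne
    have hcu : cs u = n := S.hcn u huL hu1
    obtain ⟨T, hT⟩ := exists_sylow_le_C (p := t) (y := u) (by rwa [hcu])
    obtain ⟨a, ha⟩ := exists_conj_mem_sylow T hz
    have h1 := mem_C.1 (hT ha)
    set u' := a⁻¹ * u * a⁻¹⁻¹ with hu'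
    have hu'L : u' ∈ L := hLn.conj_mem _ huL _
    have hu'z : u' ∈ C z := by
      rw [mem_C, hu']
      calc a⁻¹ * u * a⁻¹⁻¹ * z = a⁻¹ * (u * (a * z * a⁻¹)) * a := by group
        _ = a⁻¹ * ((a * z * a⁻¹) * u) * a := by rw [h1]
        _ = _ := by group
    have hu'1 : u' = 1 := S.fpf u' hu'L (mem_C.1 (hle hu'z))
    apply hu1
    rw [hu'] at hu'1
    have : u = a * (a⁻¹ * u * a⁻¹⁻¹) * a⁻¹ := by group
    rw [this, hu'1]
    group

/-- `N.11`. -/
theorem no_comm_dvd (S : NS G n m L y s) {g u : G} (hm : m ∣ cs g) (huL : u ∈ L) (hu1 : u ≠ 1)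
    (hc : u ∈ C g) : False := by
  have hH := S.H
  -- prime order
  obtain ⟨t, ht, htd⟩ := Nat.exists_prime_and_dvd (fun h => hu1 (orderOf_eq_one_iff.1 h))
  haveI : Fact t.Prime := ⟨ht⟩
  have htL : t ∣ Nat.card L := by
    have h1 : orderOf u ∣ Nat.card L := by
      have := orderOf_dvd_natCard (⟨u, huL⟩ : L)
      rwa [Subgroup.orderOf_mk] at this
    exact htd.trans h1
  have htm : t ∣ m := htL.trans S.cardL
  set v := u ^ (orderOf u / t) with hv
  have hvo : orderOf v = t := orderOf_pow_orderOf_div (orderOf_pos u).ne' htd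
  have hvL : v ∈ L := L.pow_mem huL _
  have hvg : v ∈ C g := (C g).pow_mem hc _
  have hv1 : v ≠ 1 := fun h => by
    rw [h, orderOf_one] at hvo
    exact ht.one_lt.ne hvo
  have hvZ : v ∉ center G := fun h => hv1 (S.fpf v hvL (mem_center_iff.1 h y).symm)
  -- `t` divides `|C(g) : Z|`
  have hZn : (center G).Normal := inferInstance
  have hZg : center G ≤ C g := fun z hz => mem_C.2 (mem_center_iff.1 hz g).symm
  have hZy : center G ≤ C y := fun z hz => mem_C.2 (mem_center_iff.1 hz y).symm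
  have hdiv1 : t ∣ (center G).relIndex (C g) := by
    haveI : ((center G).subgroupOf (C g)).Normal := hZn.subgroupOf _
    let γ : C g ⧸ (center G).subgroupOf (C g) := QuotientGroup.mk ⟨v, hvg⟩
    have h1 : orderOf γ ∣ t := by
      rw [← hvo]
      have h2 : orderOf (⟨v, hvg⟩ : C g) = orderOf v := Subgroup.orderOf_mk _ _
      rw [← h2]
      exact orderOf_map_dvd (QuotientGroup.mk' ((center G).subgroupOf (C g))) _
    have h2 : orderOf γ ≠ 1 := by
      intro h3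
      rw [orderOf_eq_one_iff] at h3
      have h4 : (⟨v, hvg⟩ : C g) ∈ (center G).subgroupOf (C g) := (QuotientGroup.eq_one_iff _).1 h3
      exact hvZ (mem_subgroupOf.1 h4)
    have h3 : orderOf γ = t := ((Nat.dvd_prime ht).1 h1).resolve_left h2
    rw [← h3]
    have := orderOf_dvd_natCard γ
    rwa [← Subgroup.index_eq_card] at this
  have hdiv2 : t ∣ (center G).relIndex (C y) := by
    obtain ⟨e, he⟩ := hm
    have h1 := relIndex_mul_index hZg
    have h2 := relIndex_mul_index hZy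
    have h3 : (C g).index = m * e := he
    have h4 : (C y).index = m := S.hcy
    rw [h3] at h1
    rw [h4, ← h1] at h2
    have hm0 : 0 < m := by have := hH.hm; omega
    have h5 : (center G).relIndex (C y) = (center G).relIndex (C g) * e := by
      apply Nat.eq_of_mul_eq_mul_right hm0
      rw [h2]
      ring
    rw [h5]
    exact hdiv1.mul_right e
  -- Cauchy
  haveI : ((center G).subgroupOf (C y)).Normal := hZn.subgroupOf _
  have hdiv3 : t ∣ Nat.card (C y ⧸ (center G).subgroupOf (C y)) := by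
    rwa [← Subgroup.index_eq_card]
  obtain ⟨γ, hγ⟩ := exists_prime_orderOf_dvd_card' t hdiv3
  obtain ⟨⟨z, hz⟩, rfl⟩ := QuotientGroup.mk_surjective γ
  obtain ⟨a, b, e, hcab, ha, hb, haz, hbz⟩ := split t z
  have haC : a ∈ C y := mem_C_of_mem_zpowers hz haz
  have hbC : b ∈ C y := mem_C_of_mem_zpowers hz hbz
  have haZ := S.central ht htm ha haC
  have h1 : ((⟨z, hz⟩ : C y) : C y ⧸ (center G).subgroupOf (C y)) = ((⟨b, hbC⟩ : C y) : C y ⧸ (center G).subgroupOf (C y)) := by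
    apply QuotientGroup.eq.2
    rw [mem_subgroupOf]
    have : ((⟨z, hz⟩ : C y)⁻¹ * (⟨b, hbC⟩ : C y) : C y).1 = z⁻¹ * b := rfl
    rw [this, ← e]
    have e2 : (a * b)⁻¹ * b = a⁻¹ := by
      rw [hcab.eq]
      group
    rw [e2]
    exact (center G).inv_mem haZ
  rw [h1] at hγ
  have h2 : orderOf (⟨b, hbC⟩ : C y) = orderOf b := Subgroup.orderOf_mk _ _
  have h3 : t ∣ orderOf b := by
    rw [← hγ, ← h2]
    exact orderOf_map_dvd (QuotientGroup.mk' ((center G).subgroupOf (C y))) _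
  have h4 := Nat.Coprime.eq_one_of_dvd hb.symm h3
  exact ht.one_lt.ne' h4

/-- The end of Case N. -/
theorem no_nm (S : NS G n m L y s) {w : G} (hw : cs w = n * m) : False := by
  have hH := S.H
  obtain ⟨u, huL, hu1⟩ := S.ne
  have hcu : cs u = n := S.hcn u huL hu1
  have hle : C u ⊓ C y ≤ center G := by
    intro g hg
    obtain ⟨h1, h2⟩ := mem_inf.1 hg
    have hug : u ∈ C g := mem_C_symm.1 h1
    rcases hH.val g with h | h | h | h
    · exact cs_eq_one_iff.1 h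
    · exact (S.no_comm h h2).elim
    · exact (S.no_comm_dvd h.symm.dvd huL hu1 hug).elim
    · exact (S.no_comm_dvd (h ▸ Dvd.intro_left n rfl) huL hu1 hug).elim
  have hge : center G ≤ C u ⊓ C y := fun z hz =>
    mem_inf.2 ⟨mem_C.2 (mem_center_iff.1 hz u).symm, mem_C.2 (mem_center_iff.1 hz y).symm⟩
  have heq : center G = C u ⊓ C y := le_antisymm hge hle
  have hidx : (center G).index = n * m := by
    rw [heq, Cfsg.Agent.Lib.FG85.ClassGraph.index_inf_of_coprime (C u) (C y)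
      (by change (cs u).Coprime (cs y); rw [hcu, S.hcy]; exact hH.cop)]
    change cs u * cs y = _
    rw [hcu, S.hcy]
  have hZw : center G ≤ C w := fun z hz => mem_C.2 (mem_center_iff.1 hz w).symm
  have h1 : center G = C w := eq_of_le_of_index_eq hZw (by
    rw [hidx]; exact hw.symm)
  have h2 : w ∈ center G := h1 ▸ mem_C_self w
  exact hH.not_center_of_eq_nm hw h2

end NS

/-- Products of classes: equality of sizes forces commuting. -/
theorem cs_mul_ne_of_not_commute {x y : G} (hco : (cs x).Coprime (cs y)) (hnc : ¬ Commute x y) :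
    cs (x * y) ≠ cs x * cs y := by
  intro heq
  let φ : {z : G // IsConj x z} × {z : G // IsConj y z} → {z : G // IsConj (x * y) z} :=
    fun p => ⟨p.1.1 * p.2.1, isConj_mul hco p.1.2 p.2.2⟩
  have hsurj : Function.Surjective φ := by
    rintro ⟨z, hz⟩
    obtain ⟨t, rfl⟩ := isConj_iff.1 hz
    refine ⟨(⟨t * x * t⁻¹, isConj_iff.2 ⟨t, rfl⟩⟩, ⟨t * y * t⁻¹, isConj_iff.2 ⟨t, rfl⟩⟩), ?_⟩
    apply Subtype.ext
    change t * x * t⁻¹ * (t * y * t⁻¹) = t * (x * y) * t⁻¹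
    group
  have hcard : Nat.card ({z : G // IsConj x z} × {z : G // IsConj y z}) ≤
      Nat.card {z : G // IsConj (x * y) z} := by
    rw [Nat.card_prod, card_class, card_class, card_class, heq]
  have hinj := (hsurj.bijective_of_nat_card_le hcard).1
  obtain ⟨g, hg⟩ : ∃ g, g = x * y := ⟨_, rfl⟩
  have h1 : φ (⟨g * x * g⁻¹, isConj_iff.2 ⟨g, rfl⟩⟩, ⟨g * y * g⁻¹, isConj_iff.2 ⟨g, rfl⟩⟩) =
      φ (⟨x, IsConj.refl x⟩, ⟨y, IsConj.refl y⟩) := by
    apply Subtype.ext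
    change g * x * g⁻¹ * (g * y * g⁻¹) = x * y
    have : g * x * g⁻¹ * (g * y * g⁻¹) = g * (x * y) * g⁻¹ := by group
    rw [this, ← hg]
    group
  have h2 := hinj h1
  have h3 : g * x * g⁻¹ = x := by
    have := congrArg (fun p => p.1.1) h2
    exact this
  apply hnc
  have h4 : g * x = x * g := mem_C.1 (C_inv_mem.1 h3)
  rw [hg] at h4
  -- `x y x = x x y`
  have h5 : y * x = x * y := by
    have : x * (y * x) = x * (x * y) := by
      calc x * (y * x) = x * y * x := by group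
        _ = x * (x * y) := h4
    exact mul_left_cancel this
  exact h5.symm

/-- The commutator subgroup `[y, L₀]`, for `L₀` abelian normal. -/
def LL (L₀ : Subgroup G) [hn : L₀.Normal] (hab : ∀ a ∈ L₀, ∀ b ∈ L₀, a * b = b * a) (y : G) :
    Subgroup G where
  carrier := {g | ∃ l ∈ L₀, g = y * l * y⁻¹ * l⁻¹}
  mul_mem' := by
    rintro _ _ ⟨l₁, h₁, rfl⟩ ⟨l₂, h₂, rfl⟩
    refine ⟨l₁ * l₂, L₀.mul_mem h₁ h₂, ?_⟩
    have h1 : l₁⁻¹ * (y * l₂ * y⁻¹) = (y * l₂ * y⁻¹) * l₁⁻¹ :=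
      hab _ (L₀.inv_mem h₁) _ (hn.conj_mem _ h₂ _)
    have h2 : l₁⁻¹ * l₂⁻¹ = l₂⁻¹ * l₁⁻¹ := hab _ (L₀.inv_mem h₁) _ (L₀.inv_mem h₂)
    calc y * l₁ * y⁻¹ * l₁⁻¹ * (y * l₂ * y⁻¹ * l₂⁻¹)
        = y * l₁ * y⁻¹ * (l₁⁻¹ * (y * l₂ * y⁻¹)) * l₂⁻¹ := by group
      _ = y * l₁ * y⁻¹ * ((y * l₂ * y⁻¹) * l₁⁻¹) * l₂⁻¹ := by rw [h1]
      _ = y * (l₁ * l₂) * y⁻¹ * (l₁⁻¹ * l₂⁻¹) := by group
      _ = y * (l₁ * l₂) * y⁻¹ * (l₂⁻¹ * l₁⁻¹) := by rw [h2]
      _ = _ := by group
  one_mem' := ⟨1, L₀.one_mem, by group⟩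
  inv_mem' := by
    rintro _ ⟨l, hl, rfl⟩
    refine ⟨l⁻¹, L₀.inv_mem hl, ?_⟩
    have h1 : l * (y * l⁻¹ * y⁻¹) = (y * l⁻¹ * y⁻¹) * l :=
      hab _ hl _ (hn.conj_mem _ (L₀.inv_mem hl) _)
    calc (y * l * y⁻¹ * l⁻¹)⁻¹ = l * (y * l⁻¹ * y⁻¹) := by group
      _ = (y * l⁻¹ * y⁻¹) * l := h1
      _ = _ := by group

/-- The central commutator lemma (`3`). -/
theorem no_central_u (H : Hyp G n m) (NG : NoGood G n m) {y₀ u g : G} (hy₀ : cs y₀ = m)
    (hu1 : u ≠ 1) (hc : Commute y₀ u) (hg : g * y₀ * g⁻¹ = y₀ * u) (hum : orderOf u ∣ m) : False := by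
  obtain ⟨p, hp, hpd⟩ := Nat.exists_prime_and_dvd (fun h => hu1 (orderOf_eq_one_iff.1 h))
  have hN : orderOf y₀ * orderOf u ≠ 0 := (Nat.mul_pos (orderOf_pos _) (orderOf_pos _)).ne'
  obtain ⟨E, M, hM, e⟩ := Nat.exists_eq_pow_mul_and_not_dvd hN p hp.ne_one
  set a := y₀ ^ M with ha
  have hap : PE p a := by
    refine ⟨E, ?_⟩
    rw [ha, ← pow_mul, mul_comm, ← e, pow_mul, pow_orderOf_eq_one, one_pow]
  have hu' : u ^ M ≠ 1 := by
    intro h
    exact hM (hpd.trans (orderOf_dvd_of_pow_eq_one h))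
  have hconj : g * a * g⁻¹ = a * u ^ M := by
    rw [ha, ← conj_pow, hg, hc.mul_pow]
  have hnc : a ∉ center G := by
    intro hz
    have h1 := (mem_center_iff.1 hz g)
    have h2 : g * a * g⁻¹ = a := by rw [h1]; group
    rw [hconj] at h2
    exact hu' (mul_eq_left.1 h2)
  have hcs : cs a ∣ m := hy₀ ▸ (cs_dvd_of_mem_zpowers (npow_mem_zpowers _ _))
  have h3 := H.eq_m_of_dvd hnc hcs
  have h4 := NG.left p a hp hap h3
  have h5 := Nat.dvd_gcd h4 (hpd.trans hum)
  rw [H.cop] at h5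
  exact hp.one_lt.ne' (Nat.dvd_one.1 h5)

/-- Case N. -/
theorem exists_NS (H : Hyp G n m) (NG : NoGood G n m) (hlt : n < m) {x₀ y₀ : G} (hx₀ : cs x₀ = n)
    (hy₀ : cs y₀ = m) (hnc : ¬ Commute x₀ y₀) : ∃ (L : Subgroup G) (y : G) (s : ℕ), NS G n m L y s := by
  have hcop : (cs x₀).Coprime (cs y₀) := by rw [hx₀, hy₀]; exact H.cop
  have h1 : cs (x₀ * y₀) ≠ n * m := by
    have := cs_mul_ne_of_not_commute hcop hnc
    rwa [hx₀, hy₀] at this
  have hle : cs (x₀ * y₀) ≤ cs y₀ := by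
    rw [hy₀]
    rcases H.val (x₀ * y₀) with h | h | h | h
    · rw [h]; have := H.hm; omega
    · rw [h]; exact hlt.le
    · exact h.le
    · exact absurd h h1
  obtain ⟨L₀, hL₀⟩ : ∃ L₀ : Subgroup G, L₀ = St y₀ := ⟨_, rfl⟩
  haveI hL₀n : L₀.Normal := hL₀ ▸ St_normal y₀
  have hu : ∀ x' : G, IsConj x₀ x' → x' * x₀⁻¹ ∈ L₀ := fun x' hx' => by
    rw [hL₀]
    exact mem_St_of_le' hcop hle hx'
  obtain ⟨u₀, hu₀⟩ : ∃ u₀, u₀ = (y₀ * x₀ * y₀⁻¹) * x₀⁻¹ := ⟨_, rfl⟩
  have hu₀L : u₀ ∈ L₀ := hu₀ ▸ hu _ (isConj_iff.2 ⟨y₀, rfl⟩)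
  have hu₀1 : u₀ ≠ 1 := by
    intro h
    rw [hu₀] at h
    have h2 : y₀ * x₀ * y₀⁻¹ = x₀ := mul_inv_eq_one.1 h
    exact hnc (mem_C.1 (C_inv_mem.1 h2)).symm
  have hcardL : Nat.card L₀ ∣ m := by
    rw [hL₀, ← hy₀]
    exact card_St_dvd y₀
  have hcl : ∀ l ∈ L₀, l ≠ 1 → cs l ∣ n := by
    intro l hl hl1
    have hlt2 : cs l < m := by
      have h2 : cs l < Nat.card L₀ := by
        rw [← card_class l]
        let ψ : {z : G // IsConj l z} → L₀ := fun z => ⟨z.1, by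
          obtain ⟨t, ht⟩ := isConj_iff.1 z.2
          rw [← ht]
          exact hL₀n.conj_mem _ hl _⟩
        have hinj : Function.Injective ψ := fun a b hab =>
          Subtype.ext (congrArg (fun w : L₀ => (w : G)) hab)
        have hns : ¬ Function.Surjective ψ := by
          intro hsurj
          obtain ⟨z, hz⟩ := hsurj 1
          have hz1 : z.1 = 1 := congrArg (fun w : L₀ => (w : G)) hz
          have := z.2
          rw [hz1] at this
          exact hl1 (isConj_one_right.1 this.symm)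
        cases nonempty_fintype G
        classical
        rw [Nat.card_eq_fintype_card, Nat.card_eq_fintype_card]
        exact Fintype.card_lt_of_injective_not_surjective ψ hinj hns
      exact lt_of_lt_of_le h2 (Nat.le_of_dvd (by have := H.hm; omega) hcardL)
    rcases H.val l with h | h | h | h
    · rw [h]; exact one_dvd n
    · rw [h]
    · omega
    · have := H.hn
      have hm0 : 0 < m := by have := H.hm; omega
      nlinarith
  have hcopL : ∀ l ∈ L₀, l ≠ 1 → (Nat.card L₀).Coprime (cs l) := fun l hl hl1 =>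
    Nat.Coprime.coprime_dvd_left hcardL (Nat.Coprime.coprime_dvd_right (hcl l hl hl1) H.cop.symm)
  have hab : ∀ a ∈ L₀, ∀ b ∈ L₀, a * b = b * a := by
    intro a ha b hb
    by_cases hb1 : b = 1
    · rw [hb1]; group
    · exact mem_C.1 (le_C_of_normal L₀ (hcopL b hb hb1) ha)
  have hu₀y : ¬ Commute y₀ u₀ := by
    intro hc
    have h2 : IsConj y₀ (y₀ * u₀) := by
      have h3 : u₀ ∈ St y₀ := hL₀ ▸ hu₀L
      exact h3 y₀ (IsConj.refl y₀)
    obtain ⟨g, hg⟩ := isConj_iff.1 h2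
    have hord : orderOf u₀ ∣ m := by
      have h3 := orderOf_dvd_natCard (⟨u₀, hu₀L⟩ : L₀)
      rw [Subgroup.orderOf_mk] at h3
      exact h3.trans hcardL
    exact no_central_u H NG hy₀ hu₀1 hc hg hord
  have hy₀D : y₀ ∉ centralizer (L₀ : Set G) := by
    intro h
    rw [mem_centralizer_iff] at h
    exact hu₀y (h u₀ hu₀L).symm
  obtain ⟨s, hs, y, hyz, hys, hyD⟩ := exists_primary_not_mem _ hy₀D
  haveI : Fact s.Prime := ⟨hs⟩
  have hnc' : y ∉ center G := by
    intro hz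
    apply hyD
    rw [mem_centralizer_iff]
    intro h _
    exact (mem_center_iff.1 hz h)
  have hcy : cs y = m := H.eq_m_of_dvd hnc' (hy₀ ▸ cs_dvd_of_mem_zpowers hyz)
  have hsn : s ∣ n := NG.left s y hs hys hcy
  have hsm : ¬ s ∣ m := fun h => by
    have h2 := Nat.dvd_gcd hsn h
    rw [H.cop] at h2
    exact hs.one_lt.ne' (Nat.dvd_one.1 h2)
  have hsL : ¬ s ∣ Nat.card L₀ := fun h => hsm (h.trans hcardL)
  let L : Subgroup G := LL L₀ hab y
  have hLL₀ : L ≤ L₀ := by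
    rintro _ ⟨l, hl, rfl⟩
    exact L₀.mul_mem (hL₀n.conj_mem _ hl _) (L₀.inv_mem hl)
  have hcardL' : Nat.card L ∣ m := (Subgroup.card_dvd_of_le hLL₀).trans hcardL
  have hfpf : ∀ v ∈ L, v * y = y * v → v = 1 := by
    rintro v ⟨l, hl, e⟩ hc
    have h2 : y * l * y⁻¹ = v * l := by rw [e]; group
    obtain ⟨E, hE⟩ := id hys
    have h3 := Cfsg.Agent.Lib.FGStruct.NMPart1.conj_pow_iter h2 (c := y) (v := l) (d := v) hc.symm (s ^ E)
    rw [hE] at h3
    have h4 : v ^ s ^ E = 1 := by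
      have : l = v ^ s ^ E * l := by rw [← h3]; group
      exact mul_eq_right.1 this.symm
    have h5 : v ^ Nat.card L₀ = 1 := by
      have hvL₀ : v ∈ L₀ := hLL₀ ⟨l, hl, e⟩
      have h6 := orderOf_dvd_natCard (⟨v, hvL₀⟩ : L₀)
      rw [Subgroup.orderOf_mk] at h6
      exact orderOf_dvd_iff_pow_eq_one.1 h6
    exact eq_one_of_orders (Nat.Coprime.pow_left E ((Nat.Prime.coprime_iff_not_dvd hs).2 hsL)) h4 h5
  have hcn : ∀ v ∈ L, v ≠ 1 → cs v = n := by
    intro v hv hv1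
    apply H.eq_n_of_dvd _ (hcl v (hLL₀ hv) hv1)
    intro hz
    exact hv1 (hfpf v hv (mem_center_iff.1 hz y).symm)
  have hLn : L.Normal := by
    constructor
    intro v hv g
    by_cases hv1 : v = 1
    · rw [hv1]
      have : g * 1 * g⁻¹ = 1 := by group
      rw [this]
      exact L.one_mem
    have hco : (cs y).Coprime (cs v) := by rw [hcy, hcn v hv hv1]; exact H.cop.symm
    obtain ⟨k, hk, c, hc, e⟩ := Cfsg.Agent.Lib.ClassGraph.Basic.exists_mul_of_coprime hco g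
    have e1 : g * v * g⁻¹ = k * v * k⁻¹ := by
      rw [e]
      have h1 := mem_C.1 hc
      have : k * c * v * (k * c)⁻¹ = k * (c * v) * c⁻¹ * k⁻¹ := by group
      rw [this, h1]
      group
    rw [e1]
    obtain ⟨l, hl, ev⟩ := hv
    refine ⟨k * l * k⁻¹, hL₀n.conj_mem _ hl _, ?_⟩
    have hk1 : k * y = y * k := mem_C.1 hk
    have hk2 : k⁻¹ * y⁻¹ * k = y⁻¹ := by
      have : Commute k y⁻¹ := (mem_C_comm.1 hk).inv_right
      rw [mul_assoc, ← this.eq]
      group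
    rw [ev]
    calc k * (y * l * y⁻¹ * l⁻¹) * k⁻¹ = (k * y) * l * y⁻¹ * l⁻¹ * k⁻¹ := by group
      _ = y * k * l * y⁻¹ * l⁻¹ * k⁻¹ := by rw [hk1]
      _ = y * k * l * (k⁻¹ * y⁻¹ * k) * l⁻¹ * k⁻¹ := by rw [hk2]
      _ = _ := by group
  have hne : ∃ v ∈ L, v ≠ 1 := by
    rw [mem_centralizer_iff] at hyD
    push Not at hyD
    obtain ⟨l, hl, hne⟩ := hyD
    refine ⟨y * l * y⁻¹ * l⁻¹, ⟨l, hl, rfl⟩, ?_⟩
    intro h
    apply hne
    have h2 : y * l * y⁻¹ = l := mul_inv_eq_one.1 h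
    exact (mem_C.1 (C_inv_mem.1 h2)).symm
  exact ⟨L, y, s, ⟨H, NG, hlt, hs, hLn, hcardL', hcn, hfpf, hne, hcy, hys⟩⟩

theorem caseN (H : Hyp G n m) (NG : NoGood G n m) (hlt : n < m) {x₀ y₀ w : G} (hx₀ : cs x₀ = n)
    (hy₀ : cs y₀ = m) (hnc : ¬ Commute x₀ y₀) (hw : cs w = n * m) : False := by
  obtain ⟨L, y, s, S⟩ := exists_NS H NG hlt hx₀ hy₀ hnc
  exact S.no_nm hw

end Cfsg.Agent.Lib.FGStruct.NMCaseN
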