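/-
Class sizes `1, n, m, nm` with `n`, `m` coprime: no good element, all classes commuting.
-/
import Mathlib
import Cfsg.Agent.Lib.FGStruct.NMBasic
import Cfsg.Agent.Lib.FGStruct.NMCaseN

set_option autoImplicit false
set_option linter.style.haveILetI false
set_option linter.unusedSectionVars false

namespace Cfsg.Agent.Lib.FGStruct.NMCaseP

open Subgroup
open Cfsg.Agent.Lib.ClassGraph.Basic (cs mem_cen cs_eq_one_iff cs_of_isConj cs_conj)
open Cfsg.Agent.Lib.ClassGraph.Top (eq_of_le_of_index_eq)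
open Cfsg.Agent.Lib.FGStruct.NMBasic
open Cfsg.Agent.Lib.FGStruct.NMCaseN (NoGood)
open scoped Pointwise

variable {G : Type*} [Group G] [Finite G] {n m : ℕ}

theorem exists_sylow_sub (p : ℕ) [Fact p.Prime] (A : Subgroup G) :
    ∃ T : Subgroup G, T ≤ A ∧ IsPGroup p T ∧ ¬ p ∣ T.relIndex A := by
  obtain ⟨R⟩ : Nonempty (Sylow p A) := inferInstance
  refine ⟨(R : Subgroup A).map A.subtype, map_subtype_le _, R.isPGroup'.map _, ?_⟩
  have h : ((R : Subgroup A).map A.subtype).subgroupOf A = (R : Subgroup A) :=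
    comap_map_eq_self_of_injective A.subtype_injective _
  rw [relIndex, h]
  exact R.not_dvd_index

/-- The configuration of Case P. -/
structure PS (G : Type*) [Group G] (n m : ℕ) (x y : G) (s : ℕ) : Prop where
  H : Hyp G n m
  NG : NoGood G n m
  hall : ∀ x y : G, cs x = n → cs y = m → Commute x y
  hcx : cs x = n
  hcy : cs y = m
  hs : s.Prime
  hys : PE s y
  hsn : s ∣ n

namespace PS

variable {x y : G} {s : ℕ}

theorem hsm (S : PS G n m x y s) : ¬ s ∣ m := fun h => by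
  have h2 := Nat.dvd_gcd S.hsn h
  rw [S.H.cop] at h2
  exact S.hs.one_lt.ne' (Nat.dvd_one.1 h2)

theorem not_dvd_n (S : PS G n m x y s) {q : ℕ} (hq : q.Prime) (hqm : q ∣ m) : ¬ q ∣ n := fun h => by
  have h2 := Nat.dvd_gcd h hqm
  rw [S.H.cop] at h2
  exact hq.one_lt.ne' (Nat.dvd_one.1 h2)

theorem ne_of_dvd (S : PS G n m x y s) {q : ℕ} (hq : q.Prime) (hqm : q ∣ m) : s ≠ q := by
  rintro rfl
  exact S.hsm hqm

theorem hyx (S : PS G n m x y s) : y ∈ C x := mem_C_comm.2 (S.hall x y S.hcx S.hcy).symm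

/-- `P1` in the case of a class of full size. -/
theorem p1_nm (S : PS G n m x y s) {w : G} {q : ℕ} (hq : q.Prime) (hqm : q ∣ m) (hw : PE q w)
    (hwx : w ∈ C x) (hcw : cs w = n * m) : ∃ h ∈ C x, C w ≤ C (h * y * h⁻¹) := by
  haveI : Fact s.Prime := ⟨S.hs⟩
  have hH := S.H
  have hsq := S.ne_of_dvd hq hqm
  obtain ⟨T, hTw, hTs, hTi⟩ := exists_sylow_sub s (C w)
  have hTc : ∀ g ∈ T, C w ≤ C g := by
    intro g hg
    have hgw := hTw hg
    exact hH.le_of_nm (mem_C_comm.1 hgw) (PE.coprime_order S.hs hq hsq (PE.of_mem hTs hg) hw) hcw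
  have hxw : x ∈ C w := mem_C_symm.1 hwx
  have hTx : T ≤ C x := fun g hg => mem_C_symm.1 (hTc g hg hxw)
  have hi : ¬ s ∣ T.relIndex (C x) := by
    have h1 := relIndex_mul_index hTx
    have h2 := relIndex_mul_index hTw
    have h3 : (C x).index = n := S.hcx
    have h4 : (C w).index = n * m := hcw
    rw [h3] at h1
    rw [h4, ← h1] at h2
    have hn0 : 0 < n := by have := hH.hn; omega
    have h5 : T.relIndex (C x) = T.relIndex (C w) * m := by
      apply Nat.eq_of_mul_eq_mul_right hn0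
      rw [← h2]
      ring
    rw [h5]
    intro hd
    rcases (Nat.Prime.dvd_mul S.hs).1 hd with h6 | h6
    · exact hTi h6
    · exact S.hsm h6
  have hTy : zpowers y ≤ C x := zpowers_le.2 S.hyx
  obtain ⟨h, hh, hconj⟩ := conj_sub hTy hTs S.hys.isPGroup_zpowers hi
  exact ⟨h, hh, hTc _ (hconj y (mem_zpowers y))⟩

/-- `P1`. -/
theorem p1 (S : PS G n m x y s) {w : G} {q : ℕ} (hq : q.Prime) (hqm : q ∣ m) (hw : PE q w)
    (hwx : w ∈ C x) : ∃ h ∈ C x, w ∈ C (h * y * h⁻¹) := by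
  have hH := S.H
  have h1y : (1 : G) * y * (1 : G)⁻¹ = y := by group
  rcases hH.val w with h | h | h | h
  · refine ⟨1, (C x).one_mem, ?_⟩
    rw [h1y]
    exact mem_C_symm.1 (C_of_center (cs_eq_one_iff.1 h))
  · refine ⟨1, (C x).one_mem, ?_⟩
    rw [h1y]
    exact mem_C_comm.2 (S.hall w y h S.hcy)
  · exact absurd (S.NG.left q w hq hw h) (S.not_dvd_n hq hqm)
  · obtain ⟨k, hk, hle⟩ := S.p1_nm hq hqm hw hwx h
    exact ⟨k, hk, hle (mem_C_self w)⟩

/-- `P2`. -/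
theorem p2 (S : PS G n m x y s) {y₁ : G} {q : ℕ} (hy₁ : IsConj y y₁) (hq : q.Prime) (hqm : q ∣ m)
    {T : Subgroup G} (hT : IsPGroup q T) (hTC : T ≤ C y₁) :
    ∀ t₁ ∈ T, ∀ t₂ ∈ T, t₁ * t₂ = t₂ * t₁ := by
  haveI : Fact s.Prime := ⟨S.hs⟩
  haveI : Fact q.Prime := ⟨hq⟩
  have hH := S.H
  have hsq := S.ne_of_dvd hq hqm
  have hcy₁ : cs y₁ = m := (cs_of_isConj hy₁).symm.trans S.hcy
  obtain ⟨S', hS'⟩ := exists_sylow_le_C (p := s) (y := y₁) (by rw [hcy₁]; exact S.hsm)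
  have hnot : ¬ (S' : Subgroup G) ≤ C x := by
    intro hle
    apply not_dvd_cs_of_sylow_le S' hle
    rw [S.hcx]
    exact S.hsn
  obtain ⟨g, hgS, hgx⟩ := SetLike.not_le_iff_exists.1 hnot
  have hgs : PE s g := PE.of_mem S'.isPGroup' hgS
  have hcg : cs g = n * m := by
    rcases hH.val g with h | h | h | h
    · exact absurd (mem_C_symm.1 (C_of_center (cs_eq_one_iff.1 h))) hgx
    · exact absurd (S.NG.right s g S.hs hgs h) S.hsm
    · exact absurd (mem_C_comm.2 (S.hall x g S.hcx h).symm) hgx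
    · exact h
  obtain ⟨Q₂, hQg, hQq, hQi⟩ := exists_sylow_sub q (C g)
  have hQc : ∀ t ∈ Q₂, C g ≤ C t := by
    intro t ht
    exact hH.le_of_nm (mem_C_comm.1 (hQg ht))
      (PE.coprime_order hq S.hs hsq.symm (PE.of_mem hQq ht) hgs) hcg
  have hy₁g : y₁ ∈ C g := mem_C_symm.1 (hS' hgS)
  have hQy : Q₂ ≤ C y₁ := fun t ht => mem_C_symm.1 (hQc t ht hy₁g)
  have hi : ¬ q ∣ Q₂.relIndex (C y₁) := by
    have h1 := relIndex_mul_index hQy
    have h2 := relIndex_mul_index hQg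
    have h3 : (C y₁).index = m := hcy₁
    have h4 : (C g).index = n * m := hcg
    rw [h3] at h1
    rw [h4, ← h1] at h2
    have hm0 : 0 < m := by have := hH.hm; omega
    have h5 : Q₂.relIndex (C y₁) = Q₂.relIndex (C g) * n := by
      apply Nat.eq_of_mul_eq_mul_right hm0
      rw [← h2]
      ring
    rw [h5]
    intro hd
    rcases (Nat.Prime.dvd_mul hq).1 hd with h6 | h6
    · exact hQi h6
    · exact S.not_dvd_n hq hqm h6
  obtain ⟨h, -, hconj⟩ := conj_sub hTC hQq hT hi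
  intro t₁ ht₁ t₂ ht₂
  have h1 := hconj t₁ ht₁
  have h2 := hconj t₂ ht₂
  have h3 : (h * t₂ * h⁻¹) * (h * t₁ * h⁻¹) = (h * t₁ * h⁻¹) * (h * t₂ * h⁻¹) :=
    mem_C.1 (hQc _ h1 (hQg h2))
  have h4 : h * (t₂ * t₁) * h⁻¹ = h * (t₁ * t₂) * h⁻¹ := by
    calc h * (t₂ * t₁) * h⁻¹ = (h * t₂ * h⁻¹) * (h * t₁ * h⁻¹) := by group
      _ = (h * t₁ * h⁻¹) * (h * t₂ * h⁻¹) := h3
      _ = _ := by group
  have h5 : h * (t₂ * t₁) = h * (t₁ * t₂) := mul_right_cancel h4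
  exact (mul_left_cancel h5).symm

end PS

/-- Elements commuting with all conjugates of `y`. -/
def DD (y : G) : Subgroup G where
  carrier := {g | ∀ y₁, IsConj y y₁ → g ∈ C y₁}
  mul_mem' := fun ha hb y₁ h => (C y₁).mul_mem (ha y₁ h) (hb y₁ h)
  one_mem' := fun y₁ _ => (C y₁).one_mem
  inv_mem' := fun ha y₁ h => (C y₁).inv_mem (ha y₁ h)

theorem conj_mem_C_conj {g u : G} (c : G) (h : g ∈ C u) : c * g * c⁻¹ ∈ C (c * u * c⁻¹) := by
  rw [mem_C] at h ⊢
  calc c * g * c⁻¹ * (c * u * c⁻¹) = c * (g * u) * c⁻¹ := by group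
    _ = c * (u * g) * c⁻¹ := by rw [h]
    _ = _ := by group

theorem mem_C_of_conj {g u c : G} (h : c * g * c⁻¹ ∈ C (c * u * c⁻¹)) : g ∈ C u := by
  have h1 := conj_mem_C_conj c⁻¹ h
  have e1 : c⁻¹ * (c * g * c⁻¹) * c⁻¹⁻¹ = g := by group
  have e2 : c⁻¹ * (c * u * c⁻¹) * c⁻¹⁻¹ = u := by group
  rwa [e1, e2] at h1

theorem DD_normal (y : G) : (DD y).Normal := ⟨fun g hg t y₁ h => by
  have h1 : IsConj y (t⁻¹ * y₁ * t⁻¹⁻¹) := h.trans (isConj_iff.2 ⟨t⁻¹, rfl⟩)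
  have h2 := conj_mem_C_conj t (hg _ h1)
  have e : t * (t⁻¹ * y₁ * t⁻¹⁻¹) * t⁻¹ = y₁ := by group
  rwa [e] at h2⟩

namespace PS

variable {x y : G} {s : ℕ}

/-- `P3`. -/
theorem p3 (S : PS G n m x y s) {q : ℕ} [Fact q.Prime] (hqm : q ∣ m) (Q : Sylow q G)
    (hQ : (Q : Subgroup G) ≤ C x) :
    ∃ h ∈ C x, ∀ c ∈ (Q : Subgroup G),
      c ∈ normalizer ((C x ⊓ C (h * y * h⁻¹) : Subgroup G) : Set G) := by
  have hq : q.Prime := Fact.out
  have hH := S.H
  have hDn := DD_normal y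
  have hnle : ¬ (Q : Subgroup G) ≤ DD y := by
    intro hle
    apply not_dvd_cs_of_sylow_le Q (fun g hg => hle hg y (IsConj.refl y))
    rw [S.hcy]
    exact hqm
  haveI hD' : ((DD y).subgroupOf (Q : Subgroup G)).Normal := hDn.subgroupOf _
  have hnt : Nontrivial ((Q : Subgroup G) ⧸ (DD y).subgroupOf (Q : Subgroup G)) := by
    rw [QuotientGroup.nontrivial_iff]
    intro htop
    apply hnle
    intro g hg
    have : (⟨g, hg⟩ : (Q : Subgroup G)) ∈ (DD y).subgroupOf (Q : Subgroup G) := by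
      rw [htop]; trivial
    exact mem_subgroupOf.1 this
  have hqp : IsPGroup q ((Q : Subgroup G) ⧸ (DD y).subgroupOf (Q : Subgroup G)) :=
    Q.isPGroup'.to_quotient _
  have hcen := hqp.center_nontrivial
  obtain ⟨⟨γ, hγc⟩, hγ1⟩ := exists_ne (1 : center ((Q : Subgroup G) ⧸ (DD y).subgroupOf (Q : Subgroup G)))
  obtain ⟨⟨u, huQ⟩, rfl⟩ := QuotientGroup.mk_surjective γ
  have huD : u ∉ DD y := by
    intro hu
    apply hγ1
    apply Subtype.ext
    exact (QuotientGroup.eq_one_iff _).2 (mem_subgroupOf.2 hu)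
  have hτ : ∀ c ∈ (Q : Subgroup G), u⁻¹ * (c * u * c⁻¹) ∈ DD y := by
    intro c hc
    have h1 := mem_center_iff.1 hγc (((⟨c, hc⟩ : (Q : Subgroup G)) :
      (Q : Subgroup G) ⧸ (DD y).subgroupOf (Q : Subgroup G)))
    have h2 : ((⟨u, huQ⟩ : (Q : Subgroup G)) :
        (Q : Subgroup G) ⧸ (DD y).subgroupOf (Q : Subgroup G)) =
        (((⟨c, hc⟩ * ⟨u, huQ⟩ * (⟨c, hc⟩ : (Q : Subgroup G))⁻¹ : (Q : Subgroup G))) :
        (Q : Subgroup G) ⧸ (DD y).subgroupOf (Q : Subgroup G)) := by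
      rw [QuotientGroup.mk_mul, QuotientGroup.mk_mul, QuotientGroup.mk_inv, h1]
      group
    have h3 := QuotientGroup.eq.1 h2
    exact mem_subgroupOf.1 h3
  have huq : PE q u := PE.of_mem Q.isPGroup' huQ
  have hcu : cs u = n * m := by
    rcases hH.val u with h | h | h | h
    · exact absurd (fun y₁ _ => mem_C_symm.1 (C_of_center (cs_eq_one_iff.1 h))) huD
    · exact absurd (fun y₁ hy₁ => mem_C_comm.2 (S.hall u y₁ h ((cs_of_isConj hy₁).symm.trans S.hcy))) huD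
    · exact absurd (S.NG.left q u hq huq h) (S.not_dvd_n hq hqm)
    · exact h
  obtain ⟨h, hh, hle⟩ := S.p1_nm hq hqm huq (hQ huQ) hcu
  obtain ⟨y₁, hy₁e⟩ : ∃ y₁, y₁ = h * y * h⁻¹ := ⟨_, rfl⟩
  have hy₁ : IsConj y y₁ := isConj_iff.2 ⟨h, hy₁e.symm⟩
  rw [← hy₁e] at hle
  have hcy₁ : cs y₁ = m := (cs_of_isConj hy₁).symm.trans S.hcy
  refine ⟨h, hh, fun c hc => ?_⟩
  rw [← hy₁e]
  have hq' : ∀ g ∈ C u, (orderOf g).Coprime q → C u ≤ C g := fun g hg ho =>
    hH.le_of_nm (mem_C_comm.1 hg)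
      (huq.coprime hq ((Nat.Prime.coprime_iff_not_dvd hq).1 ho.symm)).symm hcu
  obtain ⟨R⟩ : Nonempty (Sylow q (C u)) := inferInstance
  have hnd : ∀ g' : C u, (orderOf g').Coprime q → ¬ q ∣ (centralizer ({g'} : Set (C u))).index := by
    intro g' hg'
    change ¬ q ∣ cs g'
    rw [cs_sub, relIndex_eq_one.2 (hq' g' g'.2 (by rwa [Subgroup.orderOf_coe]))]
    exact hq.not_dvd_one
  obtain ⟨hRn, -⟩ := Cfsg.Agent.Lib.Transfer.ClassSize.normal_of_forall_not_dvd_index q hnd R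
  obtain ⟨T', hT'⟩ : ∃ T' : Subgroup G, T' = (R : Subgroup (C u)).map (C u).subtype := ⟨_, rfl⟩
  have hT'q : IsPGroup q T' := hT' ▸ R.isPGroup'.map _
  have hT'C : T' ≤ C y₁ := hT' ▸ (map_subtype_le _).trans hle
  have hT'mem : ∀ a ∈ C u, PE q a → a ∈ T' := by
    intro a ha hpa
    rw [hT']
    have hpa' : PE q (⟨a, ha⟩ : C u) := by
      obtain ⟨k, hk⟩ := hpa
      exact ⟨k, Subtype.ext (by simpa using hk)⟩
    exact ⟨⟨a, ha⟩, mem_of_normal_sylow R hRn hpa', rfl⟩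
  have hT'ab := S.p2 hy₁ hq hqm hT'q hT'C
  have hi : ∀ a ∈ C u, PE q a → ∀ g ∈ C u, a * g = g * a := by
    intro a ha hpa g hg
    obtain ⟨a', b', e, -, ha', hb', haz, hbz⟩ := split q g
    rw [← e]
    have h1 := hT'ab a (hT'mem a ha hpa) a' (hT'mem a' (mem_C_of_mem_zpowers hg haz) ha')
    have h2 : a ∈ C b' := hq' b' (mem_C_of_mem_zpowers hg hbz) hb' ha
    calc a * (a' * b') = (a * a') * b' := by group
      _ = (a' * a) * b' := by rw [h1]
      _ = a' * (a * b') := by group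
      _ = a' * (b' * a) := by rw [mem_C.1 h2]
      _ = _ := by group
  have hab : ∀ g₁ ∈ C u, ∀ g₂ ∈ C u, g₁ * g₂ = g₂ * g₁ := by
    intro g₁ h₁ g₂ h₂
    obtain ⟨a, b, e, -, ha, hb, haz, hbz⟩ := split q g₁
    rw [← e]
    have h1 := hi a (mem_C_of_mem_zpowers h₁ haz) ha g₂ h₂
    have h2 : g₂ ∈ C b := hq' b (mem_C_of_mem_zpowers h₁ hbz) hb h₂
    calc (a * b) * g₂ = a * (b * g₂) := by group
      _ = a * (g₂ * b) := by rw [mem_C.1 h2]
      _ = (a * g₂) * b := by group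
      _ = (g₂ * a) * b := by rw [h1]
      _ = _ := by group
  have hτc := hτ c hc
  obtain ⟨τ, hτe⟩ : ∃ τ, τ = u⁻¹ * (c * u * c⁻¹) := ⟨_, rfl⟩
  rw [← hτe] at hτc
  have hτy₁ : τ ∈ C y₁ := hτc y₁ hy₁
  have hτQ : τ ∈ (Q : Subgroup G) := by
    rw [hτe]
    exact (Q : Subgroup G).mul_mem ((Q : Subgroup G).inv_mem huQ)
      ((Q : Subgroup G).mul_mem ((Q : Subgroup G).mul_mem hc huQ) ((Q : Subgroup G).inv_mem hc))
  have hTq : IsPGroup q ((Q : Subgroup G) ⊓ C y₁ : Subgroup G) := Q.isPGroup'.to_le inf_le_left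
  have hcomm := S.p2 hy₁ hq hqm hTq inf_le_right u (mem_inf.2 ⟨huQ, hle (mem_C_self u)⟩) τ
    (mem_inf.2 ⟨hτQ, hτy₁⟩)
  have hcu1 : c * u * c⁻¹ ∈ C u := by
    have e : c * u * c⁻¹ = u * τ := by rw [hτe]; group
    rw [e]
    exact (C u).mul_mem (mem_C_self u) (mem_C.2 hcomm.symm)
  have hle2 : C u ≤ C (c * u * c⁻¹) := fun g hg => mem_C.2 (hab g hg _ hcu1)
  have heq2 : C u = C (c * u * c⁻¹) := eq_of_le_of_index_eq hle2 (by
    change cs u = cs (c * u * c⁻¹)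
    rw [cs_conj])
  have hCx : C u ≤ C x := fun g hg => mem_C.2 (hab g hg x (mem_C_symm.1 (hQ huQ)))
  have heq3 : C u = C x ⊓ C y₁ := eq_of_le_of_index_eq (le_inf hCx hle) (by
    rw [Cfsg.Agent.Lib.FG85.ClassGraph.index_inf_of_coprime (C x) (C y₁)
      (by change (cs x).Coprime (cs y₁); rw [S.hcx, hcy₁]; exact hH.cop)]
    change cs u = cs x * cs y₁
    rw [hcu, S.hcx, hcy₁])
  rw [← heq3, mem_normalizer_iff]
  intro g
  constructor
  · intro hg
    have h1 := conj_mem_C_conj c hg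
    rw [← heq2] at h1
    exact h1
  · intro hg
    apply mem_C_of_conj (c := c)
    rw [← heq2]
    exact hg

/-- `M₀` under conjugation by an element of `C x`. -/
theorem mem_M_iff {h g : G} (hh : h ∈ C x) :
    h * g * h⁻¹ ∈ C x ⊓ C (h * y * h⁻¹) ↔ g ∈ C x ⊓ C y := by
  have hx : h * x * h⁻¹ = x := C_inv_mem.2 hh
  rw [mem_inf, mem_inf]
  constructor
  · rintro ⟨h1, h2⟩
    refine ⟨mem_C_of_conj (c := h) ?_, mem_C_of_conj h2⟩
    rwa [hx]
  · rintro ⟨h1, h2⟩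
    refine ⟨?_, conj_mem_C_conj h h2⟩
    have := conj_mem_C_conj h h1
    rwa [hx] at this

/-- `P4`. -/
theorem p4 (S : PS G n m x y s) : C x ≤ normalizer ((C x ⊓ C y : Subgroup G) : Set G) := by
  have hH := S.H
  obtain ⟨M₀, hM₀⟩ : ∃ M₀ : Subgroup G, M₀ = C x ⊓ C y := ⟨_, rfl⟩
  rw [← hM₀]
  obtain ⟨N, hN⟩ : ∃ N : Subgroup G, N = normalizer (M₀ : Set G) ⊓ C x := ⟨_, rfl⟩
  have hNx : N ≤ C x := hN ▸ inf_le_right
  have hM₀N : M₀ ≤ N := by
    rw [hN]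
    exact le_inf le_normalizer (hM₀ ▸ inf_le_left)
  have hM₀x : M₀ ≤ C x := hM₀ ▸ inf_le_left
  have hindex : M₀.relIndex (C x) = m := by
    have h1 := relIndex_mul_index hM₀x
    have h2 : M₀.index = n * m := by
      rw [hM₀, Cfsg.Agent.Lib.FG85.ClassGraph.index_inf_of_coprime (C x) (C y)
        (by change (cs x).Coprime (cs y); rw [S.hcx, S.hcy]; exact hH.cop)]
      change cs x * cs y = _
      rw [S.hcx, S.hcy]
    rw [h2, show (C x).index = n from S.hcx] at h1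
    have hn0 : 0 < n := by have := hH.hn; omega
    apply Nat.eq_of_mul_eq_mul_right hn0
    rw [h1]
    ring
  have hdm : N.relIndex (C x) ∣ m := by
    rw [← hindex, ← relIndex_mul_relIndex _ _ _ hM₀N hNx]
    exact Dvd.intro_left _ rfl
  have hnotq : ∀ q : ℕ, q.Prime → q ∣ m → ¬ q ∣ N.relIndex (C x) := by
    intro q hq hqm
    haveI : Fact q.Prime := ⟨hq⟩
    obtain ⟨Q, hQ⟩ := exists_sylow_le_C (p := q) (y := x) (by rw [S.hcx]; exact S.not_dvd_n hq hqm)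
    obtain ⟨h, hh, hnorm⟩ := S.p3 hqm Q hQ
    let Q' : Sylow q G := h⁻¹ • Q
    have hQ'N : (Q' : Subgroup G) ≤ N := by
      intro c' hc'
      have h1 : h * c' * h⁻¹ ∈ (Q : Subgroup G) := by
        have h2 : c' ∈ MulAut.conj h⁻¹ • (Q : Subgroup G) := hc'
        rw [Subgroup.mem_pointwise_smul_iff_inv_smul_mem] at h2
        have e : (MulAut.conj h⁻¹)⁻¹ • c' = h * c' * h⁻¹ := by
          simp [MulAut.smul_def]
        rwa [e] at h2
      have h3 := hnorm _ h1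
      rw [mem_normalizer_iff] at h3
      have hc'x : c' ∈ C x := by
        have h4 := hQ h1
        have e : c' = h⁻¹ * (h * c' * h⁻¹) * h := by group
        rw [e]
        exact (C x).mul_mem ((C x).mul_mem ((C x).inv_mem hh) h4) hh
      rw [hN]
      refine mem_inf.2 ⟨?_, hc'x⟩
      rw [mem_normalizer_iff]
      intro g
      have e1 : (h * c' * h⁻¹) * (h * g * h⁻¹) * (h * c' * h⁻¹)⁻¹ = h * (c' * g * c'⁻¹) * h⁻¹ := by
        group
      have h5 := h3 (h * g * h⁻¹)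
      rw [e1] at h5
      rw [hM₀, ← mem_M_iff hh, ← mem_M_iff (g := c' * g * c'⁻¹) hh]
      exact h5
    intro hd
    have h1 : q ∣ N.index := by
      rw [← relIndex_mul_index hNx]
      exact hd.mul_right _
    exact Q'.not_dvd_index (h1.trans (index_dvd_of_le hQ'N))
  have hone : N.relIndex (C x) = 1 := by
    by_contra hne
    obtain ⟨q, hq, hqd⟩ := Nat.exists_prime_and_dvd hne
    exact hnotq q hq (hqd.trans hdm) hqd
  have hle := relIndex_eq_one.1 hone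
  exact fun g hg => by
    have := hle hg
    rw [hN] at this
    exact (mem_inf.1 this).1

/-- `P5`. -/
theorem p5 (S : PS G n m x y s) : False := by
  have hH := S.H
  obtain ⟨q, hq, hqm⟩ := Nat.exists_prime_and_dvd (show m ≠ 1 by have := hH.hm; omega)
  haveI : Fact q.Prime := ⟨hq⟩
  obtain ⟨Q, hQ⟩ := exists_sylow_le_C (p := q) (y := x) (by rw [S.hcx]; exact S.not_dvd_n hq hqm)
  have hnot : ¬ (Q : Subgroup G) ≤ C y := by
    intro hle
    apply not_dvd_cs_of_sylow_le Q hle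
    rw [S.hcy]
    exact hqm
  obtain ⟨w, hwQ, hwy⟩ := SetLike.not_le_iff_exists.1 hnot
  obtain ⟨h, hh, hwh⟩ := S.p1 hq hqm (PE.of_mem Q.isPGroup' hwQ) (hQ hwQ)
  have h1 : h⁻¹ * w * h ∈ C x ⊓ C y := by
    rw [← mem_M_iff hh]
    have e : h * (h⁻¹ * w * h) * h⁻¹ = w := by group
    rw [e]
    exact mem_inf.2 ⟨hQ hwQ, hwh⟩
  have h2 := S.p4 hh
  rw [mem_normalizer_iff] at h2
  have h3 := (h2 _).1 h1
  have e : h * (h⁻¹ * w * h) * h⁻¹ = w := by group
  rw [e] at h3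
  exact hwy (mem_inf.1 h3).2

end PS

/-- Case P. -/
theorem caseP (H : Hyp G n m) (NG : NoGood G n m) (hall : ∀ x y : G, cs x = n → cs y = m → Commute x y)
    {x₀ y₀ : G} (hx₀ : cs x₀ = n) (hy₀ : cs y₀ = m) : False := by
  obtain ⟨s, hs, y, hyz, hys, hyc⟩ := exists_primary_not_mem _ (H.not_center_of_eq_m hy₀)
  have hcy : cs y = m := H.eq_m_of_dvd hyc (hy₀ ▸ cs_dvd_of_mem_zpowers hyz)
  have S : PS G n m x₀ y s := ⟨H, NG, hall, hx₀, hcy, hs, hys, NG.left s y hs hys hcy⟩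
  exact S.p5

end Cfsg.Agent.Lib.FGStruct.NMCaseP
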