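import Cfsg.Agent.Lib.FGStruct.Cliff5
import Cfsg.Agent.Lib.FGStruct.TensorSp
import Cfsg.Agent.Lib.TI.SympExp4
import Cfsg.Agent.Lib.CmaxS.Proper2
import Cfsg.Agent.Lib.CycPairs.Basic

/-!
# Extraspecial groups of order `32` of minus type acting on a four-dimensional space
-/

set_option autoImplicit false
set_option linter.unusedSectionVars false
set_option linter.style.haveILetI false
set_option linter.unusedVariables false
set_option linter.unusedSimpArgs false

open Polynomial Module Matrix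
open scoped MatrixGroups

universe u

namespace Cfsg.Agent.Lib.FGStruct.SpFour

open Cfsg Cfsg.Geo Cfsg.Agent.Lib.Geo.Basic Cfsg.Agent.Lib.FGStruct.Cliff5

variable {ι : Type} [Fintype ι] [DecidableEq ι] {F : Type u} [Field F]

/-- The matrix of an element of a subgroup. -/
abbrev mm {R : Subgroup (GL ι F)} (t : R) : Matrix ι ι F := ((t : GL ι F) : Matrix ι ι F)

theorem mm_mul {R : Subgroup (GL ι F)} (a b : R) : mm (a * b) = mm a * mm b := rfl

theorem mm_one {R : Subgroup (GL ι F)} : mm (1 : R) = 1 := rfl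

/-- Matrix-level data. -/
structure MFive (R : Subgroup (GL ι F)) (z : R) (c : Fin 5 → R) : Prop where
  H : Five z c
  hz : mm z = -1
  comm : ∀ T : Matrix ι ι F, (∀ i, T * mm (c i) = mm (c i) * T) → ∃ s : F, T = s • 1

theorem exists_data [Finite F] [Nonempty ι] {R : Subgroup (GL ι F)} (hRs : IsSymplecticTypeGroup 2 R)
    (hRi : ActsAbsolutelyIrreducibly (matrixSet R)) (hR5 : Nat.card R = 2 ^ 5)
    (hRZ : Nat.card (Subgroup.center R) = 2) (hRm : IsOfMinusType 2 R) (hF2 : (2 : F) ≠ 0) :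
    ∃ (z : R) (c : Fin 5 → R), MFive R z c := by
  classical
  haveI : Finite R := inferInstance
  obtain ⟨z, hz1⟩ : ∃ z : Subgroup.center R, z ≠ 1 := by
    haveI : Finite (Subgroup.center R) := inferInstance
    haveI : Nontrivial (Subgroup.center R) := by
      apply Finite.one_lt_card_iff_nontrivial.1
      omega
    exact exists_ne 1
  have hz2 : z * z = 1 := by
    have h1 : orderOf z ∣ 2 := by
      rw [← hRZ]
      exact orderOf_dvd_natCard z
    have h2 := orderOf_dvd_iff_pow_eq_one.1 h1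
    rwa [pow_two] at h2
  have h4 : ∀ x : R, x ^ 4 = 1 := by
    intro x
    have h2 : Monoid.exponent R = 4 := by
      rw [hRs.exponent_eq]
      norm_num
    rw [← h2]
    exact Monoid.pow_exponent_eq_one x
  have hz1' : z.1 ≠ 1 := fun h => hz1 (Subtype.ext h)
  have hzz : z.1 * z.1 = 1 := congrArg Subtype.val hz2
  have hs := Cfsg.Agent.Lib.TI.SympExp4.structure_thm hRs.pGroup hRs.cyclic_of_characteristic h4
    (z := z.1) z.2 hzz hz1'
  have hzc : ∀ x : R, x * z.1 = z.1 * x := fun x => (Subgroup.mem_center_iff.1 z.2 x)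
  have X : Xs R z.1 := by
    refine ⟨hzc, hz1', hzz, hs.1, fun x y => ?_⟩
    rcases hs.2.1 x y with h | h
    · left
      exact commutatorElement_eq_one_iff_mul_comm.1 h
    · right
      rw [commutatorElement_def] at h
      rw [← h]
      group
  have hZ : ∀ x : R, (∀ y, x * y = y * x) → x = 1 ∨ x = z.1 := by
    intro x hx
    by_contra hne
    push Not at hne
    have hxc : x ∈ Subgroup.center R := Subgroup.mem_center_iff.2 (fun y => (hx y).symm)
    have h3 : ({1, z.1, x} : Finset R).card = 3 := by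
      have a1 : (1 : R) ≠ z.1 := hz1'.symm
      have a2 : (1 : R) ≠ x := hne.1.symm
      have a3 : z.1 ≠ x := hne.2.symm
      rw [Finset.card_insert_of_notMem, Finset.card_insert_of_notMem, Finset.card_singleton] <;>
        simp [*]
    have hle := card_le_of_sub (Subgroup.center R) {1, z.1, x} (by
      intro y hy
      simp only [Finset.mem_insert, Finset.mem_singleton] at hy
      rcases hy with h | h | h
      · rw [h]; exact one_mem _
      · rw [h]; exact z.2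
      · rw [h]; exact hxc)
    rw [h3, hRZ] at hle
    omega
  have hE8 : ∀ A : Subgroup R, (∀ x ∈ A, ∀ y ∈ A, x * y = y * x) → (∀ x ∈ A, x * x = 1) →
      Nat.card A < 8 := by
    intro A h1 h2
    have := hRm A ⟨⟨fun a b => Subtype.ext (h1 _ a.2 _ b.2)⟩⟩ h2
    simpa using this
  obtain ⟨c, hc⟩ := exists_five' X (by rw [hR5]; norm_num) hZ hE8
  refine ⟨z.1, c, hc, ?_, fun T hT => ?_⟩
  · have hzZ : ((z.1 : R) : GL ι F) ∈ scalars ι F := by
      have h1 : z.1 ∈ (scalars ι F).subgroupOf R := by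
        rw [← Cfsg.Agent.Lib.Asch.SC.center_eq hRi]
        exact z.2
      exact Subgroup.mem_subgroupOf.1 h1
    obtain ⟨s₀, hs'⟩ := (mem_scalars_iff _).1 hzZ
    generalize (s₀ : F) = s at hs'
    have h2 : (s * s) • (1 : Matrix ι ι F) = 1 := by
      have h3 := congrArg (fun t : R => mm t) hzz
      simp only [mm_mul, mm_one] at h3
      simp only [mm] at h3
      rw [hs'] at h3
      rw [Matrix.smul_mul, Matrix.mul_smul, Matrix.one_mul, smul_smul] at h3
      exact h3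
    have h3 : s * s = 1 := by
      obtain ⟨i⟩ := ‹Nonempty ι›
      have := congrFun (congrFun h2 i) i
      simpa using this
    have h4 : (s - 1) * (s + 1) = 0 := by linear_combination h3
    rcases mul_eq_zero.1 h4 with h5 | h5
    · exfalso
      apply hz1'
      apply Subtype.ext
      apply Units.ext
      rw [hs', sub_eq_zero.1 h5, one_smul]
      rfl
    · have : s = -1 := eq_neg_of_add_eq_zero_left h5
      show ((z.1 : R) : GL ι F).val = -1
      rw [hs', this]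
      simp
  · apply hRi.2
    rintro _ ⟨g, hg, rfl⟩
    have h1 : (⟨g, hg⟩ : R) ∈ Subgroup.closure (Set.range c) := by
      rw [hc.gen]
      exact Subgroup.mem_top _
    have key : ∀ t : R, t ∈ Subgroup.closure (Set.range c) → T * mm t = mm t * T := by
      intro t ht
      induction ht using Subgroup.closure_induction with
      | mem x hx =>
        obtain ⟨i, rfl⟩ := hx
        exact hT i
      | one => simp [mm_one]
      | mul a b _ _ h1 h2 =>
        rw [mm_mul, ← mul_assoc, h1, mul_assoc, h2, mul_assoc]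
      | inv a _ h1 =>
        have h2 : mm a⁻¹ * mm a = 1 := by rw [← mm_mul, inv_mul_cancel, mm_one]
        have h3 : mm a * mm a⁻¹ = 1 := by rw [← mm_mul, mul_inv_cancel, mm_one]
        calc T * mm a⁻¹ = (mm a⁻¹ * mm a) * (T * mm a⁻¹) := by rw [h2, one_mul]
          _ = mm a⁻¹ * (mm a * T) * mm a⁻¹ := by noncomm_ring
          _ = mm a⁻¹ * (T * mm a) * mm a⁻¹ := by rw [h1]
          _ = mm a⁻¹ * T * (mm a * mm a⁻¹) := by noncomm_ring
          _ = mm a⁻¹ * T := by rw [h3, mul_one]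
    exact key _ h1

namespace MFive

variable {R : Subgroup (GL ι F)} {z : R} {c : Fin 5 → R} (D : MFive R z c)
include D

theorem msq (i : Fin 5) : mm (c i) * mm (c i) = 1 := by
  rw [← mm_mul, D.H.sq, mm_one]

theorem manti {i j : Fin 5} (h : i ≠ j) : mm (c i) * mm (c j) = -(mm (c j) * mm (c i)) := by
  rw [← mm_mul, D.H.anti i j h, mm_mul, mm_mul, D.hz]
  simp

end MFive

/-- The automorphism induced by an element of the normaliser. -/
noncomputable abbrev phi {R : Subgroup (GL ι F)} {x : GL ι F} (hx : x ∈ subgroupNormalizer R) : MulAut R :=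
  R.normalizerMonoidHom ⟨x, hx⟩

theorem phi_pow_mul {R : Subgroup (GL ι F)} {x : GL ι F} (hx : x ∈ subgroupNormalizer R) (k : ℕ)
    (t : R) : (x ^ k : GL ι F) * (t : GL ι F) = (((phi hx) ^ k) t : R) * (x ^ k : GL ι F) := by
  rw [phi, ← map_pow]
  have : (((R.normalizerMonoidHom (⟨x, hx⟩ ^ k)) t : R) : GL ι F) =
      (x ^ k : GL ι F) * (t : GL ι F) * (x ^ k : GL ι F)⁻¹ := rfl
  rw [this]
  group

theorem phi_mul {R : Subgroup (GL ι F)} {x : GL ι F} (hx : x ∈ subgroupNormalizer R)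
    (t : R) : (x : GL ι F) * (t : GL ι F) = ((phi hx) t : R) * (x : GL ι F) := by
  have := phi_pow_mul hx 1 t
  simpa using this

theorem phi_pow_one [Nonempty ι] {R : Subgroup (GL ι F)} {x : GL ι F} (hx : x ∈ subgroupNormalizer R) {r : ℕ}
    {s : F} (h : ((x ^ r : GL ι F) : Matrix ι ι F) = s • 1) : (phi hx) ^ r = 1 := by
  refine MulEquiv.ext fun t => Subtype.ext (Units.ext ?_)
  have h1 := congrArg Units.val (phi_pow_mul hx r t)
  rw [Units.val_mul, Units.val_mul, h] at h1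
  rw [Matrix.smul_mul, Matrix.mul_smul, Matrix.one_mul, Matrix.mul_one] at h1
  have hs : s ≠ 0 := by
    rintro rfl
    have h2 := h
    rw [zero_smul] at h2
    have h3 : ((x ^ r : GL ι F) : Matrix ι ι F) * (((x ^ r)⁻¹ : GL ι F) : Matrix ι ι F) = 1 := by
      rw [← Units.val_mul, mul_inv_cancel, Units.val_one]
    rw [h2, zero_mul] at h3
    obtain ⟨i⟩ := ‹Nonempty ι›
    have := congrFun (congrFun h3 i) i
    simp at this
  have h4 := smul_right_injective _ hs h1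
  exact h4.symm

theorem scalar_of_phi {R : Subgroup (GL ι F)} {z : R} {c : Fin 5 → R} (D : MFive R z c) {x : GL ι F}
    (hx : x ∈ subgroupNormalizer R) (h : phi hx = 1) : ∃ s : F, (x : Matrix ι ι F) = s • 1 := by
  apply D.comm
  intro i
  have h1 := congrArg Units.val (phi_mul hx (c i))
  rw [Units.val_mul, Units.val_mul, h] at h1
  exact h1.symm ▸ rfl

section linear

theorem finrank_ker_eq (M : Matrix ι ι F) : finrank F (LinearMap.ker M.mulVecLin) = Fintype.card ι - M.rank := by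
  have h1 := LinearMap.finrank_range_add_finrank_ker M.mulVecLin
  rw [Module.finrank_fintype_fun_eq_card] at h1
  have h2 : finrank F (LinearMap.range M.mulVecLin) = M.rank := rfl
  omega

theorem exists_common (W₁ W₂ : Submodule F (ι → F))
    (h : Fintype.card ι < finrank F W₁ + finrank F W₂) : ∃ v, v ≠ 0 ∧ v ∈ W₁ ∧ v ∈ W₂ := by
  by_contra hne
  push Not at hne
  have h0 : W₁ ⊓ W₂ = ⊥ := by
    rw [eq_bot_iff]
    intro v hv
    by_contra hv0
    exact hne v hv0 hv.1 hv.2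
  have h1 := Submodule.finrank_sup_add_finrank_inf_eq W₁ W₂
  rw [h0, finrank_bot, add_zero] at h1
  have h2 := Submodule.finrank_le (W₁ ⊔ W₂)
  rw [Module.finrank_fintype_fun_eq_card] at h2
  omega

/-- Elements of the normaliser with a large fixed space are scalars. -/
theorem scalar_of_small {R : Subgroup (GL ι F)} {z : R} {c : Fin 5 → R} (D : MFive R z c)
    (hF2 : (2 : F) ≠ 0) (hι : Fintype.card ι = 4) {x : GL ι F}
    (hx : x ∈ subgroupNormalizer R) (hr : ((x : Matrix ι ι F) - 1).rank ≤ 1) :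
    ∃ s : F, (x : Matrix ι ι F) = s • 1 := by
  apply D.comm
  intro i
  set T : Matrix ι ι F := (x : Matrix ι ι F) with hT
  set a : Matrix ι ι F := mm (c i) with ha
  have hm : T * a = mm (phi hx (c i)) * T := congrArg Units.val (phi_mul hx (c i))
  have haa : a * a = 1 := D.msq i
  have hr2 : ((T - 1) * a).rank ≤ 1 := (Matrix.rank_mul_le_left _ _).trans hr
  obtain ⟨v, hv0, hv1, hv2⟩ := exists_common (LinearMap.ker (T - 1).mulVecLin)
    (LinearMap.ker ((T - 1) * a).mulVecLin) (by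
      rw [finrank_ker_eq, finrank_ker_eq, hι]
      omega)
  rw [LinearMap.mem_ker, Matrix.mulVecLin_apply, Matrix.sub_mulVec, Matrix.one_mulVec, sub_eq_zero]
    at hv1
  rw [LinearMap.mem_ker, Matrix.mulVecLin_apply, ← Matrix.mulVec_mulVec, Matrix.sub_mulVec,
    Matrix.one_mulVec, sub_eq_zero] at hv2
  set t := phi hx (c i) with ht
  have htv : mm t *ᵥ v = a *ᵥ v := by
    calc mm t *ᵥ v = mm t *ᵥ (T *ᵥ v) := by rw [hv1]
      _ = (mm t * T) *ᵥ v := by rw [Matrix.mulVec_mulVec]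
      _ = (T * a) *ᵥ v := by rw [hm]
      _ = T *ᵥ (a *ᵥ v) := by rw [Matrix.mulVec_mulVec]
      _ = a *ᵥ v := hv2
  have h2v : ∀ w : ι → F, w + w = 0 → w = 0 := by
    intro w hw
    have : (2 : F) • w = 0 := by rw [two_smul]; exact hw
    exact (smul_eq_zero.1 this).resolve_left hF2
  have hav0 : a *ᵥ v ≠ 0 := by
    intro h
    apply hv0
    have : a *ᵥ (a *ᵥ v) = v := by rw [Matrix.mulVec_mulVec, haa, Matrix.one_mulVec]
    rw [← this, h, Matrix.mulVec_zero]
  obtain ⟨j, hj⟩ := D.H.inv t (by rw [ht, ← map_mul, D.H.sq, map_one])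
    (by rw [ht]; simpa using D.H.ne_one i)
    (fun h => D.H.ne_z i ((phi hx).injective (by rw [← ht, h, D.H.aut_z])))
  have hbb : ∀ j, mm (c j) * mm (c j) = 1 := D.msq
  by_cases hji : j = i
  · subst hji
    rcases hj with h | h
    · rw [hm, h]
    · exfalso
      have h1 : mm t = - a := by
        rw [h, mm_mul, D.hz, neg_mul, one_mul]
      rw [h1, Matrix.neg_mulVec] at htv
      apply hav0
      apply h2v
      nth_rw 1 [← htv]
      simp
  · exfalso
    have hanti : a * mm (c j) = -(mm (c j) * a) := D.manti (Ne.symm hji)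
    set b := mm (c j) with hb
    have hbb' : b * b = 1 := hbb j
    have e1 : a *ᵥ (a *ᵥ v) = v := by rw [Matrix.mulVec_mulVec, haa, Matrix.one_mulVec]
    have e2 : b *ᵥ (b *ᵥ v) = v := by rw [Matrix.mulVec_mulVec, hbb', Matrix.one_mulVec]
    have key : (a * b) *ᵥ v = (b * a) *ᵥ v := by
      rcases hj with h | h
      · have h1 : b *ᵥ v = a *ᵥ v := by rw [← htv, h]
        rw [← Matrix.mulVec_mulVec, ← Matrix.mulVec_mulVec, h1, e1, ← h1, e2]
      · have h1 : -(b *ᵥ v) = a *ᵥ v := by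
          rw [← htv, h, mm_mul, D.hz, neg_mul, one_mul, Matrix.neg_mulVec]
        have h2 : b *ᵥ v = -(a *ᵥ v) := by rw [← h1, neg_neg]
        rw [← Matrix.mulVec_mulVec, ← Matrix.mulVec_mulVec, ← h1, Matrix.mulVec_neg,
          e2, h2, Matrix.mulVec_neg, e1]
    rw [hanti, Matrix.neg_mulVec] at key
    have h3 : (b * a) *ᵥ v = 0 := by
      apply h2v
      nth_rw 1 [← key]
      simp
    rw [← Matrix.mulVec_mulVec] at h3
    apply hav0
    have : b *ᵥ (b *ᵥ (a *ᵥ v)) = a *ᵥ v := by rw [Matrix.mulVec_mulVec, hbb', Matrix.one_mulVec]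
    rw [← this, h3, Matrix.mulVec_zero]

/-- The three-dimensional obstruction. -/
theorem no_three_lin (B : LinearMap.BilinForm F (ι → F)) (hB : B.Nondegenerate) (halt : B.IsAlt)
    (hι : Fintype.card ι = 4) (h3F : (3 : F) ≠ 0) (h2F : (2 : F) ≠ 0)
    {X a b : Matrix ι ι F} (hX3 : X * X * X = 1) (hr : (X - 1).rank = 2)
    (hXiso : ∀ u v, B (X *ᵥ u) (X *ᵥ v) = B u v) (haiso : ∀ u v, B (a *ᵥ u) (a *ᵥ v) = B u v)
    (ha : a * a = 1) (hb : b * b = 1) (hab : a * b = -(b * a)) (hXa : X * a = a * X) (hXb : X * b = b * X) : False := by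
  classical
  set K₀ := LinearMap.ker (X - 1).mulVecLin with hK₀
  have hmem : ∀ v, v ∈ K₀ ↔ X *ᵥ v = v := by
    intro v
    rw [hK₀, LinearMap.mem_ker, Matrix.mulVecLin_apply, Matrix.sub_mulVec, Matrix.one_mulVec,
      sub_eq_zero]
  have hfr : finrank F K₀ = 2 := by
    rw [hK₀, finrank_ker_eq, hι, hr]
  obtain ⟨w₀, hw₀⟩ : ∃ w₀ : K₀, w₀ ≠ 0 := by
    haveI := Module.nontrivial_of_finrank_pos (R := F) (M := K₀) (by omega)
    exact exists_ne 0
  have hw₀' : (w₀ : ι → F) ≠ 0 := fun h => hw₀ (Subtype.ext h)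
  -- an eigenvector of `a` in the fixed space
  have hXa' : ∀ v, v ∈ K₀ → a *ᵥ v ∈ K₀ := by
    intro v hv
    rw [hmem] at hv ⊢
    rw [Matrix.mulVec_mulVec, hXa, ← Matrix.mulVec_mulVec, hv]
  have hXb' : ∀ v, v ∈ K₀ → b *ᵥ v ∈ K₀ := by
    intro v hv
    rw [hmem] at hv ⊢
    rw [Matrix.mulVec_mulVec, hXb, ← Matrix.mulVec_mulVec, hv]
  have e1 : ∀ v, a *ᵥ (a *ᵥ v) = v := fun v => by
    rw [Matrix.mulVec_mulVec, ha, Matrix.one_mulVec]
  have e2 : ∀ v, b *ᵥ (b *ᵥ v) = v := fun v => by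
    rw [Matrix.mulVec_mulVec, hb, Matrix.one_mulVec]
  obtain ⟨w, ε, hwK, hw0, hε, hεε⟩ : ∃ (w : ι → F) (ε : F), w ∈ K₀ ∧ w ≠ 0 ∧ a *ᵥ w = ε • w ∧ ε * ε = 1 := by
    by_cases h : a *ᵥ (w₀ : ι → F) + w₀ = 0
    · refine ⟨w₀, -1, w₀.2, hw₀', ?_, by ring⟩
      rw [neg_smul, one_smul]
      exact eq_neg_of_add_eq_zero_left h
    · refine ⟨a *ᵥ (w₀ : ι → F) + w₀, 1, K₀.add_mem (hXa' _ w₀.2) w₀.2, h, ?_, by ring⟩
      rw [one_smul, Matrix.mulVec_add, e1, add_comm]
  set u := b *ᵥ w with hu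
  have huK : u ∈ K₀ := hXb' w hwK
  have hu0 : u ≠ 0 := by
    intro h
    apply hw0
    rw [← e2 w, ← hu, h, Matrix.mulVec_zero]
  have hau : a *ᵥ u = (-ε) • u := by
    rw [hu, Matrix.mulVec_mulVec, hab, Matrix.neg_mulVec, ← Matrix.mulVec_mulVec, hε,
      Matrix.mulVec_smul, neg_smul]
  have h2v : ∀ {k : F} {y : ι → F}, (2 : F) * k ≠ 0 → k • y + k • y = 0 → y = 0 := by
    intro k y hk h
    have : ((2 : F) * k) • y = 0 := by rw [mul_smul, two_smul]; rw [← smul_add] at h ⊢; simpa [two_smul] using h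
    exact (smul_eq_zero.1 this).resolve_left hk
  have hε0 : ε ≠ 0 := by
    rintro rfl
    simp at hεε
  have hLI : LinearIndependent F ![w, u] := by
    rw [LinearIndependent.pair_iff]
    intro α β hαβ
    have h1 : a *ᵥ (α • w + β • u) = 0 := by rw [hαβ, Matrix.mulVec_zero]
    rw [Matrix.mulVec_add, Matrix.mulVec_smul, Matrix.mulVec_smul, hε, hau] at h1
    have h3 : (2 * α) • w = 0 := by
      have h4 : ε • (α • w + β • u) = 0 := by rw [hαβ, smul_zero]
      have h5 : (2 * (ε * α)) • w = 0 := by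
        have h6 : α • ε • w + β • (-ε) • u + ε • (α • w + β • u) = 0 := by rw [h1, h4, add_zero]
        rw [← h6]
        module
      rw [← mul_assoc, mul_comm 2 ε, mul_assoc, mul_smul] at h5
      exact (smul_eq_zero.1 h5).resolve_left hε0
    have h7 : (2 * β) • u = 0 := by
      have h4 : ε • (α • w + β • u) = 0 := by rw [hαβ, smul_zero]
      have h5 : (2 * (ε * β)) • u = 0 := by
        have h6 : ε • (α • w + β • u) - (α • ε • w + β • (-ε) • u) = 0 := by rw [h1, h4, sub_zero]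
        rw [← h6]
        module
      rw [← mul_assoc, mul_comm 2 ε, mul_assoc, mul_smul] at h5
      exact (smul_eq_zero.1 h5).resolve_left hε0
    constructor
    · exact (mul_eq_zero.1 ((smul_eq_zero.1 h3).resolve_right hw0)).resolve_left h2F
    · exact (mul_eq_zero.1 ((smul_eq_zero.1 h7).resolve_right hu0)).resolve_left h2F
  have hspan : Submodule.span F {w, u} = K₀ := by
    apply Submodule.eq_of_le_of_finrank_eq
    · rw [Submodule.span_le]
      rintro y (rfl | rfl)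
      · exact hwK
      · exact huK
    · have h1 := finrank_span_eq_card hLI
      rw [Fintype.card_fin] at h1
      have h2 : Set.range ![w, u] = {w, u} := by
        simp [Matrix.range_cons, Matrix.range_empty, Set.pair_comm]
      rw [h2] at h1
      rw [h1, hfr]
  have hwu : B w u = 0 := by
    have h1 := haiso w u
    rw [hε, hau] at h1
    simp only [map_smul, LinearMap.smul_apply, smul_eq_mul] at h1
    have h2 : (2 : F) * B w u = 0 := by
      linear_combination (-1 : F) * h1 + (- B w u) * hεε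
    exact (mul_eq_zero.1 h2).resolve_left h2F
  have hww : B w w = 0 := halt w
  have hwK0 : ∀ y ∈ K₀, B w y = 0 := by
    intro y hy
    rw [← hspan] at hy
    obtain ⟨α, β, rfl⟩ := Submodule.mem_span_pair.1 hy
    simp [hwu, hww]
  obtain ⟨v, hv⟩ : ∃ v, B w v ≠ 0 := by
    by_contra hne
    push Not at hne
    exact hw0 (hB.1 w hne)
  have hfix : ∀ y, B w (X *ᵥ y) = B w y := by
    intro y
    have h1 := hXiso w y
    rw [(hmem w).1 hwK] at h1
    exact h1
  have hv₀ : v + X *ᵥ v + X *ᵥ (X *ᵥ v) ∈ K₀ := by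
    rw [hmem, Matrix.mulVec_add, Matrix.mulVec_add]
    have : X *ᵥ (X *ᵥ (X *ᵥ v)) = v := by
      rw [Matrix.mulVec_mulVec, Matrix.mulVec_mulVec, hX3, Matrix.one_mulVec]
    rw [this]
    abel
  have h3 := hwK0 _ hv₀
  rw [map_add, map_add, hfix, hfix, hfix] at h3
  have h4 : (3 : F) * B w v = 0 := by linear_combination h3
  exact hv ((mul_eq_zero.1 h4).resolve_left h3F)

theorem three_eig (hι : Fintype.card ι = 4) (S : Matrix ι ι F) (W₀ W₁ W₂ : Submodule F (ι → F))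
    {a b e : F} (hab : a ≠ b) (hae : a ≠ e) (hbe : b ≠ e)
    (h0 : ∀ v ∈ W₀, S *ᵥ v = a • v) (h1 : ∀ v ∈ W₁, S *ᵥ v = b • v) (h2 : ∀ v ∈ W₂, S *ᵥ v = e • v)
    (d0 : 2 ≤ finrank F W₀) (d1 : 2 ≤ finrank F W₁) (d2 : 2 ≤ finrank F W₂) : False := by
  have hinf : W₀ ⊓ W₁ = ⊥ := by
    rw [eq_bot_iff]
    intro v hv
    have h3 : (a - b) • v = 0 := by
      rw [sub_smul, ← h0 v hv.1, ← h1 v hv.2, sub_self]
    exact (smul_eq_zero.1 h3).resolve_left (sub_ne_zero.2 hab)
  have h3 := Submodule.finrank_sup_add_finrank_inf_eq W₀ W₁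
  rw [hinf, finrank_bot, add_zero] at h3
  have h4 : W₀ ⊔ W₁ = ⊤ := by
    apply Submodule.eq_top_of_finrank_eq
    have h5 := Submodule.finrank_le (W₀ ⊔ W₁)
    rw [Module.finrank_fintype_fun_eq_card, hι] at h5 ⊢
    omega
  obtain ⟨v, hv⟩ : ∃ v : W₂, v ≠ 0 := by
    haveI := Module.nontrivial_of_finrank_pos (R := F) (M := W₂) (by omega)
    exact exists_ne 0
  have hv' : (v : ι → F) ≠ 0 := fun h => hv (Subtype.ext h)
  have hv2 : (v : ι → F) ∈ W₀ ⊔ W₁ := by rw [h4]; exact Submodule.mem_top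
  obtain ⟨x, hx, y, hy, hxy⟩ := Submodule.mem_sup.1 hv2
  have h5 : (a - e) • x = (e - b) • y := by
    have h6 := h2 v v.2
    rw [← hxy, Matrix.mulVec_add, h0 x hx, h1 y hy, smul_add] at h6
    have h7 : (a - e) • x - (e - b) • y = 0 := by
      have : (a - e) • x - (e - b) • y = (a • x + b • y) - (e • x + e • y) := by module
      rw [this, h6, sub_self]
    exact sub_eq_zero.1 h7
  have hx0 : x = 0 := by
    have hm : x ∈ W₀ ⊓ W₁ := by
      refine ⟨hx, ?_⟩
      have : x = (a - e)⁻¹ • ((a - e) • x) := by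
        rw [smul_smul, inv_mul_cancel₀ (sub_ne_zero.2 hae), one_smul]
      rw [this, h5]
      exact W₁.smul_mem _ (W₁.smul_mem _ hy)
    rw [hinf] at hm
    exact (Submodule.mem_bot F).1 hm
  have hy0 : y = 0 := by
    rw [hx0, smul_zero] at h5
    exact (smul_eq_zero.1 h5.symm).resolve_left (sub_ne_zero.2 hbe.symm)
  apply hv'
  rw [← hxy, hx0, hy0, add_zero]

/-- The linear combination with a golden coefficient. -/
def combo (τ : F) (D0 D1 D2 D3 D4 : Matrix ι ι F) : Matrix ι ι F :=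
  (2 : F) • D0 + τ • D1 + (-τ - 1) • D2 + (-τ - 1) • D3 + τ • D4

theorem combo_sq (τ : F) (hτ : τ * τ + τ - 1 = 0) {D0 D1 D2 D3 D4 : Matrix ι ι F}
    (s0 : D0 * D0 = 1) (s1 : D1 * D1 = 1) (s2 : D2 * D2 = 1) (s3 : D3 * D3 = 1) (s4 : D4 * D4 = 1)
    (a10 : D1 * D0 = -(D0 * D1)) (a20 : D2 * D0 = -(D0 * D2)) (a30 : D3 * D0 = -(D0 * D3))
    (a40 : D4 * D0 = -(D0 * D4)) (a21 : D2 * D1 = -(D1 * D2)) (a31 : D3 * D1 = -(D1 * D3))
    (a41 : D4 * D1 = -(D1 * D4)) (a32 : D3 * D2 = -(D2 * D3)) (a42 : D4 * D2 = -(D2 * D4))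
    (a43 : D4 * D3 = -(D3 * D4)) :
    combo τ D0 D1 D2 D3 D4 * combo τ D0 D1 D2 D3 D4 = (10 : F) • 1 := by
  unfold combo
  simp only [add_mul, mul_add, smul_mul_assoc, mul_smul_comm, s0, s1, s2, s3, s4, a10, a20, a30, a40,
    a21, a31, a41, a32, a42, a43]
  have : (10 : F) = 10 + 4 * (τ * τ + τ - 1) := by rw [hτ]; ring
  rw [this]
  module

/-- The Fibonacci obstruction: an element of order five cycling five anticommuting involutions has
no two-dimensional fixed space. -/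
theorem no_five_lin (hι : Fintype.card ι = 4) (h2F : (2 : F) ≠ 0) (h5F : (5 : F) ≠ 0) {τ : F}
    (hτ : τ * τ + τ - 1 = 0) {X D0 D1 D2 D3 D4 : Matrix ι ι F} (hX5 : X ^ 5 = 1)
    (hr : (X - 1).rank = 2)
    (m0 : X * D0 = D1 * X) (m1 : X * D1 = D2 * X) (m2 : X * D2 = D3 * X) (m3 : X * D3 = D4 * X)
    (m4 : X * D4 = D0 * X)
    (s0 : D0 * D0 = 1) (s1 : D1 * D1 = 1) (s2 : D2 * D2 = 1) (s3 : D3 * D3 = 1) (s4 : D4 * D4 = 1)
    (a10 : D1 * D0 = -(D0 * D1)) (a20 : D2 * D0 = -(D0 * D2)) (a30 : D3 * D0 = -(D0 * D3))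
    (a40 : D4 * D0 = -(D0 * D4)) (a21 : D2 * D1 = -(D1 * D2)) (a31 : D3 * D1 = -(D1 * D3))
    (a41 : D4 * D1 = -(D1 * D4)) (a32 : D3 * D2 = -(D2 * D3)) (a42 : D4 * D2 = -(D2 * D4))
    (a43 : D4 * D3 = -(D3 * D4)) : False := by
  classical
  have h10 : (10 : F) ≠ 0 := by
    have : (10 : F) = 2 * 5 := by norm_num
    rw [this]
    exact mul_ne_zero h2F h5F
  set K₀ := LinearMap.ker (X - 1).mulVecLin with hK₀
  have hmem : ∀ v, v ∈ K₀ ↔ X *ᵥ v = v := by
    intro v
    rw [hK₀, LinearMap.mem_ker, Matrix.mulVecLin_apply, Matrix.sub_mulVec, Matrix.one_mulVec,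
      sub_eq_zero]
  have hfr : finrank F K₀ = 2 := by
    rw [hK₀, finrank_ker_eq, hι, hr]
  set S : Matrix ι ι F := X + X ^ 4 with hS
  have hX4 : X * X ^ 4 = 1 := by rw [← pow_succ', hX5]
  have hX4' : X ^ 4 * X = 1 := by rw [← pow_succ, hX5]
  -- the eigenvalue equation for a root
  have key : ∀ σ : F, σ * σ + σ - 1 = 0 → ∀ w ∈ K₀,
      S *ᵥ (combo σ D0 D1 D2 D3 D4 *ᵥ w) = σ • (combo σ D0 D1 D2 D3 D4 *ᵥ w) := by
    intro σ hσ w hw
    have hw' := (hmem w).1 hw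
    set A := combo σ D0 D1 D2 D3 D4 with hA
    let A₁ : Matrix ι ι F := (2 : F) • D1 + σ • D2 + (-σ - 1) • D3 + (-σ - 1) • D4 + σ • D0
    let A₂ : Matrix ι ι F := (2 : F) • D4 + σ • D0 + (-σ - 1) • D1 + (-σ - 1) • D2 + σ • D3
    have h1 : X * A = A₁ * X := by
      simp only [hA, combo, A₁, mul_add, add_mul, mul_smul_comm, smul_mul_assoc, m0, m1, m2, m3, m4]
    have h2 : X * A₂ = A * X := by
      simp only [hA, combo, A₂, mul_add, add_mul, mul_smul_comm, smul_mul_assoc, m0, m1, m2, m3, m4]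
    have h3 : X ^ 4 * A = A₂ * X ^ 4 := by
      calc X ^ 4 * A = X ^ 4 * (A * (X * X ^ 4)) := by rw [hX4, mul_one]
        _ = X ^ 4 * ((A * X) * X ^ 4) := by rw [mul_assoc A]
        _ = X ^ 4 * ((X * A₂) * X ^ 4) := by rw [h2]
        _ = (X ^ 4 * X) * A₂ * X ^ 4 := by noncomm_ring
        _ = A₂ * X ^ 4 := by rw [hX4', one_mul]
    have hw4 : X ^ 4 *ᵥ w = w := by
      have : ∀ n : ℕ, X ^ n *ᵥ w = w := by
        intro n
        induction n with
        | zero => simp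
        | succ n ih => rw [pow_succ, ← Matrix.mulVec_mulVec, hw', ih]
      exact this 4
    have h4 : A₁ + A₂ = σ • A := by
      have : A₁ + A₂ = σ • A + (σ * σ + σ - 1) • (D2 + D3 - D1 - D4) := by
        simp only [hA, combo, A₁, A₂]
        module
      rw [this, hσ, zero_smul, add_zero]
    rw [hS, Matrix.add_mulVec, Matrix.mulVec_mulVec, Matrix.mulVec_mulVec, h1, h3,
      ← Matrix.mulVec_mulVec, ← Matrix.mulVec_mulVec, hw', hw4, ← Matrix.add_mulVec, h4,
      Matrix.smul_mulVec]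
  have hinj : ∀ σ : F, σ * σ + σ - 1 = 0 →
      Function.Injective (combo σ D0 D1 D2 D3 D4).mulVecLin := by
    intro σ hσ
    rw [← LinearMap.ker_eq_bot, LinearMap.ker_eq_bot']
    intro v hv
    rw [Matrix.mulVecLin_apply] at hv
    have h1 := combo_sq σ hσ s0 s1 s2 s3 s4 a10 a20 a30 a40 a21 a31 a41 a32 a42 a43
    have h2 : (10 : F) • v = 0 := by
      have h3 : combo σ D0 D1 D2 D3 D4 *ᵥ (combo σ D0 D1 D2 D3 D4 *ᵥ v) = 0 := by
        rw [hv, Matrix.mulVec_zero]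
      rw [Matrix.mulVec_mulVec, h1, Matrix.smul_mulVec, Matrix.one_mulVec] at h3
      exact h3
    exact (smul_eq_zero.1 h2).resolve_left h10
  have hτ' : (-1 - τ) * (-1 - τ) + (-1 - τ) - 1 = 0 := by linear_combination hτ
  have hfm : ∀ σ : F, σ * σ + σ - 1 = 0 →
      finrank F (K₀.map (combo σ D0 D1 D2 D3 D4).mulVecLin) = 2 := by
    intro σ hσ
    rw [← hfr]
    exact (Submodule.equivMapOfInjective _ (hinj σ hσ) K₀).finrank_eq.symm
  have hne2 : ∀ σ : F, σ * σ + σ - 1 = 0 → (2 : F) ≠ σ := by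
    rintro σ hσ rfl
    apply h5F
    linear_combination hσ
  have hne3 : τ ≠ -1 - τ := by
    intro h
    have h1 : 2 * τ + 1 = 0 := by linear_combination h
    apply h5F
    linear_combination (2 * τ + 1) * h1 - 4 * hτ
  refine three_eig hι S K₀ (K₀.map (combo τ D0 D1 D2 D3 D4).mulVecLin)
    (K₀.map (combo (-1 - τ) D0 D1 D2 D3 D4).mulVecLin) (hne2 τ hτ) (hne2 _ hτ') hne3 ?_ ?_ ?_
    hfr.ge (hfm τ hτ).ge (hfm _ hτ').ge
  · intro v hv
    have hv' := (hmem v).1 hv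
    have hw4 : X ^ 4 *ᵥ v = v := by
      have : ∀ n : ℕ, X ^ n *ᵥ v = v := by
        intro n
        induction n with
        | zero => simp
        | succ n ih => rw [pow_succ, ← Matrix.mulVec_mulVec, hv', ih]
      exact this 4
    rw [hS, Matrix.add_mulVec, hv', hw4, two_smul]
  · rintro _ ⟨w, hw, rfl⟩
    exact key τ hτ w hw
  · rintro _ ⟨w, hw, rfl⟩
    exact key _ hτ' w hw

end linear

section Nlevel

variable [Nonempty ι] {R : Subgroup (GL ι F)} {z : R} {c : Fin 5 → R}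

theorem no_three (D : MFive R z c) (B : LinearMap.BilinForm F (ι → F)) (hB : B.Nondegenerate)
    (halt : B.IsAlt) (hι : Fintype.card ι = 4) (h3F : (3 : F) ≠ 0) (h2F : (2 : F) ≠ 0)
    (hRB : ∀ (t : R) (u v : ι → F), B (mm t *ᵥ u) (mm t *ᵥ v) = B u v) {x : GL ι F}
    (hx : x ∈ subgroupNormalizer R)
    (hxB : ∀ u v, B ((x : Matrix ι ι F) *ᵥ u) ((x : Matrix ι ι F) *ᵥ v) = B u v)
    (hx3 : x ^ 3 = 1) (hr : ((x : Matrix ι ι F) - 1).rank = 2) : False := by
  have hφ : (phi hx) ^ 3 = 1 := phi_pow_one hx (s := 1) (by rw [hx3]; simp)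
  obtain ⟨i, j, hij, hi, hj⟩ := D.H.aut_three hφ
  have hxa : (x : Matrix ι ι F) * mm (c i) = mm (c i) * x := by
    have := congrArg Units.val (phi_mul hx (c i))
    rw [hi] at this
    exact this
  have hxb : (x : Matrix ι ι F) * mm (c j) = mm (c j) * x := by
    have := congrArg Units.val (phi_mul hx (c j))
    rw [hj] at this
    exact this
  have hX3 : (x : Matrix ι ι F) * x * x = 1 := by
    have h1 := congrArg Units.val hx3
    rw [Units.val_pow_eq_pow_val, Units.val_one, pow_succ, pow_two] at h1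
    exact h1
  exact no_three_lin B hB halt hι h3F h2F hX3 hr hxB (hRB _) (D.msq i) (D.msq j) (D.manti hij) hxa hxb

theorem no_five (D : MFive R z c) (hι : Fintype.card ι = 4) (h2F : (2 : F) ≠ 0) (h5F : (5 : F) ≠ 0)
    {τ : F} (hτ : τ * τ + τ - 1 = 0) {x : GL ι F} (hx : x ∈ subgroupNormalizer R)
    (hx5 : x ^ 5 = 1) (hr : ((x : Matrix ι ι F) - 1).rank = 2)
    (hne : ∀ s : F, (x : Matrix ι ι F) ≠ s • 1) : False := by
  have hφ : (phi hx) ^ 5 = 1 := phi_pow_one hx (s := 1) (by rw [hx5]; simp)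
  have hφ1 : phi hx ≠ 1 := fun h => by
    obtain ⟨s, hs⟩ := scalar_of_phi D hx h
    exact hne s hs
  set φ := phi hx with hφdef
  let d : ℕ → R := fun k => (φ ^ k) (c 0)
  have hd : ∀ k, mm (d k) * mm (d k) = 1 := by
    intro k
    rw [← mm_mul, ← map_mul, D.H.sq, map_one, mm_one]
  have hm : ∀ k, (x : Matrix ι ι F) * mm (d k) = mm (d (k + 1)) * x := by
    intro k
    have h1 := congrArg Units.val (phi_mul hx (d k))
    rw [Units.val_mul, Units.val_mul] at h1
    have h2 : φ (d k) = d (k + 1) := by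
      show φ ((φ ^ k) (c 0)) = (φ ^ (k + 1)) (c 0)
      rw [pow_succ', MulAut.mul_apply]
    rw [← hφdef, h2] at h1
    exact h1
  have hd5 : d 5 = d 0 := by
    show (φ ^ 5) (c 0) = (φ ^ 0) (c 0)
    rw [hφ, pow_zero]
  have ha : ∀ j m, 0 < m → m < 5 → mm (d (j + m)) * mm (d j) = -(mm (d j) * mm (d (j + m))) := by
    intro j m hm0 hm5
    have h1 := D.H.aut_five hφ hφ1 0 m hm0 hm5
    have h2 := congrArg (φ ^ j) h1
    rw [map_mul, map_mul, map_mul, D.H.aut_z] at h2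
    have h3 : (φ ^ j) ((φ ^ m) (c 0)) = d (j + m) := by
      show _ = (φ ^ (j + m)) (c 0)
      rw [pow_add, MulAut.mul_apply]
    rw [h3] at h2
    have h4 : (φ ^ j) (c 0) = d j := rfl
    rw [h4] at h2
    rw [← mm_mul, h2, mm_mul, mm_mul, D.hz]
    simp
  have hX5 : (x : Matrix ι ι F) ^ 5 = 1 := by
    rw [← Units.val_pow_eq_pow_val, hx5, Units.val_one]
  refine no_five_lin hι h2F h5F hτ (D0 := mm (d 0)) (D1 := mm (d 1)) (D2 := mm (d 2)) (D3 := mm (d 3))
    (D4 := mm (d 4)) hX5 hr (hm 0) (hm 1) (hm 2) (hm 3) ?_ (hd 0) (hd 1) (hd 2) (hd 3) (hd 4)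
    (ha 0 1 (by norm_num) (by norm_num)) (ha 0 2 (by norm_num) (by norm_num))
    (ha 0 3 (by norm_num) (by norm_num)) (ha 0 4 (by norm_num) (by norm_num))
    (ha 1 1 (by norm_num) (by norm_num)) (ha 1 2 (by norm_num) (by norm_num))
    (ha 1 3 (by norm_num) (by norm_num)) (ha 2 1 (by norm_num) (by norm_num))
    (ha 2 2 (by norm_num) (by norm_num)) (ha 3 1 (by norm_num) (by norm_num))
  have := hm 4
  rw [show 4 + 1 = 5 from rfl, hd5] at this
  exact this

end Nlevel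

section Ylevel

theorem nu_sq {A B : Matrix ι ι F} (hA : A * A = 1) (hB : B * B = 1) (hab : A * B = -(B * A)) :
    (A - B) * (A - B) = (2 : F) • 1 := by
  rw [sub_mul, mul_sub, mul_sub, hA, hB, hab, two_smul]
  abel

theorem nu_left {A B : Matrix ι ι F} (hA : A * A = 1) (hB : B * B = 1) :
    (A - B) * A = -(B * (A - B)) := by
  rw [sub_mul, mul_sub, hA, hB]
  abel

theorem nu_right {A B : Matrix ι ι F} (hA : A * A = 1) (hB : B * B = 1) (hab : A * B = -(B * A)) :
    (A - B) * B = -(A * (A - B)) := by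
  rw [sub_mul, mul_sub, hA, hB, hab]
  abel

theorem nu_other {A B K : Matrix ι ι F} (h1 : A * K = -(K * A)) (h2 : B * K = -(K * B)) :
    (A - B) * K = -(K * (A - B)) := by
  rw [sub_mul, mul_sub, h1, h2]
  abel

theorem four_step {P₀ P₁ P₂ P₃ K₀ K₁ K₂ K₃ K₄ : Matrix ι ι F} (h3 : P₃ * K₀ = -(K₁ * P₃))
    (h2 : P₂ * K₁ = -(K₂ * P₂)) (h1 : P₁ * K₂ = -(K₃ * P₁)) (h0 : P₀ * K₃ = -(K₄ * P₀)) :
    (P₀ * P₁ * P₂ * P₃) * K₀ = K₄ * (P₀ * P₁ * P₂ * P₃) := by
  calc (P₀ * P₁ * P₂ * P₃) * K₀ = P₀ * P₁ * P₂ * (P₃ * K₀) := by simp only [mul_assoc]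
    _ = -(P₀ * P₁ * (P₂ * K₁) * P₃) := by rw [h3]; simp only [mul_neg, mul_assoc]
    _ = P₀ * (P₁ * K₂) * P₂ * P₃ := by rw [h2]; simp only [mul_neg, neg_mul, neg_neg, mul_assoc]
    _ = -((P₀ * K₃) * P₁ * P₂ * P₃) := by rw [h1]; simp only [mul_neg, neg_mul, mul_assoc]
    _ = K₄ * (P₀ * P₁ * P₂ * P₃) := by rw [h0]; simp only [mul_neg, neg_mul, neg_neg, mul_assoc]

theorem four_inv {P₀ P₁ P₂ P₃ : Matrix ι ι F} (h0 : P₀ * P₀ = (2 : F) • 1) (h1 : P₁ * P₁ = (2 : F) • 1)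
    (h2 : P₂ * P₂ = (2 : F) • 1) (h3 : P₃ * P₃ = (2 : F) • 1) :
    (P₀ * P₁ * P₂ * P₃) * (P₃ * P₂ * P₁ * P₀) = (16 : F) • 1 := by
  calc (P₀ * P₁ * P₂ * P₃) * (P₃ * P₂ * P₁ * P₀) = P₀ * (P₁ * (P₂ * (P₃ * P₃) * P₂) * P₁) * P₀ := by
        simp only [mul_assoc]
    _ = (2 : F) • (P₀ * (P₁ * (P₂ * P₂) * P₁) * P₀) := by
        rw [h3]; simp only [Matrix.mul_smul, Matrix.smul_mul, Matrix.mul_one]
    _ = (4 : F) • (P₀ * (P₁ * P₁) * P₀) := by
        rw [h2]; simp only [Matrix.mul_smul, Matrix.smul_mul, Matrix.mul_one, smul_smul]; norm_num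
    _ = (8 : F) • (P₀ * P₀) := by
        rw [h1]; simp only [Matrix.mul_smul, Matrix.smul_mul, Matrix.mul_one, smul_smul]; norm_num
    _ = (16 : F) • 1 := by
        rw [h0]; simp only [smul_smul]; norm_num

theorem nu_form (f : LinearMap.BilinForm F (ι → F)) {A B : Matrix ι ι F} (hA : A * A = 1) (hB : B * B = 1)
    (hab : A * B = -(B * A)) (iA : ∀ u v, f (A *ᵥ u) (A *ᵥ v) = f u v)
    (iB : ∀ u v, f (B *ᵥ u) (B *ᵥ v) = f u v) (u v : ι → F) :
    f ((A - B) *ᵥ u) ((A - B) *ᵥ v) = 2 * f u v := by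
  have eA : ∀ w, A *ᵥ (A *ᵥ w) = w := fun w => by rw [Matrix.mulVec_mulVec, hA, Matrix.one_mulVec]
  have eB : ∀ w, B *ᵥ (B *ᵥ w) = w := fun w => by rw [Matrix.mulVec_mulVec, hB, Matrix.one_mulVec]
  have h1 : f (A *ᵥ u) (B *ᵥ v) = f u (A *ᵥ (B *ᵥ v)) := by
    rw [← iA u (A *ᵥ (B *ᵥ v)), eA]
  have h2 : f (B *ᵥ u) (A *ᵥ v) = f u (B *ᵥ (A *ᵥ v)) := by
    rw [← iB u (B *ᵥ (A *ᵥ v)), eB]
  have h3 : A *ᵥ (B *ᵥ v) = -(B *ᵥ (A *ᵥ v)) := by
    rw [Matrix.mulVec_mulVec, hab, Matrix.neg_mulVec, Matrix.mulVec_mulVec]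
  simp only [Matrix.sub_mulVec, map_sub, LinearMap.sub_apply, iA, iB, h1, h2, h3, map_neg]
  ring

theorem iso_pow (f : LinearMap.BilinForm F (ι → F)) {M : Matrix ι ι F}
    (h : ∀ u v, f (M *ᵥ u) (M *ᵥ v) = f u v) (k : ℕ) (u v : ι → F) :
    f ((M ^ k) *ᵥ u) ((M ^ k) *ᵥ v) = f u v := by
  induction k generalizing u v with
  | zero => simp
  | succ k ih =>
    rw [pow_succ, ← Matrix.mulVec_mulVec, ← Matrix.mulVec_mulVec, ih, h]

theorem cyc_comm {M K0 K1 K2 K3 K4 : Matrix ι ι F} (m0 : M * K0 = K1 * M) (m1 : M * K1 = K2 * M)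
    (m2 : M * K2 = K3 * M) (m3 : M * K3 = K4 * M) (m4 : M * K4 = K0 * M) :
    M ^ 5 * K0 = K0 * M ^ 5 := by
  have s : ∀ {A B : Matrix ι ι F}, M * A = B * M → ∀ W, M * (A * W) = B * (M * W) := by
    intro A B h W
    rw [← mul_assoc, h, mul_assoc]
  have e : M ^ 5 = M * (M * (M * (M * M))) := by
    simp only [pow_succ, pow_zero, one_mul, mul_assoc]
  rw [e]
  simp only [mul_assoc]
  rw [m0, s m1, s m2, s m3, s m4]

theorem conj_in {R : Subgroup (GL ι F)} {z : R} {c : Fin 5 → R} (D : MFive R z c) (w : GL ι F)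
    (σ : Fin 5 → Fin 5) (h : ∀ i, w * (c i : GL ι F) = (c (σ i) : GL ι F) * w) (t : R) :
    w * (t : GL ι F) * w⁻¹ ∈ R := by
  have ht : t ∈ Subgroup.closure (Set.range c) := by
    rw [D.H.gen]
    exact Subgroup.mem_top t
  induction ht using Subgroup.closure_induction with
  | mem x hx =>
    obtain ⟨i, rfl⟩ := hx
    rw [h i, mul_inv_cancel_right]
    exact (c (σ i)).2
  | one => simp
  | mul a b _ _ h1 h2 =>
    have : w * ((a * b : R) : GL ι F) * w⁻¹ = (w * (a : GL ι F) * w⁻¹) * (w * (b : GL ι F) * w⁻¹) := by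
      simp only [Subgroup.coe_mul]
      group
    rw [this]
    exact mul_mem h1 h2
  | inv a _ h1 =>
    have : w * ((a⁻¹ : R) : GL ι F) * w⁻¹ = (w * (a : GL ι F) * w⁻¹)⁻¹ := by
      simp only [Subgroup.coe_inv]
      group
    rw [this]
    exact inv_mem h1

theorem exists_Y [Nonempty ι] {R : Subgroup (GL ι F)} {z : R} {c : Fin 5 → R} (D : MFive R z c)
    (f : LinearMap.BilinForm F (ι → F)) (hf : ∃ u v, f u v ≠ 0) (hF2 : (2 : F) ≠ 0)
    (hRf : ∀ (t : R) (u v : ι → F), f (mm t *ᵥ u) (mm t *ᵥ v) = f u v) :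
    ∃ y : GL ι F, y ∈ subgroupNormalizer R ∧
      (∀ u v, f ((y : Matrix ι ι F) *ᵥ u) ((y : Matrix ι ι F) *ᵥ v) = f u v) ∧ y ^ 5 = 1 ∧ y ≠ 1 := by
  classical
  set C : Fin 5 → Matrix ι ι F := fun i => mm (c i) with hC
  have s : ∀ i, C i * C i = 1 := D.msq
  have an : ∀ i j, i ≠ j → C i * C j = -(C j * C i) := fun i j h => D.manti h
  set Y₀ := (C 0 - C 1) * (C 1 - C 2) * (C 2 - C 3) * (C 3 - C 4) with hY₀
  set Y' := (C 3 - C 4) * (C 2 - C 3) * (C 1 - C 2) * (C 0 - C 1) with hY'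
  have n0 := nu_sq (s 0) (s 1) (an 0 1 (by decide))
  have n1 := nu_sq (s 1) (s 2) (an 1 2 (by decide))
  have n2 := nu_sq (s 2) (s 3) (an 2 3 (by decide))
  have n3 := nu_sq (s 3) (s 4) (an 3 4 (by decide))
  have h16 : Y₀ * Y' = (16 : F) • 1 := four_inv n0 n1 n2 n3
  have h16' : Y' * Y₀ = (16 : F) • 1 := four_inv n3 n2 n1 n0
  have hL : ∀ i j, i ≠ j → C i - C j ≠ 0 ∨ True := fun _ _ _ => Or.inr trivial
  have o : ∀ i j k, i ≠ k → j ≠ k → (C i - C j) * C k = -(C k * (C i - C j)) :=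
    fun i j k h1 h2 => nu_other (an i k h1) (an j k h2)
  have m0 : Y₀ * C 0 = C 1 * Y₀ := four_step (o 3 4 0 (by decide) (by decide))
    (o 2 3 0 (by decide) (by decide)) (o 1 2 0 (by decide) (by decide)) (nu_left (s 0) (s 1))
  have m1 : Y₀ * C 1 = C 2 * Y₀ := four_step (o 3 4 1 (by decide) (by decide))
    (o 2 3 1 (by decide) (by decide)) (nu_left (s 1) (s 2)) (o 0 1 2 (by decide) (by decide))
  have m2 : Y₀ * C 2 = C 3 * Y₀ := four_step (o 3 4 2 (by decide) (by decide))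
    (nu_left (s 2) (s 3)) (o 1 2 3 (by decide) (by decide)) (o 0 1 3 (by decide) (by decide))
  have m3 : Y₀ * C 3 = C 4 * Y₀ := four_step (nu_left (s 3) (s 4))
    (o 2 3 4 (by decide) (by decide)) (o 1 2 4 (by decide) (by decide)) (o 0 1 4 (by decide) (by decide))
  have m4 : Y₀ * C 4 = C 0 * Y₀ := four_step (nu_right (s 3) (s 4) (an 3 4 (by decide)))
    (nu_right (s 2) (s 3) (an 2 3 (by decide))) (nu_right (s 1) (s 2) (an 1 2 (by decide)))
    (nu_right (s 0) (s 1) (an 0 1 (by decide)))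
  have h4 : (4 : F) ≠ 0 := by
    have : (4 : F) = 2 * 2 := by norm_num
    rw [this]
    exact mul_ne_zero hF2 hF2
  set q : F := (4 : F)⁻¹ with hq
  have hqq : q * q * 16 = 1 := by
    rw [hq]
    field_simp
    norm_num
  let y : GL ι F := ⟨q • Y₀, q • Y', by
    rw [Matrix.smul_mul, Matrix.mul_smul, h16, smul_smul, smul_smul, hqq, one_smul], by
    rw [Matrix.smul_mul, Matrix.mul_smul, h16', smul_smul, smul_smul, hqq, one_smul]⟩
  have hyv : (y : Matrix ι ι F) = q • Y₀ := rfl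
  have my : ∀ {A B : Matrix ι ι F}, Y₀ * A = B * Y₀ → (y : Matrix ι ι F) * A = B * y := by
    intro A B h
    rw [hyv, Matrix.smul_mul, Matrix.mul_smul, h]
  have y0 := my m0
  have y1 := my m1
  have y2 := my m2
  have y3 := my m3
  have y4 := my m4
  -- the normaliser
  have hyN : y ∈ subgroupNormalizer R := by
    have h1 := conj_in D y (fun k => k + 1) (by
      intro i
      fin_cases i
      · exact Units.ext y0
      · exact Units.ext y1
      · exact Units.ext y2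
      · exact Units.ext y3
      · exact Units.ext y4)
    have hinv : ∀ {A B : GL ι F}, y * A = B * y → y⁻¹ * B = A * y⁻¹ := by
      intro A B h
      calc y⁻¹ * B = y⁻¹ * (B * y) * y⁻¹ := by group
        _ = y⁻¹ * (y * A) * y⁻¹ := by rw [h]
        _ = A * y⁻¹ := by group
    have h2 := conj_in D y⁻¹ (fun k => k + 4) (by
      intro i
      fin_cases i
      · exact hinv (Units.ext y4)
      · exact hinv (Units.ext y0)
      · exact hinv (Units.ext y1)
      · exact hinv (Units.ext y2)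
      · exact hinv (Units.ext y3))
    show y ∈ Subgroup.normalizer (R : Set (GL ι F))
    rw [Subgroup.mem_normalizer_iff]
    intro h
    constructor
    · intro hh
      exact h1 ⟨h, hh⟩
    · intro hh
      have := h2 ⟨_, hh⟩
      simpa [mul_assoc] using this
  -- the isometry property
  have iC : ∀ i u v, f (C i *ᵥ u) (C i *ᵥ v) = f u v := fun i => hRf (c i)
  have hyB : ∀ u v, f ((y : Matrix ι ι F) *ᵥ u) ((y : Matrix ι ι F) *ᵥ v) = f u v := by
    intro u v
    have nf := fun i j (h : i ≠ j) => nu_form f (s i) (s j) (an i j h) (iC i) (iC j)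
    have e : ∀ w, Y₀ *ᵥ w = (C 0 - C 1) *ᵥ ((C 1 - C 2) *ᵥ ((C 2 - C 3) *ᵥ ((C 3 - C 4) *ᵥ w))) := by
      intro w
      simp only [hY₀, Matrix.mulVec_mulVec, mul_assoc]
    have e2 : f (Y₀ *ᵥ u) (Y₀ *ᵥ v) = 16 * f u v := by
      rw [e, e, nf 0 1 (by decide), nf 1 2 (by decide), nf 2 3 (by decide), nf 3 4 (by decide)]
      ring
    have e3 : f ((q • Y₀) *ᵥ u) ((q • Y₀) *ᵥ v) = q * q * f (Y₀ *ᵥ u) (Y₀ *ᵥ v) := by
      simp only [Matrix.smul_mulVec, map_smul, LinearMap.smul_apply, smul_eq_mul]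
      ring
    rw [hyv, e3, e2]
    linear_combination (f u v) * hqq
  -- fifth power
  set M : Matrix ι ι F := (y : Matrix ι ι F) with hM
  obtain ⟨σ, hσ⟩ := D.comm (M ^ 5) (by
    intro i
    fin_cases i
    · exact cyc_comm y0 y1 y2 y3 y4
    · exact cyc_comm y1 y2 y3 y4 y0
    · exact cyc_comm y2 y3 y4 y0 y1
    · exact cyc_comm y3 y4 y0 y1 y2
    · exact cyc_comm y4 y0 y1 y2 y3)
  have hσσ : σ * σ = 1 := by
    obtain ⟨u, v, huv⟩ := hf
    have h1 := iso_pow f hyB 5 u v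
    rw [hσ] at h1
    simp only [Matrix.smul_mulVec, Matrix.one_mulVec, map_smul, LinearMap.smul_apply,
      smul_eq_mul] at h1
    have h2 : (σ * σ - 1) * f u v = 0 := by linear_combination h1
    have h3 := (mul_eq_zero.1 h2).resolve_right huv
    exact sub_eq_zero.1 h3
  have hy10 : y ^ 10 = 1 := by
    apply Units.ext
    rw [Units.val_pow_eq_pow_val, show 10 = 5 + 5 by norm_num, pow_add, hσ, Matrix.smul_mul,
      Matrix.mul_smul, Matrix.one_mul, smul_smul, hσσ, one_smul, Units.val_one]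
  refine ⟨y ^ 6, pow_mem hyN 6, ?_, ?_, ?_⟩
  · intro u v
    rw [Units.val_pow_eq_pow_val]
    exact iso_pow f hyB 6 u v
  · rw [← pow_mul, show 6 * 5 = 10 * 3 by norm_num, pow_mul, hy10, one_pow]
  · intro h6
    have h1 : M ^ 6 = 1 := by
      rw [hM, ← Units.val_pow_eq_pow_val, h6, Units.val_one]
    have h2 : M ^ 6 * C 0 = C 1 * M ^ 6 := by
      rw [pow_succ, mul_assoc, y0, ← mul_assoc, ← mul_assoc, cyc_comm y1 y2 y3 y4 y0]
    rw [h1, one_mul, mul_one] at h2
    have h3 := an 0 1 (by decide)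
    rw [h2, s 1] at h3
    have h4' : (2 : F) • (1 : Matrix ι ι F) = 0 := by
      rw [two_smul]
      nth_rw 1 [h3]
      simp
    obtain ⟨i⟩ := ‹Nonempty ι›
    have := congrFun (congrFun h4' i) i
    simp at this
    exact hF2 this

end Ylevel

section LFive

open Cfsg.Agent.Lib.ElusL.Cyc Cfsg.Agent.Lib.FGStruct.KronChain

theorem eq_pow_end {V : Type*} [AddCommGroup V] [Module F V] [FiniteDimensional F V]
    (hdim : finrank F V = 4) (hΦ : Irreducible (Phi F 5)) (hdeg : (Phi F 5).natDegree = 4)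
    {U W : End F V} (hU : U ^ 5 = 1) (hW : W ^ 5 = 1) (hc : U * W = W * U) (hne : W ≠ 1) :
    ∃ j : ℕ, U = W ^ j := by
  classical
  obtain ⟨u₀, hu₀⟩ : ∃ u₀, W u₀ ≠ u₀ := by
    by_contra h
    push Not at h
    exact hne (LinearMap.ext h)
  set v := W u₀ - u₀ with hv
  have hv0 : v ≠ 0 := sub_ne_zero.2 hu₀
  have hmul : Phi F 5 * (X - 1) = X ^ 5 - 1 := by rw [mul_comm]; exact Phi_mul 5
  have hv1 : Polynomial.aeval W (Phi F 5) v = 0 := by
    have h1 : (Polynomial.aeval W (Phi F 5 * (X - 1))) u₀ = 0 := by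
      rw [hmul]
      simp [hW]
    rw [map_mul, Module.End.mul_apply] at h1
    have h2 : Polynomial.aeval W (X - 1 : F[X]) u₀ = v := by simp [hv]
    rw [h2] at h1
    exact h1
  have hLI := li_of_irreducible W hΦ hv0 hv1
  have hspan := hLI.span_eq_top_of_card_eq_finrank' (by rw [Fintype.card_fin, hdeg, hdim])
  obtain ⟨a, ha⟩ := (Submodule.mem_span_range_iff_exists_fun F).1
    (show U v ∈ Submodule.span F (Set.range fun j : Fin (Phi F 5).natDegree => (W ^ (j : ℕ)) v) by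
      rw [hspan]
      exact Submodule.mem_top)
  set P : F[X] := ∑ j : Fin (Phi F 5).natDegree, Polynomial.C (a j) * X ^ (j : ℕ) with hP
  have hPv : Polynomial.aeval W P v = U v := by
    rw [← ha, hP, map_sum, LinearMap.sum_apply]
    refine Finset.sum_congr rfl fun j _ => ?_
    simp
  have hcomm : ∀ (j : ℕ), U * W ^ j = W ^ j * U := fun j =>
    ((show Commute U W from hc).pow_right j)
  have hUP : U = Polynomial.aeval W P := by
    apply LinearMap.ext_on_range hspan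
    intro j
    have h1 := congrArg (fun L : End F V => L v) (hcomm j)
    simp only [Module.End.mul_apply] at h1
    rw [h1, ← hPv]
    have h2 : Polynomial.aeval W P * W ^ (j : ℕ) = W ^ (j : ℕ) * Polynomial.aeval W P := by
      have := (Polynomial.aeval_X_pow (R := F) W (n := (j : ℕ))).symm
      rw [this, ← map_mul, ← map_mul, mul_comm]
    have h3 := congrArg (fun L : End F V => L v) h2
    simp only [Module.End.mul_apply] at h3
    exact h3.symm
  have hΦ0 : Polynomial.aeval W (Phi F 5) = 0 := by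
    apply LinearMap.ext_on_range hspan
    intro j
    have h2 : Polynomial.aeval W (Phi F 5) * W ^ (j : ℕ) = W ^ (j : ℕ) * Polynomial.aeval W (Phi F 5) := by
      have := (Polynomial.aeval_X_pow (R := F) W (n := (j : ℕ))).symm
      rw [this, ← map_mul, ← map_mul, mul_comm]
    have h3 := congrArg (fun L : End F V => L v) h2
    simp only [Module.End.mul_apply] at h3
    simp only [LinearMap.zero_apply]
    rw [h3, hv1, map_zero]
  have hker : ∀ Q : F[X], Polynomial.aeval W Q = 0 → Phi F 5 ∣ Q := by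
    intro Q hQ
    by_contra hnd
    obtain ⟨r, s, hrs⟩ := (hΦ.coprime_iff_not_dvd).2 hnd
    have h1 := congrArg (Polynomial.aeval W) hrs
    rw [map_add, map_mul, map_mul, hΦ0, hQ, mul_zero, mul_zero, add_zero, map_one] at h1
    apply hv0
    have h2 := congrArg (fun L : End F V => L v) h1
    simpa using h2.symm
  have hP5 : Phi F 5 ∣ P ^ 5 - 1 := by
    apply hker
    rw [map_sub, map_pow, ← hUP, hU, map_one, sub_self]
  haveI : Fact (Irreducible (Phi F 5)) := ⟨hΦ⟩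
  let ρ : AdjoinRoot (Phi F 5) := AdjoinRoot.root (Phi F 5)
  have hρ5 : ρ ^ 5 = 1 := by
    have h1 : AdjoinRoot.mk (Phi F 5) (X ^ 5) = AdjoinRoot.mk (Phi F 5) 1 := by
      rw [AdjoinRoot.mk_eq_mk]
      exact ⟨_, hmul.symm⟩
    rw [map_pow, AdjoinRoot.mk_X, map_one] at h1
    exact h1
  have hρ1 : ρ ≠ 1 := by
    intro h
    have h1 : AdjoinRoot.mk (Phi F 5) X = AdjoinRoot.mk (Phi F 5) 1 := by
      rw [AdjoinRoot.mk_X, map_one]
      exact h
    rw [AdjoinRoot.mk_eq_mk] at h1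
    have hX1 : (X - 1 : F[X]) = X - Polynomial.C 1 := by simp
    rw [hX1] at h1
    have h2 := Polynomial.natDegree_le_of_dvd h1 (Polynomial.X_sub_C_ne_zero (1 : F))
    rw [hdeg, Polynomial.natDegree_X_sub_C] at h2
    omega
  haveI : Fact (Nat.Prime 5) := ⟨by norm_num⟩
  have hρprim : IsPrimitiveRoot ρ 5 := by
    have := IsPrimitiveRoot.orderOf ρ
    rwa [orderOf_eq_prime hρ5 hρ1] at this
  have hξ : (AdjoinRoot.mk (Phi F 5) P) ^ 5 = 1 := by
    have h1 : AdjoinRoot.mk (Phi F 5) (P ^ 5) = AdjoinRoot.mk (Phi F 5) 1 := by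
      rw [AdjoinRoot.mk_eq_mk]
      exact hP5
    rwa [map_pow, map_one] at h1
  obtain ⟨i, -, hi⟩ := hρprim.eq_pow_of_pow_eq_one hξ
  refine ⟨i, ?_⟩
  have h1 : AdjoinRoot.mk (Phi F 5) (X ^ i) = AdjoinRoot.mk (Phi F 5) P := by
    rw [map_pow, AdjoinRoot.mk_X]
    exact hi
  rw [AdjoinRoot.mk_eq_mk] at h1
  obtain ⟨G, hG⟩ := h1
  have h2 := congrArg (Polynomial.aeval W) hG
  rw [map_sub, map_mul, hΦ0, zero_mul, map_pow, aeval_X, ← hUP, sub_eq_zero] at h2
  exact h2.symm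

theorem eq_pow_gl (hι : Fintype.card ι = 4) (hΦ : Irreducible (Phi F 5))
    (hdeg : (Phi F 5).natDegree = 4) {a b : GL ι F} (ha : a ^ 5 = 1) (hb : b ^ 5 = 1)
    (hc : a * b = b * a) (hne : b ≠ 1) : ∃ j : ℕ, a = b ^ j := by
  classical
  let e : Matrix ι ι F ≃ₐ[F] End F (ι → F) := Matrix.toLinAlgEquiv'
  have hv : ∀ t : GL ι F, t ^ 5 = 1 → e (t : Matrix ι ι F) ^ 5 = 1 := by
    intro t ht
    rw [← map_pow, ← Units.val_pow_eq_pow_val, ht, Units.val_one, map_one]
  obtain ⟨j, hj⟩ := eq_pow_end (V := ι → F) (by rw [Module.finrank_fintype_fun_eq_card, hι]) hΦ hdeg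
    (hv a ha) (hv b hb)
    (by
      rw [← map_mul, ← map_mul, ← Units.val_mul, ← Units.val_mul, hc])
    (by
      intro h
      apply hne
      apply Units.ext
      apply e.injective
      rw [h, Units.val_one, map_one])
  refine ⟨j, Units.ext (e.injective ?_)⟩
  rw [hj, Units.val_pow_eq_pow_val, map_pow]

theorem conj_into {G : Type*} [Group G] [Finite G]
    (hpow : ∀ a b : G, a ^ 5 = 1 → b ^ 5 = 1 → a * b = b * a → b ≠ 1 → ∃ j : ℕ, a = b ^ j)
    {x y : G} (hx : x ^ 5 = 1) (hy : y ^ 5 = 1) (hy1 : y ≠ 1) :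
    ∃ (t : G) (k : ℕ), t * x * t⁻¹ = y ^ k := by
  classical
  haveI hp : Fact (Nat.Prime 5) := ⟨by norm_num⟩
  have hoy : orderOf y = 5 := orderOf_eq_prime hy hy1
  have hzy : IsPGroup 5 (Subgroup.zpowers y) := by
    rw [IsPGroup.iff_card, Nat.card_zpowers, hoy]
    exact ⟨1, by norm_num⟩
  obtain ⟨S, hS⟩ := hzy.exists_le_sylow
  have hyS : y ∈ (S : Subgroup G) := hS (Subgroup.mem_zpowers y)
  have hox : ∃ k, orderOf x = 5 ^ k := by
    have h1 : orderOf x ∣ 5 ^ 1 := by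
      rw [pow_one]
      exact orderOf_dvd_of_pow_eq_one hx
    obtain ⟨k, -, hk⟩ := (Nat.dvd_prime_pow hp.out).1 h1
    exact ⟨k, hk⟩
  obtain ⟨t, ht⟩ := Cfsg.Agent.Lib.CycPairs.Basic.exists_conj_mem S hox
  haveI hnt : Nontrivial (S : Subgroup G) := ⟨⟨⟨y, hyS⟩, 1, fun h => hy1 (congrArg Subtype.val h)⟩⟩
  have hcn := S.isPGroup'.center_nontrivial
  have hcp : IsPGroup 5 (Subgroup.center (S : Subgroup G)) := S.isPGroup'.to_subgroup _
  have hd : 5 ∣ Nat.card (Subgroup.center (S : Subgroup G)) := by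
    rcases hcp.card_eq_or_dvd with h | h
    · exact absurd h Finite.one_lt_card.ne'
    · exact h
  obtain ⟨w, hw⟩ := exists_prime_orderOf_dvd_card' 5 hd
  set W : G := ((w : (S : Subgroup G)) : G) with hWdef
  have hWc : ∀ a : (S : Subgroup G), a * (w : (S : Subgroup G)) = (w : (S : Subgroup G)) * a :=
    fun a => (Subgroup.mem_center_iff.1 w.2 a)
  have hW5 : W ^ 5 = 1 := by
    have h1 : w ^ 5 = 1 := by
      have := pow_orderOf_eq_one w
      rw [hw] at this
      exact this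
    have h2 := congrArg (fun u : Subgroup.center (S : Subgroup G) => ((u : (S : Subgroup G)) : G)) h1
    simpa using h2
  have hW1 : W ≠ 1 := by
    intro h
    have h1 : w = 1 := Subtype.ext (Subtype.ext h)
    rw [h1, orderOf_one] at hw
    omega
  have hcW : ∀ a (ha : a ∈ (S : Subgroup G)), a * W = W * a := fun a ha =>
    congrArg Subtype.val (hWc ⟨a, ha⟩)
  obtain ⟨i, hi⟩ := hpow y W hy hW5 (hcW y hyS) hW1
  have hx' : (t * x * t⁻¹) ^ 5 = 1 := by
    rw [conj_pow, hx]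
    simp
  obtain ⟨j, hj⟩ := hpow _ W hx' hW5 (hcW _ ht) hW1
  have hcop : Nat.Coprime i 5 := by
    rw [Nat.coprime_comm, hp.out.coprime_iff_not_dvd]
    intro h
    apply hy1
    obtain ⟨m, rfl⟩ := h
    rw [hi, pow_mul, hW5, one_pow]
  obtain ⟨m, -, hm⟩ := Nat.exists_mul_mod_eq_one_of_coprime hcop (by norm_num)
  have hWy : W = y ^ m := by
    rw [hi, ← pow_mul, pow_eq_pow_mod (i * m) hW5, hm, pow_one]
  refine ⟨t, m * j, ?_⟩
  rw [hj, pow_mul, ← hWy]

/-- Irreducibility of the fifth cyclotomic polynomial. -/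
theorem phi_irred [Fintype F] {p : ℕ} (hq : Fintype.card F = p) (hp5 : ¬ 5 ∣ p) (h5F : (5 : F) ≠ 0)
    (hord : orderOf (p : ZMod 5) = 4) : Irreducible (Phi F 5) ∧ (Phi F 5).natDegree = 4 := by
  classical
  obtain ⟨S, hS, hprod, hcard⟩ := Cfsg.Agent.Lib.ElusF.SpNeg.exists_factors (r := 5) hq (by norm_num)
    (by exact_mod_cast h5F) hp5
  rw [hord] at hcard
  have h1 : S.card = 1 := by omega
  obtain ⟨g, rfl⟩ := Finset.card_eq_one.1 h1
  rw [Finset.prod_singleton] at hprod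
  have h2 := hS g (Finset.mem_singleton_self g)
  rw [← hprod]
  exact ⟨h2.1, by rw [h2.2.2.2.2, hord]⟩

end LFive

section main

open Cfsg.Agent.Lib.ElusL.Basic Cfsg.Agent.Lib.ElusL.Flag Cfsg.Agent.Lib.ElusL.Cyc
  Cfsg.Agent.Lib.ElusL.Pos Cfsg.Agent.Lib.ElusF.Form Cfsg.Agent.Lib.ElusF.Step
  Cfsg.Agent.Lib.ElusF.Split Cfsg.Agent.Lib.ElusF.SpModel Cfsg.Agent.Lib.ElusF.SpNeg
  Cfsg.Agent.Lib.ElusF.SpPos Cfsg.Agent.Lib.ElusF.SpPos2 Cfsg.Agent.Lib.ElusF.SpTwo
  Cfsg.Agent.Lib.ElusF.SpMain Cfsg.Agent.Lib.Classical.SympForm Cfsg.Agent.Lib.ElusF.SpNd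
  Cfsg.Agent.Lib.ElusF.SpNdThm Cfsg.Agent.Lib.SylowLarge.SpForm Cfsg.Agent.Lib.Elusive
  Cfsg.Agent.Lib.FGStruct.KronChain Cfsg.Agent.Lib.FGStruct.TensorSp

variable {F : Type u} [Field F] [Fintype F]

theorem zmod5_pow4 : ∀ x : ZMod 5, x ≠ 0 → x ^ 4 = 1 := by decide

theorem zmod5_sq : ∀ x : ZMod 5, x ^ 2 = 1 → IsSquare x := by decide

/-- The index type. -/
abbrev Ix := Fin 2 ⊕ Fin 2

/-- The hypothesis of the statement. -/
abbrev AllN (r : ℕ) (R : Subgroup (GL Ix F)) : Prop :=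
  ∀ x ∈ Cfsg.spGL 2 F, (∃ z : F, ((x ^ r : GL Ix F) : Matrix Ix Ix F) = z • (1 : Matrix Ix Ix F)) →
    (∀ z : F, (x : Matrix Ix Ix F) ≠ z • (1 : Matrix Ix Ix F)) →
    ∃ g ∈ Cfsg.spGL 2 F, g⁻¹ * x * g ∈ subgroupNormalizer R

theorem exists_elt {V : Type*} [AddCommGroup V] [Module F V] [FiniteDimensional F V]
    {Bf : LinearMap.BilinForm F V} {T : End F V} {R : Subgroup (GL Ix F)} {r : ℕ}
    (hall : AllN r R) (h : Rz Bf T r) (hdim : finrank F V = 2 * 2) (hNS : ∀ z : F, T ≠ z • 1) :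
    ∃ y : GL Ix F, y ∈ subgroupNormalizer R ∧ y ^ r = 1 ∧
      (∀ z : F, (y : Matrix Ix Ix F) ≠ z • (1 : Matrix Ix Ix F)) ∧
      ((y : Matrix Ix Ix F) - 1).rank + Dk T (X - 1 : F[X]) = 4 ∧ y ∈ Cfsg.spGL 2 F := by
  classical
  obtain ⟨e₀, x₀, he, hx, hpow⟩ := exists_conj (d := 2) h hdim
  let x' : GL Ix F :=
    ⟨(x₀ : Matrix Ix Ix F), ((x₀⁻¹ : Matrix.symplecticGroup (Fin 2) F) : Matrix Ix Ix F),
      congrArg Subtype.val (mul_inv_cancel x₀), congrArg Subtype.val (inv_mul_cancel x₀)⟩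
  have hx'c : (x' : Matrix Ix Ix F) = x₀ := rfl
  have hmem : x' ∈ Cfsg.spGL 2 F := by
    rw [mem_spGL_iff]
    intro u v
    rw [hx'c, ← he, ← he, hx, hx, h.iso, he]
  have hr' : ((x' ^ r : GL Ix F) : Matrix Ix Ix F) = (1 : F) • (1 : Matrix Ix Ix F) := by
    rw [Units.val_pow_eq_pow_val, hx'c, ← hpow]
    rfl
  have hns : ∀ z : F, (x' : Matrix Ix Ix F) ≠ z • (1 : Matrix Ix Ix F) := by
    intro z hz
    apply hNS z
    apply LinearMap.ext
    intro v
    obtain ⟨w, rfl⟩ := e₀.surjective v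
    rw [← hx, ← hx'c, hz, Matrix.smul_mulVec, Matrix.one_mulVec, map_smul]
    rfl
  obtain ⟨g, hg, hm⟩ := hall x' hmem ⟨1, hr'⟩ hns
  have hx'r : x' ^ r = 1 := by
    apply Units.ext
    rw [hr', one_smul, Units.val_one]
  refine ⟨g⁻¹ * x' * g, hm, ?_, ?_, ?_, mul_mem (mul_mem (inv_mem hg) hmem) hg⟩
  · have := conj_pow (a := g⁻¹) (b := x') (i := r)
    rw [inv_inv] at this
    rw [this, hx'r]
    simp
  · intro z hz
    apply hns z
    have h1 : x' = g * (g⁻¹ * x' * g) * g⁻¹ := by group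
    rw [h1, Units.val_mul, Units.val_mul, hz, Matrix.mul_smul, Matrix.mul_one, Matrix.smul_mul,
      ← Units.val_mul, mul_inv_cancel, Units.val_one]
  · have hψ : ∀ t, (glLE g ≪≫ₗ e₀) (((g⁻¹ * x' * g : GL Ix F) : Matrix Ix Ix F) *ᵥ t) =
        T ((glLE g ≪≫ₗ e₀) t) := by
      intro t
      simp only [LinearEquiv.trans_apply, glLE_apply]
      rw [← hx, ← hx'c, Matrix.mulVec_mulVec, Matrix.mulVec_mulVec, ← Units.val_mul, ← Units.val_mul]
      congr 2
      group
    have := rank_sub_one_eq _ hψ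
    simpa using this

/-- Involutions have a two-dimensional fixed space. -/
theorem Dk_invol {V : Type*} [AddCommGroup V] [Module F V] [FiniteDimensional F V]
    {Bf : LinearMap.BilinForm F V} {T : End F V} (h : Rz Bf T 2) (hF2 : (2 : F) ≠ 0)
    (hdim : finrank F V = 4) (hNS : ∀ z : F, T ≠ z • 1) : Dk T (X - 1 : F[X]) = 2 := by
  classical
  have hrF : ((2 : ℕ) : F) ≠ 0 := by exact_mod_cast hF2
  have hs := (split01 hrF h.pow (U := ⊤) (fun v _ => trivial)).2
  rw [top_inf_eq, top_inf_eq, finrank_top, hdim] at hs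
  have hnd1 : Nd (fun u v => Bf u v) (LinearMap.ker (Polynomial.aeval T (Phi F 2))) := by
    have := nd1 (Rz.fm h) h.iso hrF h.pow (Rz.fm h).nd_top (U := ⊤) (fun v _ => trivial)
    rwa [top_inf_eq] at this
  obtain ⟨k, hk⟩ := even_of_nd (Rz.fm h) h.alt _ _ rfl hnd1
  have hD : Dk T (X - 1 : F[X]) = finrank F (LinearMap.ker (Polynomial.aeval T (X - 1 : F[X]))) := rfl
  have h0 : k ≠ 0 := by
    rintro rfl
    apply hNS 1
    have h1 : LinearMap.ker (Polynomial.aeval T (X - 1 : F[X])) = ⊤ := by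
      apply Submodule.eq_top_of_finrank_eq
      omega
    apply LinearMap.ext
    intro v
    have h2 : v ∈ LinearMap.ker (Polynomial.aeval T (X - 1 : F[X])) := by rw [h1]; trivial
    rw [one_smul]
    exact mem_fix.mp h2
  have h2 : k ≠ 2 := by
    rintro rfl
    apply hNS (-1)
    have h1 : LinearMap.ker (Polynomial.aeval T (Phi F 2)) = ⊤ := by
      apply Submodule.eq_top_of_finrank_eq
      omega
    apply LinearMap.ext
    intro v
    have h2 : v ∈ LinearMap.ker (Polynomial.aeval T (Phi F 2)) := by rw [h1]; trivial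
    rw [mem_K1 h2]
    simp
  omega

/-- Transvections. -/
theorem exists_trans {p : ℕ} [Fact p.Prime] [CharP F p] (hF2 : (2 : F) ≠ 0) :
    ∃ (V : Type u) (_ : AddCommGroup V) (_ : Module F V) (_ : FiniteDimensional F V)
      (Bf : LinearMap.BilinForm F V) (T : End F V), Rz Bf T p ∧ finrank F V = 2 * 2 ∧
        Dk T (X - 1 : F[X]) = 3 := by
  classical
  let μ : Multiset ℕ := 2 ::ₘ Multiset.replicate (2 * 2 - 2) 1
  have hp2 := (Fact.out : p.Prime).two_le
  obtain ⟨V, i1, i2, i3, Bf, T, hRz, hf, hD⟩ := Cfsg.Agent.Lib.ElusF.SpUniModel.model_uni (F := F) (p := p) hF2 _ μ rfl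
    (by
      intro x hx
      rcases Multiset.mem_cons.mp hx with rfl | hx
      · exact ⟨by norm_num, hp2⟩
      · rw [Multiset.eq_of_mem_replicate hx]
        exact ⟨by norm_num, by omega⟩)
    (by
      intro x hx
      simp only [μ, Multiset.count_cons, Multiset.count_replicate]
      by_cases hx1 : x = 1
      · subst hx1
        simp
      · have hx2 : x ≠ 2 := by
          rintro rfl
          exact absurd hx (by decide)
        simp [hx2, Ne.symm hx1])
  have hsum : μ.sum = 2 * 2 := by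
    simp only [μ, Multiset.sum_cons, Multiset.sum_replicate, smul_eq_mul, mul_one]
  have hD1 := hD 1
  rw [pow_one] at hD1
  have hD2 : Dk T (X - 1 : F[X]) = 3 := by
    rw [hD1]
    simp only [μ, Multiset.map_cons, Multiset.map_replicate, Multiset.sum_cons, Multiset.sum_replicate,
      smul_eq_mul]
    simp
  exact ⟨V, i1, i2, i3, Bf, T, hRz, by rw [hf, hsum], hD2⟩

theorem phi_of_five {p : ℕ} [Fact p.Prime] [CharP F p] (hp : p ≠ 5)
    (hord : orderOf (p : ZMod 5) ≠ 4) (hF2 : (2 : F) ≠ 0) :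
    (orderOf (p : ZMod 5) = 1 ∨ orderOf (p : ZMod 5) = 2) ∧ ∃ τ : F, τ * τ + τ - 1 = 0 := by
  have hpp : p.Prime := Fact.out
  haveI h5 : Fact (Nat.Prime 5) := ⟨by norm_num⟩
  have hne : (p : ZMod 5) ≠ 0 := by
    intro h
    rw [ZMod.natCast_eq_zero_iff] at h
    exact hp ((Nat.prime_dvd_prime_iff_eq h5.out hpp).1 h).symm
  have all4 := zmod5_pow4
  have hd : orderOf (p : ZMod 5) ∣ 4 := orderOf_dvd_of_pow_eq_one (all4 _ hne)
  have hle := Nat.le_of_dvd (by norm_num) hd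
  have h12 : orderOf (p : ZMod 5) = 1 ∨ orderOf (p : ZMod 5) = 2 := by
    have h0 : orderOf (p : ZMod 5) ≠ 0 := fun h => by rw [h] at hd; omega
    have h3 : orderOf (p : ZMod 5) ≠ 3 := fun h => by rw [h] at hd; omega
    omega
  refine ⟨h12, ?_⟩
  have hpsq : (p : ZMod 5) ^ 2 = 1 := by
    rcases h12 with h | h
    · have := orderOf_eq_one_iff.1 h
      rw [this, one_pow]
    · have := pow_orderOf_eq_one (p : ZMod 5)
      rwa [h] at this
  have hsq : IsSquare (p : ZMod 5) := by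
    exact zmod5_sq _ hpsq
  have hp2 : p ≠ 2 := by
    rintro rfl
    apply hF2
    have := CharP.cast_eq_zero F 2
    exact_mod_cast this
  have hq5 : IsSquare (((5 : ℕ) : ZMod p)) :=
    (ZMod.exists_sq_eq_prime_iff_of_mod_four_eq_one (p := 5) (q := p) (by norm_num) hp2).1 hsq
  obtain ⟨s, hs⟩ := hq5
  let f : ZMod p →+* F := ZMod.castHom (dvd_refl p) F
  have hw : f s * f s = 5 := by
    rw [← map_mul, ← hs, map_natCast]
    norm_num
  refine ⟨(f s - 1) / 2, ?_⟩
  field_simp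
  linear_combination hw

theorem zmod3_sq : ∀ x : ZMod 3, x ≠ 0 → x ^ 2 = 1 := by decide

/-- The forward implication. -/
theorem fwd_main {p : ℕ} [Fact p.Prime] [CharP F p] (hF : Fintype.card F = p) (hodd : Odd p)
    {R : Subgroup (GL Ix F)} (hRs : IsSymplecticTypeGroup 2 R)
    (hRi : ActsAbsolutelyIrreducibly (matrixSet R)) (hRf : R ≤ Cfsg.spGL 2 F)
    (hR5 : Nat.card R = 2 ^ 5) (hRZ : Nat.card (Subgroup.center R) = 2) (hRm : IsOfMinusType 2 R)
    {r : ℕ} [hrf : Fact r.Prime] (hΩ : r ∣ (subgroupNormalizer R).relIndex (Cfsg.spGL 2 F))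
    (hall : AllN r R) : r = 2 ∨ (r = 5 ∧ orderOf (p : ZMod 5) = 4) := by
  classical
  by_contra hne
  push Not at hne
  obtain ⟨hr2, hr5⟩ := hne
  have hr : r.Prime := hrf.out
  have hpP : p.Prime := Fact.out
  have hF2 : (2 : F) ≠ 0 := two_ne_zero_of_odd p hF hodd
  obtain ⟨z, c, D⟩ := exists_data hRs hRi hR5 hRZ hRm hF2
  have hιc : Fintype.card Ix = 4 := by simp
  have hRB : ∀ (t : R) (u v : Ix → F), sympBilin 2 F (mm t *ᵥ u) (mm t *ᵥ v) = sympBilin 2 F u v :=
    fun t u v => (mem_spGL_iff 2 _).1 (hRf t.2) u v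
  by_cases hrp : r = p
  · subst hrp
    obtain ⟨V, i1, i2, i3, Bf, T, hRz, hf, hD⟩ := exists_trans (F := F) (p := r) hF2
    obtain ⟨y, hyN, hy1, hyns, hyr, -⟩ := exists_elt hall hRz hf
      (not_scalar_of_Dk (by omega) (by omega))
    obtain ⟨s, hs⟩ := scalar_of_small D hF2 hιc hyN (by omega)
    exact hyns s hs
  have hrF : (r : F) ≠ 0 := by
    intro h
    have h2 := (CharP.cast_eq_zero_iff F p r).mp h
    exact hrp ((Nat.prime_dvd_prime_iff_eq hpP hr).mp h2).symm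
  have hrq : ¬ r ∣ p := by
    intro h
    exact hrp ((Nat.prime_dvd_prime_iff_eq hr hpP).mp h)
  set i := orderOf (p : ZMod r) with hi
  obtain ⟨e, he⟩ : ∃ e, e = if Even i then i else 2 * i := ⟨_, rfl⟩
  have hpne : (p : ZMod r) ≠ 0 := by
    rw [Ne, ZMod.natCast_eq_zero_iff]
    exact hrq
  have hi12e : i = 1 ∨ i = 2 → e = 2 := by
    rintro (h | h) <;> rw [he, h] <;> simp
  by_cases hr3 : r = 3
  · subst hr3
    have h3F : (3 : F) ≠ 0 := by exact_mod_cast hrF
    have hd : i ∣ 2 := orderOf_dvd_of_pow_eq_one (zmod3_sq _ hpne)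
    have he2 : e = 2 := hi12e (by
      have hle := Nat.le_of_dvd (by norm_num) hd
      have h0 : i ≠ 0 := fun h => by rw [h] at hd; omega
      omega)
    obtain ⟨V, i1, i2, i3, Bf, T, hRz, hf, hD, hNS⟩ :=
      Cfsg.Agent.Lib.ElusDec.SpNegD.exists_model_w (d := 2) (w := 1) hF hr hr2 hrF hrq hi he le_rfl
        (by omega)
    obtain ⟨y, hyN, hy1, hyns, hyr, hyS⟩ := exists_elt hall hRz hf hNS
    exact no_three D (sympBilin 2 F) sympBilin_nondegenerate sympBilin_isAlt hιc h3F hF2 hRB hyN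
      ((mem_spGL_iff 2 _).1 hyS) hy1 (by omega)
  by_cases hr5' : r = 5
  · subst hr5'
    have h5F : (5 : F) ≠ 0 := by exact_mod_cast hrF
    obtain ⟨h12, τ, hτ⟩ := phi_of_five (F := F) (p := p) (Ne.symm hrp) (hr5 rfl) hF2
    have he2 : e = 2 := hi12e h12
    obtain ⟨V, i1, i2, i3, Bf, T, hRz, hf, hD, hNS⟩ :=
      Cfsg.Agent.Lib.ElusDec.SpNegD.exists_model_w (d := 2) (w := 1) hF hr hr2 hrF hrq hi he le_rfl
        (by omega)
    obtain ⟨y, hyN, hy1, hyns, hyr, -⟩ := exists_elt hall hRz hf hNS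
    exact no_five D hιc hF2 h5F hτ hyN hy1 (by omega) hyns
  have h7 : 7 ≤ r := by
    by_contra h
    have h6 : r = 0 ∨ r = 1 ∨ r = 4 ∨ r = 6 := by omega
    rcases h6 with h0 | h0 | h0 | h0 <;> rw [h0] at hr <;> exact absurd hr (by norm_num)
  have hele : e ≤ 2 * 2 := c_le_of_dvd_sp hF hr hrq hi he (hΩ.trans (Subgroup.relIndex_dvd_card _ _))
  obtain ⟨V, i1, i2, i3, Bf, T, hRz, hf, hD, hNS⟩ :=
    Cfsg.Agent.Lib.ElusDec.SpNegD.exists_model_w (d := 2) (w := 1) hF hr hr2 hrF hrq hi he le_rfl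
      (by omega)
  obtain ⟨y, hyN, hy1, hyns, hyr, -⟩ := exists_elt hall hRz hf hNS
  have hφ : (phi hyN) ^ r = 1 := phi_pow_one hyN (s := 1) (by rw [hy1]; simp)
  obtain ⟨s, hs⟩ := scalar_of_phi D hyN (D.H.aut_large h7 hφ)
  exact hyns s hs

theorem not_scalar_c {R : Subgroup (GL Ix F)} {z : R} {c : Fin 5 → R} (D : MFive R z c)
    (hF2 : (2 : F) ≠ 0) (i : Fin 5) (s : F) : mm (c i) ≠ s • 1 := by
  intro h
  obtain ⟨j, hj⟩ := exists_ne i
  have h1 := D.manti (Ne.symm hj)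
  rw [h, Matrix.smul_mul, Matrix.mul_smul, Matrix.one_mul, Matrix.mul_one] at h1
  have h2 : (2 : F) • (s • mm (c j)) = 0 := by
    rw [two_smul]
    nth_rw 1 [h1]
    simp
  have h3 := (smul_eq_zero.1 h2).resolve_left hF2
  have h4 : s • (1 : Matrix Ix Ix F) = 0 := by
    have h5 := congrArg (· * mm (c j)) h3
    simp only [Matrix.smul_mul, D.msq, Matrix.zero_mul] at h5
    exact h5
  have h6 := D.msq i
  rw [h, h4, Matrix.zero_mul] at h6
  have := congrFun (congrFun h6 (Sum.inl 0)) (Sum.inl 0)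
  simp at this

/-- The backward implication for involutions. -/
theorem bwd_two {p : ℕ} [Fact p.Prime] [CharP F p] (hF : Fintype.card F = p) (hodd : Odd p)
    {R : Subgroup (GL Ix F)} {z : R} {c : Fin 5 → R} (D : MFive R z c) (hRf : R ≤ Cfsg.spGL 2 F) :
    AllN 2 R := by
  classical
  rintro x hx ⟨s, hs⟩ hns
  have hF2 : (2 : F) ≠ 0 := two_ne_zero_of_odd p hF hodd
  have hcard : Fintype.card F % 2 = 1 := by
    rw [hF]
    exact Nat.odd_iff.mp hodd
  have hiso := (mem_spGL_iff 2 x).mp hx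
  set Xm : Matrix Ix Ix F := (x : Matrix Ix Ix F) with hXd
  have hX2 : Xm * Xm = s • 1 := by
    rw [← hs, Units.val_pow_eq_pow_val, pow_two]
  let L : End F (Ix → F) := Matrix.toLin' Xm
  have hL : ∀ v, L v = Xm *ᵥ v := fun v => rfl
  have hLr : L ^ 2 = s • 1 := by
    apply LinearMap.ext
    intro v
    rw [pow_two, Module.End.mul_apply, hL, hL, Matrix.mulVec_mulVec, hX2]
    simp [Matrix.smul_mulVec]
  have hfm := Rz.fm (Rz.triv (F := F) 2 2)
  have hz2 : s ^ 2 = 1 := scalar_sq hfm (T := L) (fun u v => hiso u v) hLr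
    (by rw [finrank_triv]; omega)
  have hz3 : (s - 1) * (s + 1) = 0 := by linear_combination hz2
  rcases mul_eq_zero.mp hz3 with hz1 | hz1
  · have hz1' : s = 1 := sub_eq_zero.mp hz1
    subst hz1'
    rw [one_smul] at hX2
    have hRz : Rz (sympBilin 2 F) L 2 := ⟨sympBilin_isAlt, sympBilin_nondegenerate,
      fun u v => hiso u v, by rw [hLr, one_smul]⟩
    let Ym : Matrix Ix Ix F := mm (c 0)
    have hyS : ((c 0 : R) : GL Ix F) ∈ Cfsg.spGL 2 F := hRf (c 0).2
    have hyiso := (mem_spGL_iff 2 _).mp hyS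
    have hy2 : Ym * Ym = 1 := D.msq 0
    let Ly : End F (Ix → F) := Matrix.toLin' Ym
    have hLy : ∀ v, Ly v = Ym *ᵥ v := fun v => rfl
    have hRzy : Rz (sympBilin 2 F) Ly 2 := ⟨sympBilin_isAlt, sympBilin_nondegenerate,
      fun u v => hyiso u v, by
      apply LinearMap.ext
      intro v
      rw [pow_two, Module.End.mul_apply, hLy, hLy, Matrix.mulVec_mulVec, hy2]
      simp⟩
    have hNS1 : ∀ t : F, L ≠ t • 1 := by
      intro t ht
      apply hns t
      apply Matrix.toLin'.injective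
      show L = _
      rw [ht, map_smul, Matrix.toLin'_one]
      rfl
    have hNS2 : ∀ t : F, Ly ≠ t • 1 := by
      intro t ht
      apply not_scalar_c D hF2 0 t
      apply Matrix.toLin'.injective
      show Ly = _
      rw [ht, map_smul, Matrix.toLin'_one]
      rfl
    have hdim : finrank F (Ix → F) = 4 := by simp
    have hDeq : Dk L (X - 1 : F[X]) = Dk Ly (X - 1 : F[X]) := by
      rw [Dk_invol hRz hF2 hdim hNS1, Dk_invol hRzy hF2 hdim hNS2]
    obtain ⟨φ, hφ1, hφ2⟩ := conj_invol hRz hRzy hF2 hDeq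
    obtain ⟨A, hA⟩ := sp_of_equiv φ hφ1
    have hconj : Xm * (A : Matrix Ix Ix F) = (A : Matrix Ix Ix F) * (((c 0 : R) : GL Ix F) : Matrix Ix Ix F) := by
      apply Matrix.ext_of_mulVec_single
      intro j
      rw [← Matrix.mulVec_mulVec, ← Matrix.mulVec_mulVec, hA, hA]
      exact (hφ2 _).symm
    obtain ⟨g, hg, hgy⟩ := conj_mem A hconj
    refine ⟨g, hg, ?_⟩
    rw [hgy]
    exact Subgroup.le_normalizer (c 0).2
  · have hz1' : s = -1 := eq_neg_of_add_eq_zero_left hz1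
    subst hz1'
    have hX2' : Xm * Xm = -1 := by rw [hX2]; simp
    have hym : ((c 0 * c 1 : R) : GL Ix F) ∈ Cfsg.spGL 2 F := hRf (c 0 * c 1).2
    have hyiso := (mem_spGL_iff 2 _).mp hym
    have hy2 : mm (c 0 * c 1) * mm (c 0 * c 1) = -1 := by
      rw [← mm_mul, D.H.X.sq_anti (D.H.anti 0 1 (by decide)), D.H.sq, D.H.sq, one_mul, mul_one, D.hz]
    obtain ⟨A, hconj⟩ := conj_minus hcard hF2 hiso hX2' hyiso hy2
    obtain ⟨g, hg, hgy⟩ := conj_mem A hconj
    refine ⟨g, hg, ?_⟩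
    rw [hgy]
    exact Subgroup.le_normalizer (c 0 * c 1).2

/-- The backward implication for the prime five. -/
theorem bwd_five {p : ℕ} [Fact p.Prime] [CharP F p] (hF : Fintype.card F = p) (hodd : Odd p)
    {R : Subgroup (GL Ix F)} {z : R} {c : Fin 5 → R} (D : MFive R z c) (hRf : R ≤ Cfsg.spGL 2 F)
    (hord : orderOf (p : ZMod 5) = 4) : AllN 5 R := by
  classical
  rintro x hx ⟨s, hs⟩ hns
  have hF2 : (2 : F) ≠ 0 := two_ne_zero_of_odd p hF hodd
  have hpP : p.Prime := Fact.out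
  have hp5 : ¬ 5 ∣ p := by
    intro h
    have h0 : (p : ZMod 5) = 0 := (ZMod.natCast_eq_zero_iff _ _).2 h
    have h1 := pow_orderOf_eq_one (p : ZMod 5)
    rw [hord, h0] at h1
    exact absurd h1 (by decide)
  have h5F : (5 : F) ≠ 0 := by
    intro h
    have h1 : ((5 : ℕ) : F) = 0 := by exact_mod_cast h
    have h2 := (CharP.cast_eq_zero_iff F p 5).mp h1
    have h3 : p = 5 := (Nat.prime_dvd_prime_iff_eq hpP (by norm_num)).1 h2
    exact hp5 (h3 ▸ dvd_rfl)
  obtain ⟨hΦ, hdeg⟩ := phi_irred hF hp5 h5F hord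
  have hιc : Fintype.card Ix = 4 := by simp
  have hRB : ∀ (t : R) (u v : Ix → F), sympBilin 2 F (mm t *ᵥ u) (mm t *ᵥ v) = sympBilin 2 F u v :=
    fun t u v => (mem_spGL_iff 2 _).1 (hRf t.2) u v
  have hf : ∃ u v : Ix → F, sympBilin 2 F u v ≠ 0 := by
    by_contra hne
    push Not at hne
    have h1 := sympBilin_nondegenerate.1 (fun _ => (1 : F)) (hne _)
    have := congrFun h1 (Sum.inl 0)
    simp at this
  obtain ⟨y, hyN, hyB, hy5, hy1⟩ := exists_Y D (sympBilin 2 F) hf hF2 hRB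
  have hyS : y ∈ Cfsg.spGL 2 F := (mem_spGL_iff 2 y).2 hyB
  have hpow : ∀ a b : (Cfsg.spGL 2 F : Subgroup (GL Ix F)), a ^ 5 = 1 → b ^ 5 = 1 → a * b = b * a →
      b ≠ 1 → ∃ j : ℕ, a = b ^ j := by
    intro a b ha hb hab hb1
    obtain ⟨j, hj⟩ := eq_pow_gl hιc hΦ hdeg (a := (a : GL Ix F)) (b := (b : GL Ix F))
      (by exact_mod_cast congrArg Subtype.val ha) (by exact_mod_cast congrArg Subtype.val hb)
      (congrArg Subtype.val hab) (fun h => hb1 (Subtype.ext h))
    exact ⟨j, Subtype.ext (by rw [hj]; rfl)⟩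
  have key : ∀ κ ∈ Cfsg.spGL 2 F, κ ^ 5 = 1 → ∃ g ∈ Cfsg.spGL 2 F, ∃ k : ℕ, g⁻¹ * κ * g = y ^ k := by
    intro κ hκ hκ5
    obtain ⟨t, k, h⟩ := conj_into hpow (x := ⟨κ, hκ⟩) (y := ⟨y, hyS⟩)
      (Subtype.ext hκ5) (Subtype.ext hy5)
      (fun h => hy1 (congrArg Subtype.val h))
    refine ⟨(t : GL Ix F)⁻¹, inv_mem t.2, k, ?_⟩
    rw [inv_inv]
    exact congrArg Subtype.val h
  have hiso := (mem_spGL_iff 2 x).mp hx
  set Xm : Matrix Ix Ix F := (x : Matrix Ix Ix F) with hXd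
  have hX5 : Xm ^ 5 = s • 1 := by
    rw [← hs, Units.val_pow_eq_pow_val]
  let L : End F (Ix → F) := Matrix.toLin' Xm
  have hL : ∀ v, L v = Xm *ᵥ v := fun v => rfl
  have hLp : ∀ n : ℕ, ∀ v, (L ^ n) v = (Xm ^ n) *ᵥ v := by
    intro n v
    induction n generalizing v with
    | zero => simp
    | succ n ih => rw [pow_succ, Module.End.mul_apply, ih, hL, Matrix.mulVec_mulVec, pow_succ]
  have hLr : L ^ 5 = s • 1 := by
    apply LinearMap.ext
    intro v
    rw [hLp, hX5]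
    simp [Matrix.smul_mulVec]
  have hfm := Rz.fm (Rz.triv (F := F) 2 2)
  have hz2 : s ^ 2 = 1 := scalar_sq hfm (T := L) (fun u v => hiso u v) hLr
    (by rw [finrank_triv]; omega)
  have hz3 : (s - 1) * (s + 1) = 0 := by linear_combination hz2
  rcases mul_eq_zero.mp hz3 with hz1 | hz1
  · have hz1' : s = 1 := sub_eq_zero.mp hz1
    subst hz1'
    have hx5 : x ^ 5 = 1 := by
      apply Units.ext
      rw [Units.val_pow_eq_pow_val, ← hXd, hX5, one_smul, Units.val_one]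
    obtain ⟨g, hg, k, hk⟩ := key x hx hx5
    refine ⟨g, hg, ?_⟩
    rw [hk]
    exact pow_mem hyN k
  · have hz1' : s = -1 := eq_neg_of_add_eq_zero_left hz1
    subst hz1'
    set Z : GL Ix F := (z : GL Ix F) with hZ
    have hZv : (Z : Matrix Ix Ix F) = -1 := D.hz
    have hZc : ∀ a : GL Ix F, a * Z = Z * a := by
      intro a
      apply Units.ext
      rw [Units.val_mul, Units.val_mul, hZv]
      simp
    have hZS : Z ∈ Cfsg.spGL 2 F := hRf z.2
    have hκ5 : (Z * x) ^ 5 = 1 := by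
      apply Units.ext
      rw [Units.val_pow_eq_pow_val, Units.val_mul, hZv, ← hXd, neg_one_mul,
        Odd.neg_pow (by decide), hX5, Units.val_one]
      simp
    obtain ⟨g, hg, k, hk⟩ := key _ (mul_mem hZS hx) hκ5
    refine ⟨g, hg, ?_⟩
    have h1 : g⁻¹ * x * g = Z⁻¹ * y ^ k := by
      rw [← hk]
      calc g⁻¹ * x * g = Z⁻¹ * (Z * (g⁻¹ * x * g)) := by group
        _ = Z⁻¹ * ((Z * g⁻¹) * x * g) := by group
        _ = Z⁻¹ * ((g⁻¹ * Z) * x * g) := by rw [hZc g⁻¹]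
        _ = Z⁻¹ * (g⁻¹ * (Z * x) * g) := by group
    rw [h1]
    exact mul_mem (inv_mem (Subgroup.le_normalizer z.2)) (pow_mem hyN k)

end main

end Cfsg.Agent.Lib.FGStruct.SpFour
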