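import Cfsg.Agent.Lib.FGStruct.Cliff6
import Cfsg.Agent.Lib.FGStruct.SpFour
import Cfsg.Agent.Lib.SUConj.Main
import Cfsg.Agent.Lib.Elusive.EigenSplit

/-!
# `2^{2+4}` in `SU₄(p)`: matrix data, adjoints, conjugacy through characteristic polynomials
-/

set_option autoImplicit false
set_option linter.unusedSectionVars false
set_option linter.style.haveILetI false
set_option linter.unusedVariables false
set_option linter.unusedSimpArgs false

open Polynomial Module Matrix
open scoped MatrixGroups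

namespace Cfsg.Agent.Lib.FGStruct.SuFourA

open Cfsg Cfsg.Geo Cfsg.Agent.Lib.FGStruct.Cliff5 Cfsg.Agent.Lib.FGStruct.Cliff6
  Cfsg.Agent.Lib.FGStruct.SpFour Cfsg.Agent.Lib.SUConj.Adj Cfsg.Agent.Lib.SUConj.Main
  Cfsg.Agent.Lib.HermCount.Field

variable {F : Type*} [Field F] [Fintype F] {p : ℕ}

/-- Extract the group package. -/
theorem exists_six {R : Subgroup (GL (Fin 4) F)} (hRs : IsSymplecticTypeGroup 2 R)
    (hRZ : Nat.card (Subgroup.center R) = 4) : ∃ z ι : R, Six z ι := by
  classical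
  haveI : Finite R := inferInstance
  have h4 : ∀ x : R, x ^ 4 = 1 := by
    intro x
    have h2 : Monoid.exponent R = 4 := by
      rw [hRs.exponent_eq]
      norm_num
    have h3 := Monoid.pow_exponent_eq_one x
    rwa [h2] at h3
  have hcyc : IsCyclic (Subgroup.center R) := hRs.cyclic_of_characteristic (Subgroup.center R)
    inferInstance ⟨⟨fun a b => Subtype.ext (Subgroup.mem_center_iff.mp a.2 b).symm⟩⟩
  obtain ⟨g, hg⟩ := IsCyclic.exists_generator (α := Subgroup.center R)
  have hog : orderOf g = 4 := by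
    rw [orderOf_eq_card_of_forall_mem_zpowers hg, hRZ]
  set ι : R := g.1 with hιdef
  have hιc : ∀ y : R, y * ι = ι * y := Subgroup.mem_center_iff.1 g.2
  set z : R := ι * ι with hzdef
  have hzc : z ∈ Subgroup.center R := mul_mem g.2 g.2
  have hg2 : g ^ 2 ≠ 1 := pow_ne_one_of_lt_orderOf (by norm_num) (by omega)
  have hz1 : z ≠ 1 := by
    intro h
    apply hg2
    apply Subtype.ext
    rw [pow_two]
    exact h
  have hg4 : g ^ 4 = 1 := by
    have h3 := pow_orderOf_eq_one g
    rwa [hog] at h3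
  have hzz : z * z = 1 := by
    have h1 := congrArg Subtype.val hg4
    have e : g ^ 4 = (g * g) * (g * g) := by
      simp only [pow_succ, pow_zero, one_mul, mul_assoc]
    rw [e] at h1
    exact h1
  have hs := Cfsg.Agent.Lib.TI.SympExp4.structure_thm hRs.pGroup hRs.cyclic_of_characteristic h4
    (z := z) hzc hzz hz1
  have hzc' : ∀ x : R, x * z = z * x := fun x => Subgroup.mem_center_iff.1 hzc x
  have X : Xs R z := by
    refine ⟨hzc', hz1, hzz, hs.1, fun x y => ?_⟩
    rcases hs.2.1 x y with h | h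
    · left
      exact commutatorElement_eq_one_iff_mul_comm.1 h
    · right
      rw [commutatorElement_def] at h
      rw [← h]
      group
  refine ⟨z, ι, X, hιc, rfl, fun x hx => ?_⟩
  have hxc : x ∈ Subgroup.center R := Subgroup.mem_center_iff.2 (fun y => (hx y).symm)
  have hm := hg ⟨x, hxc⟩
  rw [← mem_powers_iff_mem_zpowers] at hm
  obtain ⟨k, hk⟩ := hm
  have hk' : g ^ (k % 4) = ⟨x, hxc⟩ := by
    have h3 := pow_mod_orderOf g k
    rw [hog] at h3
    rw [h3, ← hk]
  have hx' : x = ((g ^ (k % 4) : Subgroup.center R) : R) := by rw [hk']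
  have hlt : k % 4 < 4 := Nat.mod_lt _ (by norm_num)
  generalize k % 4 = m at hx' hlt
  have : m = 0 ∨ m = 1 ∨ m = 2 ∨ m = 3 := by omega
  rcases this with rfl | rfl | rfl | rfl
  · left
    simpa using hx'
  · right; right; left
    simpa using hx'
  · right; left
    rw [hx', pow_two]
    rfl
  · right; right; right
    rw [hx', pow_succ, pow_two]
    rfl

/-- Matrix-level data. -/
structure MSix (R : Subgroup (GL (Fin 4) F)) (z ι a₁ a₂ b₁ b₂ : R) (i : F) : Prop where
  D : Hyp z ι a₁ a₂ b₁ b₂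
  hz : mm z = -1
  hι : mm ι = i • 1
  hi : i * i = -1
  comm : ∀ T : Matrix (Fin 4) (Fin 4) F, T * mm a₁ = mm a₁ * T → T * mm a₂ = mm a₂ * T →
    T * mm b₁ = mm b₁ * T → T * mm b₂ = mm b₂ * T → ∃ s : F, T = s • 1

theorem exists_msix {R : Subgroup (GL (Fin 4) F)} (hRs : IsSymplecticTypeGroup 2 R)
    (hRi : ActsAbsolutelyIrreducibly (matrixSet R)) (hR6 : Nat.card R = 2 ^ 6)
    (hRZ : Nat.card (Subgroup.center R) = 4) (hF2 : (2 : F) ≠ 0) :
    ∃ (z ι a₁ a₂ b₁ b₂ : R) (i : F), MSix R z ι a₁ a₂ b₁ b₂ i := by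
  classical
  haveI : Finite R := inferInstance
  obtain ⟨z, ι, H⟩ := exists_six hRs hRZ
  obtain ⟨a₁, a₂, b₁, b₂, D⟩ := H.exists_hyp' (by rw [hR6]; norm_num)
  have hιZ : ((ι : R) : GL (Fin 4) F) ∈ scalars (Fin 4) F := by
    have h1 : ι ∈ (scalars (Fin 4) F).subgroupOf R := by
      rw [← Cfsg.Agent.Lib.Asch.SC.center_eq hRi]
      exact Subgroup.mem_center_iff.2 (fun y => H.hι y)
    exact Subgroup.mem_subgroupOf.1 h1
  obtain ⟨s₀, hs'⟩ := (mem_scalars_iff _).1 hιZ
  generalize (s₀ : F) = s at hs'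
  have hι' : mm ι = s • 1 := hs'
  have hz' : mm z = (s * s) • 1 := by
    rw [← H.ιι, mm_mul, hι', Matrix.smul_mul, Matrix.mul_smul, Matrix.one_mul, smul_smul]
  have hss : (s * s) * (s * s) = 1 := by
    have h3 := congrArg (fun t : R => mm t) H.X.zz
    simp only [mm_mul, mm_one] at h3
    rw [hz', Matrix.smul_mul, Matrix.mul_smul, Matrix.one_mul, smul_smul] at h3
    have := congrFun (congrFun h3 0) 0
    simpa using this
  have h4 : (s * s - 1) * (s * s + 1) = 0 := by linear_combination hss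
  have hsm : s * s = -1 := by
    rcases mul_eq_zero.1 h4 with h5 | h5
    · exfalso
      apply H.X.z1
      apply Subtype.ext
      apply Units.ext
      show mm z = _
      rw [hz', sub_eq_zero.1 h5, one_smul]
      rfl
    · exact eq_neg_of_add_eq_zero_left h5
  refine ⟨z, ι, a₁, a₂, b₁, b₂, s, D, ?_, hι', hsm, ?_⟩
  · rw [hz', hsm]
    simp
  · intro T h1 h2 h3 h4
    apply hRi.2
    rintro _ ⟨g, hg, rfl⟩
    have key : ∀ t : R, t ∈ Subgroup.closure ({a₁, a₂, b₁, b₂, ι} : Set R) → T * mm t = mm t * T := by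
      intro t ht
      induction ht using Subgroup.closure_induction with
      | mem x hx =>
        rcases hx with rfl | rfl | rfl | rfl | rfl
        · exact h1
        · exact h2
        · exact h3
        · exact h4
        · rw [hι', Matrix.mul_smul, Matrix.smul_mul, Matrix.mul_one, Matrix.one_mul]
      | one => simp [mm_one]
      | mul a b _ _ h1 h2 =>
        rw [mm_mul, ← mul_assoc, h1, mul_assoc, h2, mul_assoc]
      | inv a _ h1 =>
        have h2 : mm a⁻¹ * mm a = 1 := by rw [← mm_mul, inv_mul_cancel, mm_one]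
        have h3 : mm a * mm a⁻¹ = 1 := by rw [← mm_mul, mul_inv_cancel, mm_one]
        calc T * mm a⁻¹ = (mm a⁻¹ * mm a) * (T * mm a⁻¹) := by rw [h2, one_mul]
          _ = mm a⁻¹ * (mm a * T) * mm a⁻¹ := by noncomm_ring
          _ = mm a⁻¹ * (T * mm a) * mm a⁻¹ := by rw [h1]
          _ = mm a⁻¹ * T * (mm a * mm a⁻¹) := by noncomm_ring
          _ = mm a⁻¹ * T := by rw [h3, mul_one]
    exact key ⟨g, hg⟩ (D.gen _)

namespace MSix

variable {R : Subgroup (GL (Fin 4) F)} {z ι a₁ a₂ b₁ b₂ : R} {i : F}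
  (M : MSix R z ι a₁ a₂ b₁ b₂ i)
include M

theorem manti {x y : R} (h : Sg x y = 1) : mm x * mm y = -(mm y * mm x) := by
  rw [← mm_mul, (sg_eq_one M.D.H.X).1 h, mm_mul, mm_mul, M.hz]
  simp

theorem mcomm {x y : R} (h : Sg x y = 0) : mm x * mm y = mm y * mm x := by
  rw [← mm_mul, sg_eq_zero.1 h, mm_mul]

theorem msq_z {x : R} (h : x * x = z) : mm x * mm x = -1 := by
  rw [← mm_mul, h, M.hz]

theorem msq_one {x : R} (h : x * x = 1) : mm x * mm x = 1 := by
  rw [← mm_mul, h, mm_one]

/-- Elements with trivial automorphism are scalar. -/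
theorem scalar_of_phi {x : GL (Fin 4) F} (hx : x ∈ subgroupNormalizer R) (h : phi hx = 1) :
    ∃ s : F, (x : Matrix (Fin 4) (Fin 4) F) = s • 1 := by
  have key : ∀ t : R, (x : Matrix (Fin 4) (Fin 4) F) * mm t = mm t * x := by
    intro t
    have h1 := congrArg Units.val (phi_mul hx t)
    rw [Units.val_mul, Units.val_mul, h] at h1
    exact h1
  exact M.comm _ (key _) (key _) (key _) (key _)

/-- Elements of the normaliser fix `ι`. -/
theorem phi_ι {x : GL (Fin 4) F} (hx : x ∈ subgroupNormalizer R) : phi hx ι = ι := by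
  apply Subtype.ext
  apply Units.ext
  have h1 : (x : Matrix (Fin 4) (Fin 4) F) * mm ι = mm (phi hx ι) * x :=
    congrArg Units.val (phi_mul hx ι)
  rw [M.hι, Matrix.mul_smul, Matrix.mul_one] at h1
  have h2 : (i • (1 : Matrix (Fin 4) (Fin 4) F)) * x = mm (phi hx ι) * x := by
    rw [← h1, Matrix.smul_mul, Matrix.one_mul]
  have h3 := (Units.isUnit x).mul_left_inj.1 h2
  show mm (phi hx ι) = mm ι
  rw [M.hι, h3]

end MSix

section adjoint

variable (hF : Fintype.card F = p ^ 2)
include hF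

theorem adjM_of_GU {g : GL (Fin 4) F} (hg : g ∈ GU 4 F p) : adjM hF g.val * g.val = 1 := by
  have h1 := adj_mul_self_of_isometry hF (Matrix.toLin' g.val) (fun x y => hg x y)
  have h2 := congrArg LinearMap.toMatrix' h1
  rw [Module.End.mul_eq_comp, LinearMap.toMatrix'_comp, toMatrix'_adj, LinearMap.toMatrix'_toLin'] at h2
  rw [h2]
  exact LinearMap.toMatrix'_one

theorem iso_of_adjM {M : Matrix (Fin 4) (Fin 4) F} (h : adjM hF M * M = 1) (u v : Fin 4 → F) :
    hermForm 4 F p (M *ᵥ u) (M *ᵥ v) = hermForm 4 F p u v := by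
  have h1 : adj hF (Matrix.toLin' M) * Matrix.toLin' M = 1 := by
    apply LinearMap.toMatrix'.injective
    rw [Module.End.mul_eq_comp, LinearMap.toMatrix'_comp, toMatrix'_adj, LinearMap.toMatrix'_toLin', h]
    exact LinearMap.toMatrix'_one.symm
  exact isometry_of_adj_mul_self hF _ h1 u v

theorem GU_of_adjM {g : GL (Fin 4) F} (h : adjM hF g.val * g.val = 1) : g ∈ GU 4 F p :=
  fun u v => iso_of_adjM hF h u v

theorem adjM_smul (c : F) (A : Matrix (Fin 4) (Fin 4) F) : adjM hF (c • A) = c ^ p • adjM hF A := by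
  ext a b
  show frobHom hF ((c • A) b a) = c ^ p * frobHom hF (A b a)
  rw [Matrix.smul_apply, smul_eq_mul, map_mul, frobHom_apply]

theorem adjM_neg (A : Matrix (Fin 4) (Fin 4) F) : adjM hF (-A) = - adjM hF A := by
  ext a b
  show frobHom hF ((-A) b a) = - frobHom hF (A b a)
  rw [Matrix.neg_apply, map_neg]

theorem adjM_sub (A B : Matrix (Fin 4) (Fin 4) F) : adjM hF (A - B) = adjM hF A - adjM hF B := by
  ext a b
  show frobHom hF ((A - B) b a) = frobHom hF (A b a) - frobHom hF (B b a)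
  rw [Matrix.sub_apply, map_sub]

theorem adjM_eq_of {M M' : Matrix (Fin 4) (Fin 4) F} (h : adjM hF M * M = 1) (h2 : M * M' = 1) :
    adjM hF M = M' := by
  calc adjM hF M = adjM hF M * (M * M') := by rw [h2, mul_one]
    _ = M' := by rw [← mul_assoc, h, one_mul]

theorem trace_adjM (M : Matrix (Fin 4) (Fin 4) F) : (adjM hF M).trace = M.trace ^ p := by
  unfold adjM
  rw [Matrix.trace_transpose]
  have := AddMonoidHom.map_trace (frobHom hF) M
  rw [frobHom_apply] at this
  rw [this]

theorem adjM_mul_of_inv {M M' : Matrix (Fin 4) (Fin 4) F} (h : adjM hF M = M') :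
    adjM hF M' = M := by
  rw [← h, adjM_adjM]

/-- `x ↦ x^p` fixes coefficients of the prime field. -/
theorem pow_p_natCast [Fact p.Prime] [CharP F p] (n : ℕ) : ((n : F)) ^ p = n := by
  have h := ZMod.pow_card (n : ZMod p)
  have h2 := congrArg (ZMod.castHom (dvd_refl p) F) h
  rw [map_pow, map_natCast] at h2
  exact h2

theorem two_inv_pow [Fact p.Prime] [CharP F p] : ((2 : F)⁻¹) ^ p = (2 : F)⁻¹ := by
  rw [inv_pow]
  congr 1
  have := pow_p_natCast (F := F) hF 2
  simpa using this

end adjoint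

/-- Scalars as group elements. -/
noncomputable def sc (s : F) (hs : s ≠ 0) : GL (Fin 4) F :=
  ⟨s • 1, s⁻¹ • 1, by
    rw [Matrix.smul_mul, Matrix.mul_smul, Matrix.one_mul, smul_smul, mul_inv_cancel₀ hs, one_smul], by
    rw [Matrix.smul_mul, Matrix.mul_smul, Matrix.one_mul, smul_smul, inv_mul_cancel₀ hs, one_smul]⟩

theorem sc_val (s : F) (hs : s ≠ 0) : (sc s hs : Matrix (Fin 4) (Fin 4) F) = s • 1 := rfl

theorem sc_comm (s : F) (hs : s ≠ 0) (g : GL (Fin 4) F) : sc s hs * g = g * sc s hs := by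
  apply Units.ext
  rw [Units.val_mul, Units.val_mul, sc_val, Matrix.smul_mul, Matrix.mul_smul, Matrix.one_mul, Matrix.mul_one]

theorem sc_mem_normalizer (R : Subgroup (GL (Fin 4) F)) (s : F) (hs : s ≠ 0) :
    sc s hs ∈ subgroupNormalizer R := by
  show sc s hs ∈ Subgroup.normalizer (R : Set (GL (Fin 4) F))
  rw [Subgroup.mem_normalizer_iff]
  intro h
  rw [sc_comm s hs h, mul_inv_cancel_right]

theorem mem_normalizer_of_gens {R : Subgroup (GL (Fin 4) F)} (S : Set R)
    (hS : ∀ t : R, t ∈ Subgroup.closure S) (y : GL (Fin 4) F)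
    (h : ∀ t ∈ S, y * (t : GL (Fin 4) F) * y⁻¹ ∈ R) : y ∈ subgroupNormalizer R := by
  classical
  haveI : Finite R := inferInstance
  have h1 : ∀ t : R, y * (t : GL (Fin 4) F) * y⁻¹ ∈ R := by
    intro t
    have ht := hS t
    induction ht using Subgroup.closure_induction with
    | mem x hx => exact h x hx
    | one => simp
    | mul a b _ _ h1 h2 =>
      have : y * ((a * b : R) : GL (Fin 4) F) * y⁻¹ =
          (y * (a : GL (Fin 4) F) * y⁻¹) * (y * (b : GL (Fin 4) F) * y⁻¹) := by
        simp only [Subgroup.coe_mul]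
        group
      rw [this]
      exact mul_mem h1 h2
    | inv a _ h1 =>
      have : y * ((a⁻¹ : R) : GL (Fin 4) F) * y⁻¹ = (y * (a : GL (Fin 4) F) * y⁻¹)⁻¹ := by
        simp only [Subgroup.coe_inv]
        group
      rw [this]
      exact inv_mem h1
  let c : R → R := fun t => ⟨y * (t : GL (Fin 4) F) * y⁻¹, h1 t⟩
  have hc : Function.Injective c := by
    intro a b hab
    have h2 := congrArg Subtype.val hab
    simp only [c] at h2
    exact Subtype.ext (mul_left_cancel (mul_right_cancel h2))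
  have hs : Function.Surjective c := Finite.injective_iff_surjective.1 hc
  show y ∈ Subgroup.normalizer (R : Set (GL (Fin 4) F))
  rw [Subgroup.mem_normalizer_iff]
  intro g
  constructor
  · intro hg
    exact h1 ⟨g, hg⟩
  · intro hg
    obtain ⟨t, ht⟩ := hs ⟨_, hg⟩
    have h2 := congrArg Subtype.val ht
    simp only [c] at h2
    have h3 : (t : GL (Fin 4) F) = g := mul_left_cancel (mul_right_cancel h2)
    rw [← h3]
    exact t.2

section bridge

/-- The element of `SU` of an element of `GU ⊓ SL`. -/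
noncomputable def toSU {x : GL (Fin 4) F} (hx : x ∈ GU 4 F p ⊓ specialLinear (Fin 4) F) :
    ↥(Cfsg.SU 4 F p) :=
  ⟨⟨x.val, by
    have h := hx.2
    have h2 : Matrix.GeneralLinearGroup.det x = 1 := h
    have h3 := congrArg Units.val h2
    simpa using h3⟩, fun u v => hx.1 u v⟩

theorem conj_of_charpoly (hF : Fintype.card F = p ^ 2) [Fact p.Prime] [CharP F p] {x y : GL (Fin 4) F}
    (hx : x ∈ GU 4 F p ⊓ specialLinear (Fin 4) F) (hy : y ∈ GU 4 F p ⊓ specialLinear (Fin 4) F)
    {m : ℕ} (hm : m.Coprime p) (hxm : x ^ m = 1) (hym : y ^ m = 1)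
    (hc : x.val.charpoly = y.val.charpoly) :
    ∃ g ∈ GU 4 F p ⊓ specialLinear (Fin 4) F, g⁻¹ * x * g = y := by
  classical
  set x' := toSU hx with hx'
  set y' := toSU hy with hy'
  have hpow : ∀ {w : GL (Fin 4) F} (hw : w ∈ GU 4 F p ⊓ specialLinear (Fin 4) F), w ^ m = 1 →
      (toSU hw) ^ m = 1 := by
    intro w hw hwm
    apply Subtype.ext
    apply Subtype.ext
    have h1 := congrArg Units.val hwm
    rw [Units.val_pow_eq_pow_val, Units.val_one] at h1
    simp only [SubmonoidClass.coe_pow, Matrix.SpecialLinearGroup.coe_pow, OneMemClass.coe_one,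
      Matrix.SpecialLinearGroup.coe_one]
    exact h1
  have hco : ∀ {w : GL (Fin 4) F} (hw : w ∈ GU 4 F p ⊓ specialLinear (Fin 4) F), w ^ m = 1 →
      (orderOf (toSU hw)).Coprime p := by
    intro w hw hwm
    exact Nat.Coprime.coprime_dvd_left (orderOf_dvd_of_pow_eq_one (hpow hw hwm)) hm
  have hconj := isConj_SU hF x' y' (isSS_of_coprime_SU p x' (hco hx hxm))
    (isSS_of_coprime_SU p y' (hco hy hym)) hc
  rw [isConj_iff] at hconj
  obtain ⟨c, hc1⟩ := hconj
  let Φ : ↥(Cfsg.SU 4 F p) →* GL (Fin 4) F :=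
    (Matrix.SpecialLinearGroup.toGL).comp (Subgroup.subtype _)
  have hΦx : Φ x' = x := Units.ext rfl
  have hΦy : Φ y' = y := Units.ext rfl
  have hΦmem : ∀ w : ↥(Cfsg.SU 4 F p), Φ w ∈ GU 4 F p ⊓ specialLinear (Fin 4) F := by
    intro w
    constructor
    · exact fun u v => w.2 u v
    · show Matrix.GeneralLinearGroup.det (Φ w) = 1
      apply Units.ext
      show (w.1.1 : Matrix (Fin 4) (Fin 4) F).det = 1
      exact w.1.2
  refine ⟨Φ c⁻¹, hΦmem _, ?_⟩
  rw [← hΦx, ← hΦy, ← hc1, map_mul, map_mul, map_inv, inv_inv]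

end bridge

section frames

/-- Frames: diagonal form up to conjugation. -/
structure Fr (T : Matrix (Fin 4) (Fin 4) F) (d : Fin 4 → F) : Prop where
  cp : T.charpoly = ∏ i, (X - Polynomial.C (d i))
  tr : ∀ k : ℕ, (T ^ k).trace = ∑ i, d i ^ k
  dt : T.det = ∏ i, d i
  sc : (∀ i, d i = d 0) → T = d 0 • 1

theorem exists_frame (T : Matrix (Fin 4) (Fin 4) F) (s : Finset F)
    (h : aeval T (∏ α ∈ s, (X - Polynomial.C α)) = 0) :
    ∃ d : Fin 4 → F, (∀ i, d i ∈ s) ∧ Fr T d := by
  classical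
  let e : Matrix (Fin 4) (Fin 4) F ≃ₐ[F] End F (Fin 4 → F) := Matrix.toLinAlgEquiv'
  have h0 : aeval (e T) (∏ α ∈ s, (X - Polynomial.C α)) = 0 := by
    rw [Polynomial.aeval_algEquiv, AlgHom.comp_apply, h]
    simp
  obtain ⟨d, b, hb, hd⟩ := Cfsg.Agent.Lib.Elusive.EigenSplit.exists_eigen_basis (e T) s h0 4 (by simp)
  refine ⟨d, hd, ?_⟩
  let B := Pi.basisFun F (Fin 4)
  let Q : (Matrix (Fin 4) (Fin 4) F)ˣ := ⟨B.toMatrix b, b.toMatrix B,
    Module.Basis.toMatrix_mul_toMatrix_flip _ _, Module.Basis.toMatrix_mul_toMatrix_flip _ _⟩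
  have hQv : ∀ i j, Q.val i j = b j i := by
    intro i j
    simp [Q, Module.Basis.toMatrix_apply, B]
  have hTQ : T * Q.val = Q.val * Matrix.diagonal d := by
    ext i j
    have h1 : (T *ᵥ b j) i = d j * b j i := by
      have h2 := congrFun (hb j) i
      simpa [e] using h2
    rw [Matrix.mul_diagonal, hQv, mul_comm, ← h1]
    simp only [Matrix.mul_apply, Matrix.mulVec, dotProduct, hQv]
  have hT : T = Q.val * Matrix.diagonal d * (Q⁻¹).val := by
    rw [← hTQ, mul_assoc, Units.mul_inv, mul_one]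
  refine ⟨?_, ?_, ?_, ?_⟩
  · rw [hT, Matrix.coe_units_inv, Matrix.charpoly_units_conj, Matrix.charpoly_diagonal]
  · intro k
    rw [hT, Units.conj_pow, Matrix.trace_units_conj, Matrix.diagonal_pow, Matrix.trace_diagonal]
    rfl
  · rw [hT, Matrix.det_units_conj, Matrix.det_diagonal]
  · intro hc
    have : Matrix.diagonal d = d 0 • 1 := by
      ext a b
      by_cases hab : a = b
      · subst hab
        simp [hc a]
      · simp [Matrix.diagonal_apply_ne _ hab, Matrix.one_apply_ne hab]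
    rw [hT, this, Matrix.mul_smul, Matrix.smul_mul, Matrix.mul_one, Units.mul_inv]

/-- Number of coordinates of given value. -/
noncomputable def cnt (d : Fin 4 → F) (α : F) : ℕ := by
  classical exact (Finset.univ.filter (fun i => d i = α)).card

theorem sum_count {M : Type*} [AddCommMonoid M] (d : Fin 4 → F) (t : Finset F) (hd : ∀ i, d i ∈ t) (g : F → M) :
    ∑ i, g (d i) = ∑ α ∈ t, cnt d α • g α := by
  classical
  rw [← Finset.sum_fiberwise_of_maps_to (s := Finset.univ) (t := t) (g := d) (fun i _ => hd i)]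
  apply Finset.sum_congr rfl
  intro α _
  have : ∀ i ∈ Finset.univ.filter (fun i => d i = α), g (d i) = g α := by
    intro i hi
    rw [(Finset.mem_filter.1 hi).2]
  rw [Finset.sum_congr rfl this, Finset.sum_const]
  congr

theorem prod_count {M : Type*} [CommMonoid M] (d : Fin 4 → F) (t : Finset F) (hd : ∀ i, d i ∈ t) (g : F → M) :
    ∏ i, g (d i) = ∏ α ∈ t, g α ^ cnt d α := by
  classical
  rw [← Finset.prod_fiberwise_of_maps_to (s := Finset.univ) (t := t) (g := d) (fun i _ => hd i)]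
  apply Finset.prod_congr rfl
  intro α _
  have : ∀ i ∈ Finset.univ.filter (fun i => d i = α), g (d i) = g α := by
    intro i hi
    rw [(Finset.mem_filter.1 hi).2]
  rw [Finset.prod_congr rfl this, Finset.prod_const]
  congr

theorem sum_cnt (d : Fin 4 → F) (t : Finset F) (hd : ∀ i, d i ∈ t) : ∑ α ∈ t, cnt d α = 4 := by
  classical
  have := sum_count d t hd (fun _ => (1 : ℕ))
  simpa using this.symm

end frames

end Cfsg.Agent.Lib.FGStruct.SuFourA
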