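import Cfsg.Agent.Lib.FGStruct.SuFourA
import Cfsg.Agent.Lib.Elusive.HermEigen

/-!
# `2^{2+4}` in `SU₄(p)`: elements that do not normalise
-/

set_option autoImplicit false
set_option linter.unusedSectionVars false
set_option linter.style.haveILetI false
set_option linter.unusedVariables false
set_option linter.unusedSimpArgs false

open Polynomial Module Matrix
open scoped MatrixGroups

namespace Cfsg.Agent.Lib.FGStruct.SuFourB

open Cfsg Cfsg.Geo Cfsg.Agent.Lib.FGStruct.Cliff5 Cfsg.Agent.Lib.FGStruct.Cliff6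
  Cfsg.Agent.Lib.FGStruct.SpFour Cfsg.Agent.Lib.SUConj.Adj Cfsg.Agent.Lib.SUConj.Main
  Cfsg.Agent.Lib.HermCount.Field Cfsg.Agent.Lib.FGStruct.SuFourA

variable {F : Type*} [Field F] [Fintype F] {p : ℕ}

/-- The hypothesis of the statement. -/
abbrev AllN (F : Type*) [Field F] [Fintype F] (p r : ℕ) (R : Subgroup (GL (Fin 4) F)) : Prop :=
  ∀ x ∈ GU 4 F p ⊓ specialLinear (Fin 4) F,
    (∃ z : F, ((x ^ r : GL (Fin 4) F) : Matrix (Fin 4) (Fin 4) F) = z • (1 : Matrix (Fin 4) (Fin 4) F)) →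
    (∀ z : F, (x : Matrix (Fin 4) (Fin 4) F) ≠ z • (1 : Matrix (Fin 4) (Fin 4) F)) →
    ∃ g ∈ GU 4 F p ⊓ specialLinear (Fin 4) F, g⁻¹ * x * g ∈ subgroupNormalizer R

section small

variable {R : Subgroup (GL (Fin 4) F)} {z ι a₁ a₂ b₁ b₂ : R} {i : F}

theorem selfadj_of_small (M : MSix R z ι a₁ a₂ b₁ b₂ i) (hF2 : (2 : F) ≠ 0) {x : GL (Fin 4) F}
    (hx : x ∈ subgroupNormalizer R) (hr : ((x : Matrix (Fin 4) (Fin 4) F) - 1).rank ≤ 1) (a : R) :
    Sg a (phi hx a) = 0 := by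
  have X := M.D.H.X
  by_contra hne
  have h1 : Sg a (phi hx a) = 1 := (sg_cases X _ _).resolve_left hne
  set T : Matrix (Fin 4) (Fin 4) F := (x : Matrix (Fin 4) (Fin 4) F) with hT
  set A : Matrix (Fin 4) (Fin 4) F := mm a with hA
  set t := phi hx a with ht
  set B : Matrix (Fin 4) (Fin 4) F := mm t with hB
  have hm : T * A = B * T := congrArg Units.val (phi_mul hx a)
  have hr2 : ((T - 1) * A).rank ≤ 1 := (Matrix.rank_mul_le_left _ _).trans hr
  obtain ⟨v, hv0, hv1, hv2⟩ := exists_common (LinearMap.ker (T - 1).mulVecLin)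
    (LinearMap.ker ((T - 1) * A).mulVecLin) (by
      rw [finrank_ker_eq, finrank_ker_eq]
      simp only [Fintype.card_fin]
      omega)
  rw [LinearMap.mem_ker, Matrix.mulVecLin_apply, Matrix.sub_mulVec, Matrix.one_mulVec, sub_eq_zero]
    at hv1
  rw [LinearMap.mem_ker, Matrix.mulVecLin_apply, ← Matrix.mulVec_mulVec, Matrix.sub_mulVec,
    Matrix.one_mulVec, sub_eq_zero] at hv2
  have htv : B *ᵥ v = A *ᵥ v := by
    calc B *ᵥ v = B *ᵥ (T *ᵥ v) := by rw [hv1]
      _ = (B * T) *ᵥ v := by rw [Matrix.mulVec_mulVec]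
      _ = (T * A) *ᵥ v := by rw [hm]
      _ = T *ᵥ (A *ᵥ v) := by rw [Matrix.mulVec_mulVec]
      _ = A *ᵥ v := hv2
  have hab : A * B = -(B * A) := M.manti h1
  have hsq : B * B = A * A := by
    have hφz : phi hx z = z := M.D.H.phi_z (M.phi_ι hx)
    have e : t * t = a * a := by
      rcases X.sq a with h | h
      · rw [ht, ← map_mul, h, map_one]
      · rw [ht, ← map_mul, h, hφz]
    rw [hB, hA, ← mm_mul, e, mm_mul]
  have e1 : (A * B) *ᵥ v = (A * A) *ᵥ v := by
    rw [← Matrix.mulVec_mulVec, htv, Matrix.mulVec_mulVec]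
  have e2 : (B * A) *ᵥ v = (A * A) *ᵥ v := by
    rw [← Matrix.mulVec_mulVec, ← htv, Matrix.mulVec_mulVec, hsq]
  have e3 : (A * A) *ᵥ v + (A * A) *ᵥ v = 0 := by
    nth_rw 1 [← e1]
    rw [hab, Matrix.neg_mulVec, e2]
    simp
  have e4 : (A * A) *ᵥ v = 0 := by
    have : (2 : F) • ((A * A) *ᵥ v) = 0 := by rw [two_smul]; exact e3
    exact (smul_eq_zero.1 this).resolve_left hF2
  apply hv0
  have e5 : mm (a * a)⁻¹ * (A * A) = 1 := by
    rw [hA, ← mm_mul, ← mm_mul, inv_mul_cancel, mm_one]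
  have e6 : mm (a * a)⁻¹ *ᵥ ((A * A) *ᵥ v) = v := by
    rw [Matrix.mulVec_mulVec, e5, Matrix.one_mulVec]
  rw [← e6, e4, Matrix.mulVec_zero]

/-- Elements of odd order in the normaliser moving only a line are scalar. -/
theorem scalar_of_small' (M : MSix R z ι a₁ a₂ b₁ b₂ i) (hF2 : (2 : F) ≠ 0) {x : GL (Fin 4) F}
    (hx : x ∈ subgroupNormalizer R) (hr : ((x : Matrix (Fin 4) (Fin 4) F) - 1).rank ≤ 1) {r : ℕ}
    (hodd : Odd r) {s : F} (hs : ((x ^ r : GL (Fin 4) F) : Matrix (Fin 4) (Fin 4) F) = s • 1) :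
    ∃ s : F, (x : Matrix (Fin 4) (Fin 4) F) = s • 1 :=
  M.scalar_of_phi hx (M.D.H.aut_of_selfadj (M.phi_ι hx) hodd (phi_pow_one hx hs)
    (selfadj_of_small M hF2 hx hr))

/-- Conjugates stay non-scalar. -/
theorem conj_not_scalar {x g : GL (Fin 4) F}
    (h : ∀ s : F, (x : Matrix (Fin 4) (Fin 4) F) ≠ s • 1) (s : F) :
    ((g⁻¹ * x * g : GL (Fin 4) F) : Matrix (Fin 4) (Fin 4) F) ≠ s • 1 := by
  intro hs
  apply h s
  have h1 : x = g * (g⁻¹ * x * g) * g⁻¹ := by group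
  rw [h1, Units.val_mul, Units.val_mul, hs, Matrix.mul_smul, Matrix.mul_one, Matrix.smul_mul,
    ← Units.val_mul, mul_inv_cancel, Units.val_one]

theorem conj_smul_sub_rank (x g : GL (Fin 4) F) (κ : F) :
    (κ • ((g⁻¹ * x * g : GL (Fin 4) F) : Matrix (Fin 4) (Fin 4) F) - 1).rank ≤
      (κ • (x : Matrix (Fin 4) (Fin 4) F) - 1).rank := by
  have e : κ • ((g⁻¹ * x * g : GL (Fin 4) F) : Matrix (Fin 4) (Fin 4) F) - 1 =
      ((g⁻¹ : GL (Fin 4) F) : Matrix (Fin 4) (Fin 4) F) * (κ • (x : Matrix (Fin 4) (Fin 4) F) - 1) *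
        (g : Matrix (Fin 4) (Fin 4) F) := by
    rw [mul_sub, sub_mul, mul_one, Matrix.mul_smul, Matrix.smul_mul, ← Units.val_mul, ← Units.val_mul,
      ← Units.val_mul, inv_mul_cancel, Units.val_one]
  rw [e]
  exact (Matrix.rank_mul_le_left _ _).trans (Matrix.rank_mul_le_right _ _)

theorem bad_small (M : MSix R z ι a₁ a₂ b₁ b₂ i) (hF2 : (2 : F) ≠ 0) {r : ℕ} (hodd : Odd r)
    (hall : AllN F p r R) {x : GL (Fin 4) F} (hxG : x ∈ GU 4 F p ⊓ specialLinear (Fin 4) F)
    (hxr : x ^ r = 1) (hns : ∀ s : F, (x : Matrix (Fin 4) (Fin 4) F) ≠ s • 1) {κ : F} (hκ : κ ≠ 0)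
    (hrk : (κ • (x : Matrix (Fin 4) (Fin 4) F) - 1).rank ≤ 1) : False := by
  obtain ⟨g, hg, hy⟩ := hall x hxG ⟨1, by rw [hxr]; simp⟩ hns
  set y := g⁻¹ * x * g with hydef
  set t := sc κ hκ * y with htdef
  have htN : t ∈ subgroupNormalizer R := mul_mem (sc_mem_normalizer R κ hκ) hy
  have htv : (t : Matrix (Fin 4) (Fin 4) F) = κ • (y : Matrix (Fin 4) (Fin 4) F) := by
    rw [htdef, Units.val_mul, sc_val, Matrix.smul_mul, Matrix.one_mul]
  have hyr : y ^ r = 1 := by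
    have := conj_pow (a := g⁻¹) (b := x) (i := r)
    rw [inv_inv] at this
    rw [hydef, this, hxr]
    simp
  have htr : ((t ^ r : GL (Fin 4) F) : Matrix (Fin 4) (Fin 4) F) = (κ ^ r) • 1 := by
    rw [htdef, (show Commute (sc κ hκ) y from sc_comm κ hκ y).mul_pow, hyr, mul_one]
    have h1 : ∀ n : ℕ, ((sc κ hκ ^ n : GL (Fin 4) F) : Matrix (Fin 4) (Fin 4) F) = (κ ^ n) • 1 := by
      intro n
      induction n with
      | zero => simp
      | succ n ih =>
        rw [pow_succ, Units.val_mul, ih, sc_val, Matrix.smul_mul, Matrix.mul_smul, Matrix.one_mul,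
          smul_smul, pow_succ]
    exact h1 r
  obtain ⟨s, hs⟩ := scalar_of_small' M hF2 htN (by
    rw [htv]
    exact (conj_smul_sub_rank x g κ).trans hrk) hodd htr
  apply conj_not_scalar (g := g) hns (κ⁻¹ * s)
  rw [htv] at hs
  show (y : Matrix (Fin 4) (Fin 4) F) = _
  rw [mul_smul, ← hs, smul_smul, inv_mul_cancel₀ hκ, one_smul]

end small

section five

variable {ι : Type} [Fintype ι] [DecidableEq ι]

/-- The Fibonacci obstruction with a large fixed space. -/
theorem no_five_lin' (hι : Fintype.card ι = 4) (h2F : (2 : F) ≠ 0) (h5F : (5 : F) ≠ 0) {τ : F}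
    (hτ : τ * τ + τ - 1 = 0) {X D0 D1 D2 D3 D4 : Matrix ι ι F} (hX5 : X ^ 5 = 1)
    (hr : (X - 1).rank ≤ 2)
    (m0 : X * D0 = D1 * X) (m1 : X * D1 = D2 * X) (m2 : X * D2 = D3 * X) (m3 : X * D3 = D4 * X)
    (m4 : X * D4 = D0 * X)
    (s0 : D0 * D0 = 1) (s1 : D1 * D1 = 1) (s2 : D2 * D2 = 1) (s3 : D3 * D3 = 1) (s4 : D4 * D4 = 1)
    (a10 : D1 * D0 = -(D0 * D1)) (a20 : D2 * D0 = -(D0 * D2)) (a30 : D3 * D0 = -(D0 * D3))
    (a40 : D4 * D0 = -(D0 * D4)) (a21 : D2 * D1 = -(D1 * D2)) (a31 : D3 * D1 = -(D1 * D3))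
    (a41 : D4 * D1 = -(D1 * D4)) (a32 : D3 * D2 = -(D2 * D3)) (a42 : D4 * D2 = -(D2 * D4))
    (a43 : D4 * D3 = -(D3 * D4)) : False := by
  classical
  have h10 : (10 : F) ≠ 0 := by
    have : (10 : F) = 2 * 5 := by norm_num
    rw [this]
    exact mul_ne_zero h2F h5F
  set K₀ := LinearMap.ker (X - 1).mulVecLin with hK₀
  have hmem : ∀ v, v ∈ K₀ ↔ X *ᵥ v = v := by
    intro v
    rw [hK₀, LinearMap.mem_ker, Matrix.mulVecLin_apply, Matrix.sub_mulVec, Matrix.one_mulVec,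
      sub_eq_zero]
  have hfr : 2 ≤ finrank F K₀ := by
    rw [hK₀, finrank_ker_eq, hι]
    omega
  set S : Matrix ι ι F := X + X ^ 4 with hS
  have hX4 : X * X ^ 4 = 1 := by rw [← pow_succ', hX5]
  have hX4' : X ^ 4 * X = 1 := by rw [← pow_succ, hX5]
  -- the eigenvalue equation for a root
  have key : ∀ σ : F, σ * σ + σ - 1 = 0 → ∀ w ∈ K₀,
      S *ᵥ (combo σ D0 D1 D2 D3 D4 *ᵥ w) = σ • (combo σ D0 D1 D2 D3 D4 *ᵥ w) := by
    intro σ hσ w hw
    have hw' := (hmem w).1 hw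
    set A := combo σ D0 D1 D2 D3 D4 with hA
    let A₁ : Matrix ι ι F := (2 : F) • D1 + σ • D2 + (-σ - 1) • D3 + (-σ - 1) • D4 + σ • D0
    let A₂ : Matrix ι ι F := (2 : F) • D4 + σ • D0 + (-σ - 1) • D1 + (-σ - 1) • D2 + σ • D3
    have h1 : X * A = A₁ * X := by
      simp only [hA, combo, A₁, mul_add, add_mul, mul_smul_comm, smul_mul_assoc, m0, m1, m2, m3, m4]
    have h2 : X * A₂ = A * X := by
      simp only [hA, combo, A₂, mul_add, add_mul, mul_smul_comm, smul_mul_assoc, m0, m1, m2, m3, m4]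
    have h3 : X ^ 4 * A = A₂ * X ^ 4 := by
      calc X ^ 4 * A = X ^ 4 * (A * (X * X ^ 4)) := by rw [hX4, mul_one]
        _ = X ^ 4 * ((A * X) * X ^ 4) := by rw [mul_assoc A]
        _ = X ^ 4 * ((X * A₂) * X ^ 4) := by rw [h2]
        _ = (X ^ 4 * X) * A₂ * X ^ 4 := by noncomm_ring
        _ = A₂ * X ^ 4 := by rw [hX4', one_mul]
    have hw4 : X ^ 4 *ᵥ w = w := by
      have : ∀ n : ℕ, X ^ n *ᵥ w = w := by
        intro n
        induction n with
        | zero => simp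
        | succ n ih => rw [pow_succ, ← Matrix.mulVec_mulVec, hw', ih]
      exact this 4
    have h4 : A₁ + A₂ = σ • A := by
      have : A₁ + A₂ = σ • A + (σ * σ + σ - 1) • (D2 + D3 - D1 - D4) := by
        simp only [hA, combo, A₁, A₂]
        module
      rw [this, hσ, zero_smul, add_zero]
    rw [hS, Matrix.add_mulVec, Matrix.mulVec_mulVec, Matrix.mulVec_mulVec, h1, h3,
      ← Matrix.mulVec_mulVec, ← Matrix.mulVec_mulVec, hw', hw4, ← Matrix.add_mulVec, h4,
      Matrix.smul_mulVec]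
  have hinj : ∀ σ : F, σ * σ + σ - 1 = 0 →
      Function.Injective (combo σ D0 D1 D2 D3 D4).mulVecLin := by
    intro σ hσ
    rw [← LinearMap.ker_eq_bot, LinearMap.ker_eq_bot']
    intro v hv
    rw [Matrix.mulVecLin_apply] at hv
    have h1 := combo_sq σ hσ s0 s1 s2 s3 s4 a10 a20 a30 a40 a21 a31 a41 a32 a42 a43
    have h2 : (10 : F) • v = 0 := by
      have h3 : combo σ D0 D1 D2 D3 D4 *ᵥ (combo σ D0 D1 D2 D3 D4 *ᵥ v) = 0 := by
        rw [hv, Matrix.mulVec_zero]
      rw [Matrix.mulVec_mulVec, h1, Matrix.smul_mulVec, Matrix.one_mulVec] at h3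
      exact h3
    exact (smul_eq_zero.1 h2).resolve_left h10
  have hτ' : (-1 - τ) * (-1 - τ) + (-1 - τ) - 1 = 0 := by linear_combination hτ
  have hfm : ∀ σ : F, σ * σ + σ - 1 = 0 →
      2 ≤ finrank F (K₀.map (combo σ D0 D1 D2 D3 D4).mulVecLin) := by
    intro σ hσ
    rw [(Submodule.equivMapOfInjective _ (hinj σ hσ) K₀).finrank_eq.symm]
    exact hfr
  have hne2 : ∀ σ : F, σ * σ + σ - 1 = 0 → (2 : F) ≠ σ := by
    rintro σ hσ rfl
    apply h5F
    linear_combination hσ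
  have hne3 : τ ≠ -1 - τ := by
    intro h
    have h1 : 2 * τ + 1 = 0 := by linear_combination h
    apply h5F
    linear_combination (2 * τ + 1) * h1 - 4 * hτ
  refine three_eig hι S K₀ (K₀.map (combo τ D0 D1 D2 D3 D4).mulVecLin)
    (K₀.map (combo (-1 - τ) D0 D1 D2 D3 D4).mulVecLin) (hne2 τ hτ) (hne2 _ hτ') hne3 ?_ ?_ ?_
    hfr (hfm τ hτ) (hfm _ hτ')
  · intro v hv
    have hv' := (hmem v).1 hv
    have hw4 : X ^ 4 *ᵥ v = v := by
      have : ∀ n : ℕ, X ^ n *ᵥ v = v := by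
        intro n
        induction n with
        | zero => simp
        | succ n ih => rw [pow_succ, ← Matrix.mulVec_mulVec, hv', ih]
      exact this 4
    rw [hS, Matrix.add_mulVec, hv', hw4, two_smul]
  · rintro _ ⟨w, hw, rfl⟩
    exact key τ hτ w hw
  · rintro _ ⟨w, hw, rfl⟩
    exact key _ hτ' w hw

end five

section five2

variable {R : Subgroup (GL (Fin 4) F)} {z ι a₁ a₂ b₁ b₂ : R} {i : F}

theorem no_five (M : MSix R z ι a₁ a₂ b₁ b₂ i) (h2F : (2 : F) ≠ 0) (h5F : (5 : F) ≠ 0)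
    {τ : F} (hτ : τ * τ + τ - 1 = 0) {x : GL (Fin 4) F} (hx : x ∈ subgroupNormalizer R)
    (hx5 : x ^ 5 = 1) (hr : ((x : Matrix (Fin 4) (Fin 4) F) - 1).rank ≤ 2)
    (hne : ∀ s : F, (x : Matrix (Fin 4) (Fin 4) F) ≠ s • 1) : False := by
  have X := M.D.H.X
  have hφ : (phi hx) ^ 5 = 1 := phi_pow_one hx (s := 1) (by rw [hx5]; simp)
  have hφ1 : phi hx ≠ 1 := fun h => by
    obtain ⟨s, hs⟩ := M.scalar_of_phi hx h
    exact hne s hs
  set φ := phi hx with hφdef
  have hφι : φ ι = ι := M.phi_ι hx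
  obtain ⟨b, hbb, h1, h2⟩ := M.D.H.exists_orbit5 hφι hφ hφ1
  let d : ℕ → R := fun k => (φ ^ k) b
  have hd : ∀ k, mm (d k) * mm (d k) = 1 := by
    intro k
    rw [← mm_mul, ← map_mul, hbb, map_one, mm_one]
  have hm : ∀ k, (x : Matrix (Fin 4) (Fin 4) F) * mm (d k) = mm (d (k + 1)) * x := by
    intro k
    have h1 := congrArg Units.val (phi_mul hx (d k))
    rw [Units.val_mul, Units.val_mul] at h1
    have h2 : φ (d k) = d (k + 1) := by
      show φ ((φ ^ k) b) = (φ ^ (k + 1)) b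
      rw [pow_succ', MulAut.mul_apply]
    rw [← hφdef, h2] at h1
    exact h1
  have hd5 : d 5 = d 0 := by
    show (φ ^ 5) b = (φ ^ 0) b
    rw [hφ, pow_zero]
  have ha : ∀ j m, 0 < m → m < 5 → mm (d (j + m)) * mm (d j) = -(mm (d j) * mm (d (j + m))) := by
    intro j m hm0 hm5
    exact M.manti (by rw [sg_comm]; exact M.D.H.orbit_anti hφι hφ h1 h2 j m hm0 hm5)
  have hX5 : (x : Matrix (Fin 4) (Fin 4) F) ^ 5 = 1 := by
    rw [← Units.val_pow_eq_pow_val, hx5, Units.val_one]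
  refine no_five_lin' (ι := Fin 4) (by simp) h2F h5F hτ (D0 := mm (d 0)) (D1 := mm (d 1)) (D2 := mm (d 2))
    (D3 := mm (d 3)) (D4 := mm (d 4)) hX5 hr (hm 0) (hm 1) (hm 2) (hm 3) ?_ (hd 0) (hd 1) (hd 2) (hd 3)
    (hd 4)
    (ha 0 1 (by norm_num) (by norm_num)) (ha 0 2 (by norm_num) (by norm_num))
    (ha 0 3 (by norm_num) (by norm_num)) (ha 0 4 (by norm_num) (by norm_num))
    (ha 1 1 (by norm_num) (by norm_num)) (ha 1 2 (by norm_num) (by norm_num))
    (ha 1 3 (by norm_num) (by norm_num)) (ha 2 1 (by norm_num) (by norm_num))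
    (ha 2 2 (by norm_num) (by norm_num)) (ha 3 1 (by norm_num) (by norm_num))
  have := hm 4
  rw [show 4 + 1 = 5 from rfl, hd5] at this
  exact this

theorem bad_five (M : MSix R z ι a₁ a₂ b₁ b₂ i) (h2F : (2 : F) ≠ 0) (h5F : (5 : F) ≠ 0)
    {τ : F} (hτ : τ * τ + τ - 1 = 0) (hall : AllN F p 5 R) {x : GL (Fin 4) F}
    (hxG : x ∈ GU 4 F p ⊓ specialLinear (Fin 4) F)
    (hx5 : x ^ 5 = 1) (hns : ∀ s : F, (x : Matrix (Fin 4) (Fin 4) F) ≠ s • 1)
    (hrk : ((x : Matrix (Fin 4) (Fin 4) F) - 1).rank ≤ 2) : False := by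
  obtain ⟨g, hg, hy⟩ := hall x hxG ⟨1, by rw [hx5]; simp⟩ hns
  have hy5 : (g⁻¹ * x * g) ^ 5 = 1 := by
    have := conj_pow (a := g⁻¹) (b := x) (i := 5)
    rw [inv_inv] at this
    rw [this, hx5]
    simp
  refine no_five M h2F h5F hτ hy hy5 ?_ (conj_not_scalar hns)
  have := conj_smul_sub_rank x g 1
  simp only [one_smul] at this
  exact this.trans hrk

/-- Large primes. -/
theorem bad_large (hF : Fintype.card F = p ^ 2) (M : MSix R z ι a₁ a₂ b₁ b₂ i) {r : ℕ}
    [hrf : Fact r.Prime] (h7 : 7 ≤ r) (hcard : Nat.card R = 64)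
    (hall : AllN F p r R)
    (hΩ : r ∣ (subgroupNormalizer R).relIndex (GU 4 F p ⊓ specialLinear (Fin 4) F)) : False := by
  classical
  haveI : Finite R := inferInstance
  have hrp : r.Prime := hrf.out
  have hd : r ∣ Nat.card ↥(GU 4 F p ⊓ specialLinear (Fin 4) F) :=
    hΩ.trans (Subgroup.relIndex_dvd_card _ _)
  obtain ⟨x, hx⟩ := exists_prime_orderOf_dvd_card' r hd
  have hxr : (x : GL (Fin 4) F) ^ r = 1 := by
    have h1 := pow_orderOf_eq_one x
    rw [hx] at h1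
    exact congrArg Subtype.val h1
  have hodd : Odd r := hrp.odd_of_ne_two (by omega)
  have hns : ∀ s : F, ((x : GL (Fin 4) F) : Matrix (Fin 4) (Fin 4) F) ≠ s • 1 := by
    intro s hs
    have hdet : ((x : GL (Fin 4) F) : Matrix (Fin 4) (Fin 4) F).det = 1 := by
      have h2 : Matrix.GeneralLinearGroup.det (x : GL (Fin 4) F) = 1 := x.2.2
      have h3 := congrArg Units.val h2
      simpa using h3
    have hs4 : s ^ 4 = 1 := by
      rw [hs, Matrix.det_smul, Matrix.det_one, mul_one] at hdet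
      simpa using hdet
    have hsr : s ^ r = 1 := by
      have h1 := congrArg Units.val hxr
      rw [Units.val_pow_eq_pow_val, hs, _root_.smul_pow, one_pow, Units.val_one] at h1
      have := congrFun (congrFun h1 0) 0
      simpa using this
    have hcop : Nat.Coprime r 4 := by
      have : Nat.Coprime r (2 ^ 2) := Nat.Coprime.pow_right 2 hodd.coprime_two_right
      simpa using this
    have hs1 : s = 1 := by
      have h2 : s ^ Nat.gcd r 4 = 1 := pow_gcd_eq_one.2 ⟨hsr, hs4⟩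
      rwa [hcop.gcd_eq_one, pow_one] at h2
    have hx1 : x = 1 := by
      apply Subtype.ext
      apply Units.ext
      rw [hs, hs1, one_smul]
      rfl
    rw [hx1, orderOf_one] at hx
    omega
  obtain ⟨g, hg, hy⟩ := hall x x.2 ⟨1, by rw [hxr]; simp⟩ hns
  have hyr : (g⁻¹ * (x : GL (Fin 4) F) * g) ^ r = 1 := by
    have := conj_pow (a := g⁻¹) (b := (x : GL (Fin 4) F)) (i := r)
    rw [inv_inv] at this
    rw [this, hxr]
    simp
  have hφ : (phi hy) ^ r = 1 := phi_pow_one hy (s := 1) (by rw [hyr]; simp)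
  obtain ⟨s, hs⟩ := M.scalar_of_phi hy (M.D.H.aut_large' hcard h7 (M.phi_ι hy) hφ)
  exact conj_not_scalar hns s hs

end five2

section models

/-- The block embedding. -/
def blk (Y : Matrix (Fin 2) (Fin 2) F) : Matrix (Fin 4) (Fin 4) F :=
  !![Y 0 0, Y 0 1, 0, 0; Y 1 0, Y 1 1, 0, 0; 0, 0, 1, 0; 0, 0, 0, 1]

theorem blk_mul (A B : Matrix (Fin 2) (Fin 2) F) : blk (A * B) = blk A * blk B := by
  ext i j
  fin_cases i <;> fin_cases j <;>
    simp [blk, Matrix.mul_apply, Fin.sum_univ_four, Fin.sum_univ_two]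

theorem blk_one : blk (1 : Matrix (Fin 2) (Fin 2) F) = 1 := by
  ext i j
  fin_cases i <;> fin_cases j <;> simp [blk]

theorem blk_pow (A : Matrix (Fin 2) (Fin 2) F) (n : ℕ) : blk (A ^ n) = blk A ^ n := by
  induction n with
  | zero => simp [blk_one]
  | succ n ih => rw [pow_succ, blk_mul, ih, pow_succ]

theorem blk_adjM (hF : Fintype.card F = p ^ 2) (Y : Matrix (Fin 2) (Fin 2) F) :
    adjM hF (blk Y) = blk (adjM hF Y) := by
  have hp : p ≠ 0 := by
    rintro rfl
    have := Fintype.one_lt_card (α := F)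
    omega
  ext i j
  fin_cases i <;> fin_cases j <;> simp [blk, adjM, hp]

theorem blk_det (Y : Matrix (Fin 2) (Fin 2) F) : (blk Y).det = Y.det := by
  rw [Matrix.det_fin_two, Matrix.det_succ_row_zero]
  simp [blk, Fin.sum_univ_succ, Matrix.det_succ_row_zero, Matrix.submatrix, Fin.succAbove]
  ring

theorem blk_rank (Y : Matrix (Fin 2) (Fin 2) F) : (blk Y - 1).rank ≤ 2 := by
  let A : Matrix (Fin 4) (Fin 2) F := !![Y 0 0 - 1, Y 0 1; Y 1 0, Y 1 1 - 1; 0, 0; 0, 0]
  let B : Matrix (Fin 2) (Fin 4) F := !![1, 0, 0, 0; 0, 1, 0, 0]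
  have e : blk Y - 1 = A * B := by
    ext i j
    fin_cases i <;> fin_cases j <;>
      simp [blk, A, B, Matrix.mul_apply, Fin.sum_univ_two]
  rw [e]
  refine (Matrix.rank_mul_le_left _ _).trans ?_
  simpa using Matrix.rank_le_width A

theorem mk_G (hF : Fintype.card F = p ^ 2) (M : Matrix (Fin 4) (Fin 4) F) (n : ℕ) (hM : M ^ n = 1)
    (hn : n ≠ 0) (hadj : adjM hF M * M = 1) (hdet : M.det = 1) :
    ∃ x : GL (Fin 4) F, (x : Matrix (Fin 4) (Fin 4) F) = M ∧ x ^ n = 1 ∧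
      x ∈ GU 4 F p ⊓ specialLinear (Fin 4) F := by
  refine ⟨Units.ofPowEqOne M n hM hn, rfl, Units.pow_ofPowEqOne _ _, ?_, ?_⟩
  · exact GU_of_adjM hF hadj
  · show Matrix.GeneralLinearGroup.det _ = 1
    apply Units.ext
    exact hdet

/-- Adjoint of a `2 × 2` matrix. -/
theorem adj_two (hF : Fintype.card F = p ^ 2) (a b c d : F) :
    adjM hF !![a, b; c, d] = !![a ^ p, c ^ p; b ^ p, d ^ p] := by
  ext i j
  fin_cases i <;> fin_cases j <;> simp [adjM]

theorem not_scalar_blk (Y : Matrix (Fin 2) (Fin 2) F) (h : Y 0 1 ≠ 0) (s : F) : blk Y ≠ s • 1 := by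
  intro h2
  have := congrFun (congrFun h2 0) 1
  simp [blk] at this
  exact h this

theorem two_eq_one {a b c d : F} (h1 : a = 1) (h2 : b = 0) (h3 : c = 0) (h4 : d = 1) :
    !![a, b; c, d] = 1 := by
  rw [h1, h2, h3, h4]
  exact Matrix.one_fin_two.symm

/-- The transvection for `p = 3`. -/
theorem exists_trans3 [CharP F 3] (hF : Fintype.card F = 3 ^ 2) {α : F} (hα : α * α = -1) :
    ∃ x : GL (Fin 4) F, x ∈ GU 4 F 3 ⊓ specialLinear (Fin 4) F ∧ x ^ 3 = 1 ∧
      (∀ s : F, (x : Matrix (Fin 4) (Fin 4) F) ≠ s • 1) ∧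
      ((1 : F) • (x : Matrix (Fin 4) (Fin 4) F) - 1).rank ≤ 1 := by
  classical
  haveI : Fact (Nat.Prime 3) := ⟨Nat.prime_three⟩
  obtain ⟨β, hβ⟩ := Cfsg.Agent.Lib.Elusive.HermEigen.exists_norm_eq hF (-1) (by
    rw [Odd.neg_one_pow (by decide)]) (by simp)
  set b := β ^ 3 with hb
  have hbβ : b * β = -1 := by
    rw [hb, ← pow_succ]
    exact hβ
  have h3 : (3 : F) = 0 := by
    have := CharP.cast_eq_zero F 3
    exact_mod_cast this
  have hb3 : b ^ 3 = β := by
    have h9 := FiniteField.pow_card β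
    rw [hF] at h9
    rw [hb, ← pow_mul]
    exact h9
  have hα3 : α ^ 3 = -α := by
    rw [pow_succ, pow_two, hα]
    ring
  have hα0 : α ≠ 0 := by
    rintro rfl
    have h1 : (1 : F) = 0 := by linear_combination hα
    exact one_ne_zero h1
  have hb0 : b ≠ 0 := by
    rintro h
    rw [h, zero_mul] at hbβ
    have h1 : (1 : F) = 0 := by linear_combination hbβ
    exact one_ne_zero h1
  let Y : Matrix (Fin 2) (Fin 2) F := !![1 + α, α * b; α * β, 1 - α]
  have hY3 : Y ^ 3 = 1 := by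
    rw [pow_succ, pow_two]
    simp only [Y, Matrix.mul_fin_two]
    apply two_eq_one
    · linear_combination (α * α * (1 + α) + 2 * α * α) * hbβ + α * h3
    · linear_combination (α * b * α * α) * hbβ + α * b * h3
    · linear_combination (α * β * α * α) * hbβ + α * β * h3
    · linear_combination (α * α * (3 - α)) * hbβ - α * h3
  have hadj : adjM hF Y * Y = 1 := by
    simp only [Y, adj_two, Matrix.mul_fin_two]
    have e1 : (1 + α) ^ 3 = 1 - α := by linear_combination (α + α * α) * h3 + α * hα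
    have e2 : (1 - α) ^ 3 = 1 + α := by linear_combination (-α + α * α) * h3 - α * hα
    have e3 : (α * β) ^ 3 = -(α * b) := by rw [mul_pow, hα3, ← hb]; ring
    have e4 : (α * b) ^ 3 = -(α * β) := by rw [mul_pow, hα3, hb3]; ring
    rw [e1, e2, e3, e4]
    apply two_eq_one
    · linear_combination (-α * α) * hbβ
    · ring
    · ring
    · linear_combination (-α * α) * hbβ
  have hdet : Y.det = 1 := by
    rw [Matrix.det_fin_two_of]
    linear_combination (-α * α) * hbβ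
  obtain ⟨x, hx1, hx2, hx3⟩ := mk_G hF (blk Y) 3 (by rw [← blk_pow, hY3, blk_one]) (by norm_num)
    (by rw [blk_adjM, ← blk_mul, hadj, blk_one]) (by rw [blk_det, hdet])
  refine ⟨x, hx3, hx2, ?_, ?_⟩
  · rw [hx1]
    exact not_scalar_blk Y (by simp [Y, hα0, hb0])
  · rw [hx1, one_smul]
    have e : blk Y - 1 = Matrix.vecMulVec ![α, α * β, 0, 0] ![1, b, 0, 0] := by
      ext i j
      fin_cases i <;> fin_cases j <;> simp [blk, Y, Matrix.vecMulVec_apply]
      linear_combination (-α) * hbβ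
    rw [e]
    exact Matrix.rank_vecMulVec_le _ _

theorem two_eq {a b c d a' b' c' d' : F} (h1 : a = a') (h2 : b = b') (h3 : c = c') (h4 : d = d') :
    !![a, b; c, d] = !![a', b'; c', d'] := by
  rw [h1, h2, h3, h4]

/-- Powers of a matrix with a quadratic relation. -/
theorem pow_five_of_quad {Y : Matrix (Fin 2) (Fin 2) F} {τ : F} (hτ : τ * τ + τ - 1 = 0)
    (hYY : Y * Y = τ • Y - 1) : Y ^ 5 = 1 := by
  have h2 : Y ^ 2 = τ • Y - 1 := by rw [pow_two, hYY]
  have h3 : Y ^ 3 = (τ * τ - 1) • Y - τ • 1 := by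
    rw [pow_succ, h2, sub_mul, smul_mul_assoc, hYY, one_mul]
    module
  have h4 : Y ^ 4 = (τ * τ * τ - 2 * τ) • Y - (τ * τ - 1) • 1 := by
    rw [pow_succ, h3, sub_mul, smul_mul_assoc, smul_mul_assoc, hYY, one_mul]
    module
  have h5 : Y ^ 5 = (τ * τ * τ * τ - 3 * τ * τ + 1) • Y - (τ * τ * τ - 2 * τ) • 1 := by
    rw [pow_succ, h4, sub_mul, smul_mul_assoc, smul_mul_assoc, hYY, one_mul]
    module
  have e1 : τ * τ * τ * τ - 3 * τ * τ + 1 = 0 := by
    linear_combination (τ * τ - τ - 1) * hτ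
  have e2 : τ * τ * τ - 2 * τ = -1 := by
    linear_combination (τ - 1) * hτ
  rw [h5, e1, e2]
  simp

/-- The element of order five. -/
theorem exists_five_elt [Fact p.Prime] [CharP F p] (hF : Fintype.card F = p ^ 2) (h2F : (2 : F) ≠ 0)
    (h5F : (5 : F) ≠ 0) {τ : F} (hτ : τ * τ + τ - 1 = 0) (hτp : τ ^ p = τ) :
    ∃ x : GL (Fin 4) F, x ∈ GU 4 F p ⊓ specialLinear (Fin 4) F ∧ x ^ 5 = 1 ∧
      (∀ s : F, (x : Matrix (Fin 4) (Fin 4) F) ≠ s • 1) ∧
      ((x : Matrix (Fin 4) (Fin 4) F) - 1).rank ≤ 2 := by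
  classical
  set a := τ / 2 with ha
  have h2a : 2 * a = τ := by rw [ha]; field_simp
  have h2p : (2 : F) ^ p = 2 := by
    have := pow_p_natCast (F := F) (p := p) hF 2
    simpa using this
  have hap : a ^ p = a := by rw [ha, div_pow, hτp, h2p]
  set t := 1 - a * a with ht
  have htp : t ^ p = t := by
    rw [ht, sub_pow_char, one_pow, mul_pow, hap]
  have ht0 : t ≠ 0 := by
    intro h0
    have h1 : a * a = 1 := by
      rw [ht] at h0
      linear_combination -h0
    have h5 : (a - 1) * (a + 1) = 0 := by linear_combination h1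
    have hτa : 4 * a * a + 2 * a - 1 = 0 := by
      rw [← h2a] at hτ
      linear_combination hτ
    rcases mul_eq_zero.1 h5 with h6 | h6
    · have ea : a = 1 := sub_eq_zero.1 h6
      rw [ea] at hτa
      apply h5F
      linear_combination hτa
    · have ea : a = -1 := eq_neg_of_add_eq_zero_left h6
      rw [ea] at hτa
      apply one_ne_zero (α := F)
      linear_combination hτa
  obtain ⟨b, hb⟩ := Cfsg.Agent.Lib.Elusive.HermEigen.exists_norm_eq hF t htp ht0
  have hbb : b ^ p * b = t := by rw [← pow_succ]; exact hb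
  have hbb' : b ^ p * b = 1 - a * a := hbb
  have hb0 : b ≠ 0 := by
    rintro rfl
    apply ht0
    rw [← hbb, mul_zero]
  have hbp : (b ^ p) ^ p = b := by
    rw [← pow_mul, ← pow_two, ← hF, FiniteField.pow_card]
  let Y : Matrix (Fin 2) (Fin 2) F := !![a, b; -b ^ p, a]
  have hYY : Y * Y = τ • Y - 1 := by
    have e : τ • Y - 1 = !![τ * a - 1, τ * b; τ * (-b ^ p), τ * a - 1] := by
      ext i j
      fin_cases i <;> fin_cases j <;> simp [Y]
    rw [e]
    simp only [Y, Matrix.mul_fin_two]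
    apply two_eq
    · linear_combination (-1 : F) * hbb' + a * h2a
    · linear_combination b * h2a
    · linear_combination (-b ^ p) * h2a
    · linear_combination (-1 : F) * hbb' + a * h2a
  have hY5 : Y ^ 5 = 1 := pow_five_of_quad hτ hYY
  have hadj : adjM hF Y * Y = 1 := by
    have e : (-b ^ p) ^ p = -b := by
      have h1 : (-b ^ p) ^ p = -(b ^ p) ^ p := map_neg (frobHom hF) (b ^ p)
      rw [h1, hbp]
    simp only [Y, adj_two, Matrix.mul_fin_two, e, hap]
    apply two_eq_one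
    · linear_combination hbb'
    · ring
    · ring
    · linear_combination hbb'
  have hdet : Y.det = 1 := by
    rw [Matrix.det_fin_two_of]
    linear_combination hbb'
  obtain ⟨x, hx1, hx2, hx3⟩ := mk_G hF (blk Y) 5 (by rw [← blk_pow, hY5, blk_one]) (by norm_num)
    (by rw [blk_adjM, ← blk_mul, hadj, blk_one]) (by rw [blk_det, hdet])
  refine ⟨x, hx3, hx2, ?_, ?_⟩
  · rw [hx1]
    exact not_scalar_blk Y (by simp [Y, hb0])
  · rw [hx1]
    exact blk_rank Y

theorem adj_diag (hF : Fintype.card F = p ^ 2) (d : Fin 4 → F) :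
    adjM hF (Matrix.diagonal d) = Matrix.diagonal (fun i => d i ^ p) := by
  have hp : p ≠ 0 := by
    rintro rfl
    have := Fintype.one_lt_card (α := F)
    omega
  ext i j
  by_cases h : i = j
  · subst h
    simp [adjM]
  · simp [adjM, Matrix.diagonal_apply_ne _ h, Matrix.diagonal_apply_ne _ (Ne.symm h), hp]

/-- The reflection-type element of order three. -/
theorem exists_refl3 (hF : Fintype.card F = p ^ 2) {ω : F} (hω : ω * ω + ω + 1 = 0)
    (hωp : ω ^ p * ω = 1) (h3F : (3 : F) ≠ 0) :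
    ∃ x : GL (Fin 4) F, x ∈ GU 4 F p ⊓ specialLinear (Fin 4) F ∧ x ^ 3 = 1 ∧
      (∀ s : F, (x : Matrix (Fin 4) (Fin 4) F) ≠ s • 1) ∧
      ((ω * ω) • (x : Matrix (Fin 4) (Fin 4) F) - 1).rank ≤ 1 := by
  classical
  have hp : p ≠ 0 := by
    rintro rfl
    have := Fintype.one_lt_card (α := F)
    omega
  have hω3 : ω * ω * ω = 1 := by linear_combination (ω - 1) * hω
  have hω1 : ω ≠ 1 := by
    rintro rfl
    apply h3F
    linear_combination hω
  let d : Fin 4 → F := ![1, ω, ω, ω]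
  have hM3 : (Matrix.diagonal d) ^ 3 = 1 := by
    rw [Matrix.diagonal_pow, ← Matrix.diagonal_one]
    congr 1
    funext i
    fin_cases i <;> simp [d, pow_succ, hω3]
  have hadj : adjM hF (Matrix.diagonal d) * Matrix.diagonal d = 1 := by
    rw [adj_diag, Matrix.diagonal_mul_diagonal, ← Matrix.diagonal_one]
    congr 1
    funext i
    fin_cases i <;> simp [d, hωp]
  have hdet : (Matrix.diagonal d).det = 1 := by
    rw [Matrix.det_diagonal, Fin.prod_univ_four]
    simp [d, hω3]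
  obtain ⟨x, hx1, hx2, hx3⟩ := mk_G hF (Matrix.diagonal d) 3 hM3 (by norm_num) hadj hdet
  refine ⟨x, hx3, hx2, ?_, ?_⟩
  · rw [hx1]
    intro s hs
    have h0 := congrFun (congrFun hs 0) 0
    have h1 := congrFun (congrFun hs 1) 1
    simp [d] at h0 h1
    apply hω1
    rw [h1, ← h0]
  · rw [hx1]
    have e : (ω * ω) • Matrix.diagonal d - 1 = Matrix.vecMulVec ![ω * ω - 1, 0, 0, 0] ![1, 0, 0, 0] := by
      ext i j
      fin_cases i <;> fin_cases j <;> simp [d, Matrix.vecMulVec_apply, hω3]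
    rw [e]
    exact Matrix.rank_vecMulVec_le _ _

/-- Cube roots of unity. -/
theorem exists_omega (hF : Fintype.card F = p ^ 2) (h3F : (3 : F) ≠ 0) (hd : 3 ∣ p ^ 2 - 1) :
    ∃ ω : F, ω * ω + ω + 1 = 0 := by
  classical
  haveI : Fact (Nat.Prime 3) := ⟨Nat.prime_three⟩
  have hc : 3 ∣ Nat.card Fˣ := by
    rw [Nat.card_eq_fintype_card, Fintype.card_units, hF]
    exact hd
  obtain ⟨u, hu⟩ := exists_prime_orderOf_dvd_card' 3 hc
  have hu3 : (u : F) ^ 3 = 1 := by
    have := pow_orderOf_eq_one u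
    rw [hu] at this
    have h2 := congrArg Units.val this
    simpa using h2
  have hu1 : (u : F) ≠ 1 := by
    intro h
    have : u = 1 := Units.ext h
    rw [this, orderOf_one] at hu
    omega
  refine ⟨u, ?_⟩
  have h4 : ((u : F) - 1) * ((u : F) * u + u + 1) = 0 := by linear_combination hu3
  exact (mul_eq_zero.1 h4).resolve_left (sub_ne_zero.2 hu1)

/-- Golden roots in the prime field. -/
theorem exists_tau [Fact p.Prime] [CharP F p] (hp : p ≠ 5) (hord : orderOf (p : ZMod 5) ≠ 4)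
    (hF2 : (2 : F) ≠ 0) : ∃ τ : F, τ * τ + τ - 1 = 0 ∧ τ ^ p = τ := by
  have hpp : p.Prime := Fact.out
  haveI h5 : Fact (Nat.Prime 5) := ⟨by norm_num⟩
  have hne : (p : ZMod 5) ≠ 0 := by
    intro h
    rw [ZMod.natCast_eq_zero_iff] at h
    exact hp ((Nat.prime_dvd_prime_iff_eq h5.out hpp).1 h).symm
  have all4 := zmod5_pow4
  have hd : orderOf (p : ZMod 5) ∣ 4 := orderOf_dvd_of_pow_eq_one (all4 _ hne)
  have hle := Nat.le_of_dvd (by norm_num) hd
  have h12 : orderOf (p : ZMod 5) = 1 ∨ orderOf (p : ZMod 5) = 2 := by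
    have h0 : orderOf (p : ZMod 5) ≠ 0 := fun h => by rw [h] at hd; omega
    have h3 : orderOf (p : ZMod 5) ≠ 3 := fun h => by rw [h] at hd; omega
    omega
  have hpsq : (p : ZMod 5) ^ 2 = 1 := by
    rcases h12 with h | h
    · have := orderOf_eq_one_iff.1 h
      rw [this, one_pow]
    · have := pow_orderOf_eq_one (p : ZMod 5)
      rwa [h] at this
  have hsq : IsSquare (p : ZMod 5) := zmod5_sq _ hpsq
  have hp2 : p ≠ 2 := by
    rintro rfl
    apply hF2
    have := CharP.cast_eq_zero F 2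
    exact_mod_cast this
  have hq5 : IsSquare (((5 : ℕ) : ZMod p)) :=
    (ZMod.exists_sq_eq_prime_iff_of_mod_four_eq_one (p := 5) (q := p) (by norm_num) hp2).1 hsq
  obtain ⟨s, hs⟩ := hq5
  let f : ZMod p →+* F := ZMod.castHom (dvd_refl p) F
  have hw : f s * f s = 5 := by
    rw [← map_mul, ← hs, map_natCast]
    norm_num
  have hsp : f s ^ p = f s := by
    rw [← map_pow, ZMod.pow_card]
  have h2p : (2 : F) ^ p = 2 := by
    have h1 : ((2 : ℕ) : F) ^ p = ((2 : ℕ) : F) := by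
      have h2 := congrArg f (ZMod.pow_card ((2 : ℕ) : ZMod p))
      rwa [map_pow, map_natCast] at h2
    simpa using h1
  refine ⟨(f s - 1) / 2, ?_, ?_⟩
  · field_simp
    linear_combination hw
  · rw [div_pow, sub_pow_char, one_pow, hsp, h2p]

/-- The forward implication. -/
theorem fwd_main [Fact p.Prime] [CharP F p] (hF : Fintype.card F = p ^ 2) (hp4 : p % 4 = 3)
    {R : Subgroup (GL (Fin 4) F)} {z ι a₁ a₂ b₁ b₂ : R} {i : F} (M : MSix R z ι a₁ a₂ b₁ b₂ i)
    (hcard : Nat.card R = 64) {r : ℕ} [hrf : Fact r.Prime]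
    (hΩ : r ∣ (subgroupNormalizer R).relIndex (GU 4 F p ⊓ specialLinear (Fin 4) F))
    (hall : AllN F p r R) : r = 2 ∨ (r = 3 ∧ p % 3 = 1) ∨ (r = 5 ∧ orderOf (p : ZMod 5) = 4) := by
  classical
  by_contra hne
  push Not at hne
  obtain ⟨hr2, hr3, hr5⟩ := hne
  have hr : r.Prime := hrf.out
  have hpP : p.Prime := Fact.out
  have hF2 : (2 : F) ≠ 0 := by
    intro h
    have h1 : ((2 : ℕ) : F) = 0 := by exact_mod_cast h
    have h2 := (CharP.cast_eq_zero_iff F p 2).1 h1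
    have := (Nat.prime_dvd_prime_iff_eq hpP Nat.prime_two).1 h2
    omega
  by_cases h3 : r = 3
  · subst h3
    have hodd : Odd 3 := by decide
    by_cases hp3 : p = 3
    · subst hp3
      obtain ⟨x, hx, hx3, hns, hrk⟩ := exists_trans3 (F := F) hF M.hi
      exact bad_small M hF2 hodd hall hx hx3 hns one_ne_zero hrk
    · have h3F : (3 : F) ≠ 0 := by
        intro h
        have h1 : ((3 : ℕ) : F) = 0 := by exact_mod_cast h
        have h2 := (CharP.cast_eq_zero_iff F p 3).1 h1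
        exact hp3 ((Nat.prime_dvd_prime_iff_eq hpP Nat.prime_three).1 h2)
      have hp32 : p % 3 = 2 := by
        have h0 : p % 3 ≠ 0 := by
          intro h
          exact hp3 ((Nat.prime_dvd_prime_iff_eq Nat.prime_three hpP).1 (Nat.dvd_of_mod_eq_zero h)).symm
        have h1 := hr3 rfl
        omega
      have hd : 3 ∣ p ^ 2 - 1 := by
        have h1 : p ^ 2 % 3 = 1 := by
          rw [Nat.pow_mod, hp32]
        have h2 : 1 ≤ p ^ 2 := Nat.one_le_pow _ _ hpP.pos
        omega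
      obtain ⟨ω, hω⟩ := exists_omega hF h3F hd
      have hω3 : ω ^ 3 = 1 := by linear_combination (ω - 1) * hω
      have hωp : ω ^ p * ω = 1 := by
        rw [← pow_succ]
        obtain ⟨k, hk⟩ : 3 ∣ p + 1 := by omega
        rw [hk, pow_mul, hω3, one_pow]
      have hω0 : ω ≠ 0 := by
        rintro rfl
        simp at hω
      obtain ⟨x, hx, hx3, hns, hrk⟩ := exists_refl3 hF hω hωp h3F
      exact bad_small M hF2 hodd hall hx hx3 hns (mul_ne_zero hω0 hω0) hrk
  by_cases h5 : r = 5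
  · subst h5
    have hp5 : p ≠ 5 := by
      rintro rfl
      omega
    have h5F : (5 : F) ≠ 0 := by
      intro h
      have h1 : ((5 : ℕ) : F) = 0 := by exact_mod_cast h
      have h2 := (CharP.cast_eq_zero_iff F p 5).1 h1
      exact hp5 ((Nat.prime_dvd_prime_iff_eq hpP (by norm_num)).1 h2)
    obtain ⟨τ, hτ, hτp⟩ := exists_tau (F := F) hp5 (hr5 rfl) hF2
    obtain ⟨x, hx, hx5, hns, hrk⟩ := exists_five_elt hF hF2 h5F hτ hτp
    exact bad_five M hF2 h5F hτ hall hx hx5 hns hrk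
  have h7 : 7 ≤ r := by
    by_contra h
    have h6 : r = 0 ∨ r = 1 ∨ r = 4 ∨ r = 6 := by omega
    rcases h6 with h0 | h0 | h0 | h0 <;> rw [h0] at hr <;> exact absurd hr (by norm_num)
  exact bad_large hF M h7 hcard hall hΩ

end models

end Cfsg.Agent.Lib.FGStruct.SuFourB
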