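import Cfsg.Agent.Lib.FGStruct.SuFourB

/-!
# `2^{2+4}` in `SU₄(p)`: characteristic polynomials of elements of small prime projective order
-/

set_option autoImplicit false
set_option linter.unusedSectionVars false
set_option linter.style.haveILetI false
set_option linter.unusedVariables false
set_option linter.unusedSimpArgs false

open Polynomial Module Matrix
open scoped MatrixGroups

namespace Cfsg.Agent.Lib.FGStruct.SuFourC

open Cfsg Cfsg.Geo Cfsg.Agent.Lib.FGStruct.Cliff5 Cfsg.Agent.Lib.FGStruct.Cliff6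
  Cfsg.Agent.Lib.FGStruct.SpFour Cfsg.Agent.Lib.SUConj.Adj Cfsg.Agent.Lib.SUConj.Main
  Cfsg.Agent.Lib.HermCount.Field Cfsg.Agent.Lib.FGStruct.SuFourA Cfsg.Agent.Lib.FGStruct.SuFourB

variable {F : Type*} [Field F] [Fintype F] {p : ℕ}

abbrev Mat (F : Type*) := Matrix (Fin 4) (Fin 4) F

section trace

/-- Elements anticommuting with an invertible element have trace zero. -/
theorem trace_zero_of_anti (h2F : (2 : F) ≠ 0) {T Q Q' : Mat F} (hQ : Q' * Q = 1)
    (h : Q * T = -(T * Q)) : T.trace = 0 := by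
  have hQ' : Q * Q' = 1 := mul_eq_one_comm.1 hQ
  have h1 : T.trace = (Q' * (Q * T)).trace := by
    rw [← mul_assoc, hQ, one_mul]
  rw [h, mul_neg, Matrix.trace_neg, Matrix.trace_mul_comm, mul_assoc, hQ', mul_one] at h1
  have h3 : (2 : F) * T.trace = 0 := by linear_combination h1
  exact (mul_eq_zero.1 h3).resolve_left h2F

end trace

section two

/-- Frames for `T² = μ²`. -/
theorem frame2 {T : Mat F} {μ : F} (hμ : μ ≠ 0) (h2F : (2 : F) ≠ 0) (hT : T * T = (μ * μ) • 1) :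
    ∃ n : ℕ, n ≤ 4 ∧ T.charpoly = (X - C μ) ^ n * (X - C (-μ)) ^ (4 - n) ∧
      T.trace = ((n : F) - ((4 - n : ℕ) : F)) * μ ∧ T.det = μ ^ n * (-μ) ^ (4 - n) ∧
      (n = 4 → T = μ • 1) ∧ (n = 0 → T = (-μ) • 1) := by
  classical
  have hne : μ ≠ -μ := by
    intro h
    have h3 : (2 : F) * μ = 0 := by linear_combination h
    exact (mul_ne_zero h2F hμ) h3
  set t : Finset F := {μ, -μ} with ht
  have hprod : ∏ α ∈ t, (X - C α) = (X - C μ) * (X - C (-μ)) := by
    rw [ht, Finset.prod_pair hne]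
  have hann : aeval T (∏ α ∈ t, (X - C α)) = 0 := by
    have e : (X - C μ) * (X - C (-μ)) = (X : F[X]) ^ 2 - C (μ * μ) := by
      rw [C_neg, C_mul]
      ring
    rw [hprod, e]
    simp only [map_sub, map_pow, aeval_X, aeval_C]
    rw [pow_two, hT, Algebra.algebraMap_eq_smul_one, sub_self]
  obtain ⟨d, hd, hfr⟩ := exists_frame T t hann
  have hc := sum_cnt d t hd
  rw [ht, Finset.sum_pair hne] at hc
  set n := cnt d μ with hn
  have hm : cnt d (-μ) = 4 - n := by omega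
  refine ⟨n, by omega, ?_, ?_, ?_, ?_, ?_⟩
  · rw [hfr.cp, prod_count d t hd (fun α => X - C α), ht, Finset.prod_pair hne, hm]
  · have h1 := hfr.tr 1
    rw [pow_one] at h1
    have h2 := sum_count d t hd (fun α => α)
    rw [h1]
    simp only [pow_one]
    rw [h2, ht, Finset.sum_pair hne, hm]
    simp only [nsmul_eq_mul]
    ring
  · rw [hfr.dt, show (∏ i, d i) = ∏ i, (fun α => α) (d i) from rfl, prod_count d t hd (fun α => α), ht,
      Finset.prod_pair hne, hm]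
  · intro h4
    have hall : ∀ i, d i = μ := by
      intro i
      have h5 : (Finset.univ.filter (fun i => d i = μ)) = Finset.univ := by
        apply Finset.eq_univ_of_card
        rw [Fintype.card_fin]
        exact h4
      have h6 : i ∈ Finset.univ.filter (fun i => d i = μ) := by
        rw [h5]
        exact Finset.mem_univ i
      exact (Finset.mem_filter.1 h6).2
    have h7 := hfr.sc (fun i => by rw [hall i, hall 0])
    rw [h7, hall 0]
  · intro h0
    have hall : ∀ i, d i = -μ := by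
      intro i
      have h5 : (Finset.univ.filter (fun i => d i = μ)) = ∅ := by
        apply Finset.card_eq_zero.1
        exact h0
      have h6 : d i ≠ μ := by
        intro h
        have : i ∈ Finset.univ.filter (fun i => d i = μ) := Finset.mem_filter.2 ⟨Finset.mem_univ i, h⟩
        rw [h5] at this
        simp at this
      have h8 := hd i
      rw [ht, Finset.mem_insert, Finset.mem_singleton] at h8
      exact h8.resolve_left h6
    have h7 := hfr.sc (fun i => by rw [hall i, hall 0])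
    rw [h7, hall 0]

end two

section three

variable {ω : F}

/-- Frames for `T³ = 1`. -/
theorem frame3 [Fact p.Prime] [CharP F p] (hF : Fintype.card F = p ^ 2) (hp7 : 7 ≤ p)
    (hω : ω * ω + ω + 1 = 0) (hωp : ω ^ p = ω)
    (h3F : (3 : F) ≠ 0) {T : Mat F} (hT : T ^ 3 = 1) (hadj : adjM hF T * T = 1) :
    ∃ n : ℕ, n ≤ 2 ∧ T.charpoly = (X - C 1) ^ (4 - 2 * n) * ((X - C ω) ^ n * (X - C (ω * ω)) ^ n) ∧
      T.trace = (4 : F) - 3 * (n : F) ∧ (n = 0 → T = 1) ∧ T.det = 1 := by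
  classical
  have hω3 : ω * ω * ω = 1 := by linear_combination (ω - 1) * hω
  have hω1 : (1 : F) ≠ ω := by
    rintro rfl
    apply h3F
    linear_combination hω
  have hω0 : ω ≠ 0 := by
    rintro rfl
    simp at hω
  have hω2 : ω ≠ ω * ω := by
    intro h
    apply hω1
    have : ω * 1 = ω * ω := by rw [mul_one]; exact h
    exact mul_left_cancel₀ hω0 this
  have hω21 : (1 : F) ≠ ω * ω := by
    intro h
    apply hω1
    have e : ω = ω * ω * ω := by rw [← h, one_mul]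
    rw [e, hω3]
  set t : Finset F := {1, ω, ω * ω} with ht
  have hprod : ∏ α ∈ t, (X - C α) = X ^ 3 - C 1 := by
    have := Cfsg.Agent.Lib.Elusive.EigenSplit.prod_cube_roots (1 : F) ω hω hω1.symm one_ne_zero
    simp only [one_mul, one_pow] at this
    rw [ht, show ω * ω = ω ^ 2 from (pow_two ω).symm]
    exact this
  have hann : aeval T (∏ α ∈ t, (X - C α)) = 0 := by
    rw [hprod]
    simp [hT]
  obtain ⟨d, hd, hfr⟩ := exists_frame T t hann
  have hc := sum_cnt d t hd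
  have hsum3 : ∀ (f : F → F), ∑ α ∈ t, f α = f 1 + (f ω + f (ω * ω)) := by
    intro f
    rw [ht, Finset.sum_insert (by simp [hω1, hω21]), Finset.sum_pair hω2]
  have hsumN : ∀ (f : F → ℕ), ∑ α ∈ t, f α = f 1 + (f ω + f (ω * ω)) := by
    intro f
    rw [ht, Finset.sum_insert (by simp [hω1, hω21]), Finset.sum_pair hω2]
  have hprod3 : ∀ (f : F → F[X]), ∏ α ∈ t, f α = f 1 * (f ω * f (ω * ω)) := by
    intro f
    rw [ht, Finset.prod_insert (by simp [hω1, hω21]), Finset.prod_pair hω2]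
  have hprodF : ∀ (f : F → F), ∏ α ∈ t, f α = f 1 * (f ω * f (ω * ω)) := by
    intro f
    rw [ht, Finset.prod_insert (by simp [hω1, hω21]), Finset.prod_pair hω2]
  rw [hsumN] at hc
  set n₀ := cnt d 1 with hn₀
  set n₁ := cnt d ω with hn₁
  set n₂ := cnt d (ω * ω) with hn₂
  have htr1 : T.trace = (n₀ : F) + (n₁ : F) * ω + (n₂ : F) * (ω * ω) := by
    have h1 := hfr.tr 1
    rw [pow_one] at h1
    rw [h1]
    simp only [pow_one]
    have h2 := sum_count d t hd (fun α => α)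
    rw [h2, hsum3]
    simp only [nsmul_eq_mul]
    ring
  have htr2 : (T ^ 2).trace = (n₀ : F) + (n₁ : F) * (ω * ω) + (n₂ : F) * ω := by
    rw [hfr.tr 2]
    have h2 := sum_count d t hd (fun α => α ^ 2)
    rw [h2, hsum3]
    simp only [nsmul_eq_mul]
    have e : ω * ω * (ω * ω) = ω := by linear_combination ω * hω3
    have e1 : (ω * ω) ^ 2 = ω := by rw [pow_two]; exact e
    rw [e1]
    ring
  have hadjT : adjM hF T = T ^ 2 := by
    apply adjM_eq_of hF hadj
    rw [← pow_succ', hT]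
  have hfrob : T.trace ^ p = (T ^ 2).trace := by
    rw [← hadjT, trace_adjM]
  have hn12 : (n₁ : F) = n₂ := by
    have h2 : ((n₀ : F) + (n₁ : F) * ω + (n₂ : F) * (ω * ω)) ^ p =
        (n₀ : F) + (n₁ : F) * ω + (n₂ : F) * (ω * ω) := by
      rw [add_pow_char, add_pow_char, mul_pow, mul_pow, mul_pow, hωp, pow_p_natCast hF,
        pow_p_natCast hF, pow_p_natCast hF]
    rw [htr1, htr2, h2] at hfrob
    have h3 : ((n₁ : F) - n₂) * (ω - ω * ω) = 0 := by linear_combination hfrob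
    have h4 := (mul_eq_zero.1 h3).resolve_right (sub_ne_zero.2 hω2)
    exact sub_eq_zero.1 h4
  have hinj : ∀ {a b : ℕ}, a ≤ 4 → b ≤ 4 → (a : F) = b → a = b := by
    intro a b ha hb hab
    have h1 := (CharP.natCast_eq_natCast F p).1 hab
    exact Nat.ModEq.eq_of_lt_of_lt h1 (by omega) (by omega)
  have hn12' : n₁ = n₂ := hinj (by omega) (by omega) hn12
  rw [← hn12'] at hc
  refine ⟨n₁, by omega, ?_, ?_, ?_, ?_⟩
  · rw [hfr.cp, prod_count d t hd (fun α => X - C α), hprod3, ← hn₀, ← hn₁, ← hn₂, ← hn12']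
    have : n₀ = 4 - 2 * n₁ := by omega
    rw [this]
  · rw [htr1, ← hn12]
    have : n₀ = 4 - 2 * n₁ := by omega
    have h5 : (n₀ : F) + 2 * (n₁ : F) = 4 := by
      have h6 : n₀ + 2 * n₁ = 4 := by omega
      have := congrArg (Nat.cast : ℕ → F) h6
      push_cast at this
      exact this
    linear_combination h5 + (n₁ : F) * hω
  · intro h0
    have hn0 : n₀ = 4 := by omega
    have hall : ∀ i, d i = 1 := by
      intro i
      have h5 : (Finset.univ.filter (fun i => d i = 1)) = Finset.univ := by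
        apply Finset.eq_univ_of_card
        rw [Fintype.card_fin]
        exact hn0
      have h6 : i ∈ Finset.univ.filter (fun i => d i = 1) := by
        rw [h5]
        exact Finset.mem_univ i
      exact (Finset.mem_filter.1 h6).2
    have h7 := hfr.sc (fun i => by rw [hall i, hall 0])
    rw [h7, hall 0, one_smul]
  · rw [hfr.dt, show (∏ i, d i) = ∏ i, (fun α => α) (d i) from rfl, prod_count d t hd (fun α => α),
      hprodF, ← hn₀, ← hn₁, ← hn₂, ← hn12']
    simp only [one_pow, one_mul]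
    have e : ω * (ω * ω) = 1 := by rw [← mul_assoc]; exact hω3
    rw [← mul_pow, e, one_pow]

/-- Two elements of order three with the same trace have the same characteristic polynomial. -/
theorem charpoly_eq3 [Fact p.Prime] [CharP F p] (hF : Fintype.card F = p ^ 2) (hp7 : 7 ≤ p)
    (hω : ω * ω + ω + 1 = 0) (hωp : ω ^ p = ω)
    (h3F : (3 : F) ≠ 0) {T T' : Mat F} (hT : T ^ 3 = 1) (hadj : adjM hF T * T = 1)
    (hT' : T' ^ 3 = 1) (hadj' : adjM hF T' * T' = 1) (htr : T.trace = T'.trace) :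
    T.charpoly = T'.charpoly := by
  obtain ⟨n, hn, h1, h2, -, -⟩ := frame3 hF hp7 hω hωp h3F hT hadj
  obtain ⟨n', hn', h1', h2', -, -⟩ := frame3 hF hp7 hω hωp h3F hT' hadj'
  have h3 : (3 : F) * ((n : F) - n') = 0 := by
    rw [h2, h2'] at htr
    linear_combination -htr
  have h4 := (mul_eq_zero.1 h3).resolve_left h3F
  have h5 : (n : F) = n' := sub_eq_zero.1 h4
  have h6 := (CharP.natCast_eq_natCast F p).1 h5
  have h7 : n = n' := Nat.ModEq.eq_of_lt_of_lt h6 (by omega) (by omega)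
  rw [h1, h1', h7]

end three

section quat

variable {A B : Mat F}

/-- The element of order three of a quaternion pair. -/
noncomputable def qy (A B : Mat F) : Mat F := (2 : F)⁻¹ • (-1 + A + B + A * B)

theorem qy_sq (h2F : (2 : F) ≠ 0) (hA : A * A = -1) (hB : B * B = -1) (hAB : A * B = -(B * A)) :
    qy A B * qy A B = - qy A B - 1 := by
  have hBA : B * A = -(A * B) := by rw [hAB, neg_neg]
  have h1 : A * (A * B) = -B := by rw [← mul_assoc, hA]; simp
  have h2 : B * (A * B) = A := by rw [← mul_assoc, hBA, neg_mul, mul_assoc, hB]; simp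
  have h3 : A * B * A = B := by rw [mul_assoc, hBA, mul_neg, h1, neg_neg]
  have h4 : A * B * B = -A := by rw [mul_assoc, hB]; simp
  have h5 : A * B * (A * B) = -1 := by rw [← mul_assoc, h3, hB]
  unfold qy
  rw [Matrix.smul_mul, Matrix.mul_smul, smul_smul]
  have e : (-1 + A + B + A * B) * (-1 + A + B + A * B) = (-2 : F) • (1 + A + B + A * B) := by
    simp only [mul_add, add_mul, neg_mul, mul_neg, one_mul, mul_one, hA, hB, hBA, h1, h2, h3, h4, h5]
    module
  rw [e, smul_smul]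
  have e2 : (2 : F)⁻¹ * (2 : F)⁻¹ * -2 = -(2 : F)⁻¹ := by
    field_simp
  rw [e2]
  have e3 : (1 : Mat F) = (2 : F)⁻¹ • ((2 : F) • 1) := by
    rw [smul_smul, inv_mul_cancel₀ h2F, one_smul]
  have e4 : -(2 : F)⁻¹ • (1 + A + B + A * B) =
      -((2 : F)⁻¹ • (-1 + A + B + A * B)) - (2 : F)⁻¹ • ((2 : F) • 1) := by
    module
  rw [e4, ← e3]

theorem qy_cube (h2F : (2 : F) ≠ 0) (hA : A * A = -1) (hB : B * B = -1) (hAB : A * B = -(B * A)) :
    qy A B ^ 3 = 1 := by
  have h := qy_sq h2F hA hB hAB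
  rw [pow_succ, pow_two, h, sub_mul, neg_mul, h, one_mul]
  abel

theorem qy_left (hA : A * A = -1) (hB : B * B = -1) (hAB : A * B = -(B * A)) :
    qy A B * A = (A * B) * qy A B := by
  have hBA : B * A = -(A * B) := by rw [hAB, neg_neg]
  have h1 : A * (A * B) = -B := by rw [← mul_assoc, hA]; simp
  have h3 : A * B * A = B := by rw [mul_assoc, hBA, mul_neg, h1, neg_neg]
  have h4 : A * B * B = -A := by rw [mul_assoc, hB]; simp
  have h5 : A * B * (A * B) = -1 := by rw [← mul_assoc, h3, hB]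
  unfold qy
  rw [Matrix.smul_mul, Matrix.mul_smul]
  congr 1
  simp only [mul_add, add_mul, neg_mul, mul_neg, one_mul, mul_one, hA, hBA, h3, h4, h5]
  abel

theorem qy_right (hA : A * A = -1) (hB : B * B = -1) (hAB : A * B = -(B * A)) :
    qy A B * B = A * qy A B := by
  have hBA : B * A = -(A * B) := by rw [hAB, neg_neg]
  have h1 : A * (A * B) = -B := by rw [← mul_assoc, hA]; simp
  have h4 : A * B * B = -A := by rw [mul_assoc, hB]; simp
  unfold qy
  rw [Matrix.smul_mul, Matrix.mul_smul]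
  congr 1
  simp only [mul_add, add_mul, neg_mul, mul_neg, one_mul, mul_one, hA, hB, h1, h4]
  abel

theorem qy_comm {K : Mat F} (h1 : K * A = A * K) (h2 : K * B = B * K) : qy A B * K = K * qy A B := by
  unfold qy
  rw [Matrix.smul_mul, Matrix.mul_smul]
  congr 1
  have h3 : K * (A * B) = (A * B) * K := by
    rw [← mul_assoc, h1, mul_assoc, h2, mul_assoc]
  simp only [mul_add, add_mul, neg_mul, mul_neg, one_mul, mul_one, h1, h2, h3]

theorem qy_adj [Fact p.Prime] [CharP F p] (hF : Fintype.card F = p ^ 2) (h2F : (2 : F) ≠ 0)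
    (hA : A * A = -1) (hB : B * B = -1) (hAB : A * B = -(B * A))
    (aA : adjM hF A = -A) (aB : adjM hF B = -B) : adjM hF (qy A B) * qy A B = 1 := by
  have hBA : B * A = -(A * B) := by rw [hAB, neg_neg]
  have e : adjM hF (qy A B) = - qy A B - 1 := by
    unfold qy
    rw [adjM_smul, two_inv_pow hF, adjM_add, adjM_add, adjM_add, adjM_neg, adjM_one, adjM_mul, aA, aB,
      neg_mul_neg, hBA]
    have e3 : (1 : Mat F) = (2 : F)⁻¹ • ((2 : F) • 1) := by
      rw [smul_smul, inv_mul_cancel₀ h2F, one_smul]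
    have e4 : (2 : F)⁻¹ • (-1 + -A + -B + -(A * B)) =
        -((2 : F)⁻¹ • (-1 + A + B + A * B)) - (2 : F)⁻¹ • ((2 : F) • 1) := by
      module
    rw [e4, ← e3]
  have h := qy_sq h2F hA hB hAB
  rw [e, sub_mul, neg_mul, h, one_mul]
  abel

theorem qy_trace (h2F : (2 : F) ≠ 0) (h1 : A.trace = 0) (h2 : B.trace = 0) (h3 : (A * B).trace = 0) :
    (qy A B).trace = -2 := by
  unfold qy
  rw [Matrix.trace_smul, Matrix.trace_add, Matrix.trace_add, Matrix.trace_add, h1, h2, h3, Matrix.trace_neg,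
    Matrix.trace_one]
  simp only [Fintype.card_fin, smul_eq_mul, add_zero]
  field_simp
  norm_num

end quat

section cz

variable {G₁ G₂ A : Mat F}

/-- The controlled sign. -/
noncomputable def cz (G₁ G₂ : Mat F) : Mat F := (2 : F)⁻¹ • (1 + G₁ + G₂ - G₁ * G₂)

theorem cz_sq (h2F : (2 : F) ≠ 0) (h1 : G₁ * G₁ = 1) (h2 : G₂ * G₂ = 1) (h12 : G₁ * G₂ = G₂ * G₁) :
    cz G₁ G₂ * cz G₁ G₂ = 1 := by
  have e1 : G₁ * (G₁ * G₂) = G₂ := by rw [← mul_assoc, h1, one_mul]
  have e2 : G₂ * (G₁ * G₂) = G₁ := by rw [h12, ← mul_assoc, h2, one_mul]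
  have e3 : G₁ * G₂ * G₁ = G₂ := by rw [h12, mul_assoc, h1, mul_one]
  have e4 : G₁ * G₂ * G₂ = G₁ := by rw [mul_assoc, h2, mul_one]
  have e5 : G₁ * G₂ * (G₁ * G₂) = 1 := by rw [← mul_assoc, e3, h2]
  unfold cz
  rw [Matrix.smul_mul, Matrix.mul_smul, smul_smul]
  have e : (1 + G₁ + G₂ - G₁ * G₂) * (1 + G₁ + G₂ - G₁ * G₂) = (4 : F) • 1 := by
    simp only [mul_add, add_mul, mul_sub, sub_mul, one_mul, mul_one, h1, h2, ← h12, e1, e2, e3, e4, e5]
    module
  rw [e, smul_smul]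
  have e6 : (2 : F)⁻¹ * (2 : F)⁻¹ * 4 = 1 := by
    field_simp
    norm_num
  rw [e6, one_smul]

theorem cz_comm (h1 : G₁ * A = A * G₁) (h2 : G₂ * A = A * G₂) : cz G₁ G₂ * A = A * cz G₁ G₂ := by
  unfold cz
  rw [Matrix.smul_mul, Matrix.mul_smul]
  congr 1
  have h3 : G₁ * G₂ * A = A * (G₁ * G₂) := by
    rw [mul_assoc, h2, ← mul_assoc, h1, mul_assoc]
  simp only [mul_add, add_mul, mul_sub, sub_mul, one_mul, mul_one, h1, h2, h3]

/-- Conjugation when `A` anticommutes with the first element. -/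
theorem cz_anti₁ (h22 : G₂ * G₂ = 1) (h12 : G₁ * G₂ = G₂ * G₁) (h1 : G₁ * A = -(A * G₁))
    (h2 : G₂ * A = A * G₂) : cz G₁ G₂ * A = (A * G₂) * cz G₁ G₂ := by
  unfold cz
  rw [Matrix.smul_mul, Matrix.mul_smul]
  congr 1
  have h3 : G₁ * G₂ * A = -(A * (G₁ * G₂)) := by
    rw [mul_assoc, h2, ← mul_assoc, h1, neg_mul, mul_assoc]
  have h4 : A * G₂ * G₁ = A * (G₁ * G₂) := by rw [mul_assoc, h12]
  have h5 : A * G₂ * G₂ = A := by rw [mul_assoc, h22, mul_one]
  have h6 : A * G₂ * (G₁ * G₂) = A * G₁ := by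
    rw [h12, ← mul_assoc, h5]
  simp only [mul_add, add_mul, mul_sub, sub_mul, one_mul, mul_one, h1, h2, h3, h4, h5, h6]
  abel

theorem cz_adj [Fact p.Prime] [CharP F p] (hF : Fintype.card F = p ^ 2) (h2F : (2 : F) ≠ 0)
    (h1 : G₁ * G₁ = 1) (h2 : G₂ * G₂ = 1) (h12 : G₁ * G₂ = G₂ * G₁)
    (a1 : adjM hF G₁ = G₁) (a2 : adjM hF G₂ = G₂) : adjM hF (cz G₁ G₂) * cz G₁ G₂ = 1 := by
  have e : adjM hF (cz G₁ G₂) = cz G₁ G₂ := by
    unfold cz
    rw [adjM_smul, two_inv_pow hF, adjM_sub, adjM_add, adjM_add, adjM_one, adjM_mul, a1, a2, ← h12]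
  rw [e]
  exact cz_sq h2F h1 h2 h12

theorem cz_trace (h2F : (2 : F) ≠ 0) (h1 : G₁.trace = 0) (h2 : G₂.trace = 0) (h3 : (G₁ * G₂).trace = 0) :
    (cz G₁ G₂).trace = 2 := by
  unfold cz
  rw [Matrix.trace_smul, Matrix.trace_sub, Matrix.trace_add, Matrix.trace_add, h1, h2, h3, Matrix.trace_one]
  simp only [Fintype.card_fin, smul_eq_mul, add_zero, sub_zero]
  field_simp
  norm_num

end cz

section targets

variable {R : Subgroup (GL (Fin 4) F)} {z ι a₁ a₂ b₁ b₂ : R} {i : F}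

theorem adj_of_R (hF : Fintype.card F = p ^ 2) (hRU : R ≤ GU 4 F p) (t : R) :
    adjM hF (mm t) * mm t = 1 := adjM_of_GU hF (hRU t.2)

theorem adj_z (M : MSix R z ι a₁ a₂ b₁ b₂ i) (hF : Fintype.card F = p ^ 2) (hRU : R ≤ GU 4 F p)
    {t : R} (h : t * t = z) : adjM hF (mm t) = -mm t :=
  adjM_eq_of hF (adj_of_R hF hRU t) (by rw [mul_neg, M.msq_z h, neg_neg])

theorem adj_inv (M : MSix R z ι a₁ a₂ b₁ b₂ i) (hF : Fintype.card F = p ^ 2) (hRU : R ≤ GU 4 F p)
    {t : R} (h : t * t = 1) : adjM hF (mm t) = mm t :=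
  adjM_eq_of hF (adj_of_R hF hRU t) (M.msq_one h)

theorem trace_anti (M : MSix R z ι a₁ a₂ b₁ b₂ i) (h2F : (2 : F) ≠ 0) {T : Mat F} (q : R)
    (h : mm q * T = -(T * mm q)) : T.trace = 0 :=
  trace_zero_of_anti h2F (Q' := mm q⁻¹) (by rw [← mm_mul, inv_mul_cancel, mm_one]) h

theorem conj_mem' {y : GL (Fin 4) F} {a c : R} (h : y.val * mm a = mm c * y.val) :
    y * (a : GL (Fin 4) F) * y⁻¹ ∈ R := by
  have h1 : y * (a : GL (Fin 4) F) = (c : GL (Fin 4) F) * y := Units.ext h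
  rw [h1, mul_inv_cancel_right]
  exact c.2

theorem ι_comm (M : MSix R z ι a₁ a₂ b₁ b₂ i) (T : Mat F) : T * mm ι = mm ι * T := by
  rw [M.hι, Matrix.mul_smul, Matrix.smul_mul, Matrix.mul_one, Matrix.one_mul]

theorem hgens (M : MSix R z ι a₁ a₂ b₁ b₂ i) (t : R) :
    t ∈ Subgroup.closure ({a₁, a₂, b₁, b₂, ι} : Set R) := M.D.gen t

theorem mem_N_of_five (M : MSix R z ι a₁ a₂ b₁ b₂ i) {y : GL (Fin 4) F} {c₁ c₂ c₃ c₄ : R}
    (h1 : y.val * mm a₁ = mm c₁ * y.val) (h2 : y.val * mm a₂ = mm c₂ * y.val)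
    (h3 : y.val * mm b₁ = mm c₃ * y.val) (h4 : y.val * mm b₂ = mm c₄ * y.val) :
    y ∈ subgroupNormalizer R := by
  apply mem_normalizer_of_gens _ (hgens M)
  rintro t (rfl | rfl | rfl | rfl | rfl)
  · exact conj_mem' h1
  · exact conj_mem' h2
  · exact conj_mem' h3
  · exact conj_mem' h4
  · exact conj_mem' (ι_comm M _)

/-- The involutions and the controlled sign. -/
theorem exists_cz [Fact p.Prime] [CharP F p] (hF : Fintype.card F = p ^ 2) (h2F : (2 : F) ≠ 0)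
    (M : MSix R z ι a₁ a₂ b₁ b₂ i) (hRU : R ≤ GU 4 F p) :
    ∃ g W : GL (Fin 4) F, g.val * g.val = 1 ∧ adjM hF g.val * g.val = 1 ∧ g ∈ subgroupNormalizer R ∧
      g.val.trace = 0 ∧ W.val * W.val = 1 ∧ adjM hF W.val * W.val = 1 ∧ W ∈ subgroupNormalizer R ∧
      W.val.trace = 2 := by
  have D := M.D
  have X := D.H.X
  set g₁ : R := ι * a₁ with hg₁
  set g₂ : R := ι * b₁ with hg₂
  have sq1 : g₁ * g₁ = 1 := by
    rw [hg₁, X.sq_comm (D.H.hι a₁).symm, D.H.ιι, D.a1, X.zz]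
  have sq2 : g₂ * g₂ = 1 := by
    rw [hg₂, X.sq_comm (D.H.hι b₁).symm, D.H.ιι, D.b1, X.zz]
  set G₁ := mm g₁ with hG₁
  set G₂ := mm g₂ with hG₂
  have h11 : G₁ * G₁ = 1 := M.msq_one sq1
  have h22 : G₂ * G₂ = 1 := M.msq_one sq2
  have s12 : Sg g₁ g₂ = 0 := by
    rw [hg₁, hg₂, D.H.sg_ιmul_left, D.H.sg_ιmul_right, D.r11]
  have h12 : G₁ * G₂ = G₂ * G₁ := M.mcomm s12
  have a1 : adjM hF G₁ = G₁ := adj_inv M hF hRU sq1
  have a2 : adjM hF G₂ = G₂ := adj_inv M hF hRU sq2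
  have sga2 : Sg g₁ a₂ = 1 := by rw [hg₁, D.H.sg_ιmul_left, D.aa]
  have sga1 : Sg g₁ a₁ = 0 := by rw [hg₁, D.H.sg_ιmul_left]; exact D.H.sg_self _
  have sgb1 : Sg g₁ b₁ = 0 := by rw [hg₁, D.H.sg_ιmul_left, D.r11]
  have sgb2 : Sg g₁ b₂ = 0 := by rw [hg₁, D.H.sg_ιmul_left, D.r12]
  have shb2 : Sg g₂ b₂ = 1 := by rw [hg₂, D.H.sg_ιmul_left, D.bb]
  have shb1 : Sg g₂ b₁ = 0 := by rw [hg₂, D.H.sg_ιmul_left]; exact D.H.sg_self _
  have sha1 : Sg g₂ a₁ = 0 := by rw [hg₂, D.H.sg_ιmul_left, sg_comm, D.r11]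
  have sha2 : Sg g₂ a₂ = 0 := by rw [hg₂, D.H.sg_ιmul_left, sg_comm, D.r21]
  have t1 : G₁.trace = 0 := trace_anti M h2F a₂ (by rw [sg_comm] at sga2; exact M.manti sga2)
  have t2 : G₂.trace = 0 := trace_anti M h2F b₂ (by rw [sg_comm] at shb2; exact M.manti shb2)
  have t3 : (G₁ * G₂).trace = 0 := by
    apply trace_anti M h2F a₂
    rw [← mul_assoc, (M.manti (by rw [sg_comm]; exact sga2) : mm a₂ * G₁ = -(G₁ * mm a₂)), neg_mul,
      mul_assoc, (M.mcomm (by rw [sg_comm]; exact sha2) : mm a₂ * G₂ = G₂ * mm a₂), mul_assoc]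
  have hczsq := cz_sq h2F h11 h22 h12
  let W : GL (Fin 4) F := Units.ofPowEqOne (cz G₁ G₂) 2 (by rw [pow_two, hczsq]) (by norm_num)
  have hWv : W.val = cz G₁ G₂ := rfl
  have hsym : cz G₁ G₂ = cz G₂ G₁ := by
    unfold cz
    rw [← h12]
    congr 1
    abel
  refine ⟨(g₁ : GL (Fin 4) F), W, h11, adj_of_R hF hRU g₁, ?_, t1, hczsq,
    cz_adj hF h2F h11 h22 h12 a1 a2, ?_, cz_trace h2F t1 t2 t3⟩
  · exact Subgroup.le_normalizer g₁.2
  · refine mem_N_of_five M (c₁ := a₁) (c₂ := a₂ * g₂) (c₃ := b₁) (c₄ := b₂ * g₁) ?_ ?_ ?_ ?_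
    · exact cz_comm (M.mcomm sga1) (M.mcomm sha1)
    · exact cz_anti₁ h22 h12 (M.manti sga2) (M.mcomm sha2)
    · exact cz_comm (M.mcomm sgb1) (M.mcomm shb1)
    · rw [hWv, hsym]
      exact cz_anti₁ h11 h12.symm (M.manti shb2) (M.mcomm sgb2)

/-- Elements of order three of the normaliser with both traces. -/
theorem exists_three [Fact p.Prime] [CharP F p] (hF : Fintype.card F = p ^ 2) (h2F : (2 : F) ≠ 0)
    (M : MSix R z ι a₁ a₂ b₁ b₂ i) (hRU : R ≤ GU 4 F p) :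
    ∃ y y' : GL (Fin 4) F, y ^ 3 = 1 ∧ adjM hF y.val * y.val = 1 ∧ y ∈ subgroupNormalizer R ∧
      y.val.trace = -2 ∧ y' ^ 3 = 1 ∧ adjM hF y'.val * y'.val = 1 ∧ y' ∈ subgroupNormalizer R ∧
      y'.val.trace = 1 := by
  have D := M.D
  have X := D.H.X
  set A := mm a₁ with hA
  set B := mm a₂ with hB
  set C := mm b₁ with hC
  set E := mm b₂ with hE
  have hAA : A * A = -1 := M.msq_z D.a1
  have hBB : B * B = -1 := M.msq_z D.a2
  have hCC : C * C = -1 := M.msq_z D.b1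
  have hEE : E * E = -1 := M.msq_z D.b2
  have hAB : A * B = -(B * A) := M.manti D.aa
  have hCE : C * E = -(E * C) := M.manti D.bb
  have hAC : A * C = C * A := M.mcomm D.r11
  have hAE : A * E = E * A := M.mcomm D.r12
  have hBC : B * C = C * B := M.mcomm D.r21
  have hBE : B * E = E * B := M.mcomm D.r22
  have tA : A.trace = 0 := trace_anti M h2F a₂ (by
    show B * A = -(A * B)
    rw [hAB, neg_neg])
  have tB : B.trace = 0 := trace_anti M h2F a₁ hAB
  have tAB : (A * B).trace = 0 := by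
    apply trace_anti M h2F a₁
    show A * (A * B) = -(A * B * A)
    have hBA : B * A = -(A * B) := by rw [hAB, neg_neg]
    rw [mul_assoc A B A, hBA, mul_neg, neg_neg]
  have tC : C.trace = 0 := trace_anti M h2F b₂ (by
    show E * C = -(C * E)
    rw [hCE, neg_neg])
  have tE : E.trace = 0 := trace_anti M h2F b₁ hCE
  have tCE : (C * E).trace = 0 := by
    apply trace_anti M h2F b₁
    show C * (C * E) = -(C * E * C)
    have hBA : E * C = -(C * E) := by rw [hCE, neg_neg]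
    rw [mul_assoc C E C, hBA, mul_neg, neg_neg]
  set y₁ := qy A B with hy₁
  set y₂ := qy C E with hy₂
  have c3₁ : y₁ ^ 3 = 1 := qy_cube h2F hAA hBB hAB
  have c3₂ : y₂ ^ 3 = 1 := qy_cube h2F hCC hEE hCE
  have ad₁ : adjM hF y₁ * y₁ = 1 := qy_adj hF h2F hAA hBB hAB (adj_z M hF hRU D.a1) (adj_z M hF hRU D.a2)
  have ad₂ : adjM hF y₂ * y₂ = 1 := qy_adj hF h2F hCC hEE hCE (adj_z M hF hRU D.b1) (adj_z M hF hRU D.b2)
  have tr₁ : y₁.trace = -2 := qy_trace h2F tA tB tAB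
  have tr₂ : y₂.trace = -2 := qy_trace h2F tC tE tCE
  have cm₁C : y₁ * C = C * y₁ := qy_comm hAC.symm hBC.symm
  have cm₁E : y₁ * E = E * y₁ := qy_comm hAE.symm hBE.symm
  have cm₂A : y₂ * A = A * y₂ := qy_comm hAC hAE
  have cm₂B : y₂ * B = B * y₂ := qy_comm hBC hBE
  have cm₁₂ : y₁ * y₂ = y₂ * y₁ := by
    rw [hy₁]
    unfold qy
    rw [Matrix.smul_mul, Matrix.mul_smul]
    congr 1
    have h3 : (A * B) * y₂ = y₂ * (A * B) := by
      rw [mul_assoc, ← cm₂B, ← mul_assoc, ← cm₂A, mul_assoc]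
    simp only [mul_add, add_mul, neg_mul, mul_neg, one_mul, mul_one, cm₂A, cm₂B, h3]
  let Y₁ : GL (Fin 4) F := Units.ofPowEqOne y₁ 3 c3₁ (by norm_num)
  let Y₂ : GL (Fin 4) F := Units.ofPowEqOne y₂ 3 c3₂ (by norm_num)
  have hY₁v : Y₁.val = y₁ := rfl
  have hY₂v : Y₂.val = y₂ := rfl
  have hY₁ : Y₁ ^ 3 = 1 := Units.pow_ofPowEqOne _ _
  have hY₂ : Y₂ ^ 3 = 1 := Units.pow_ofPowEqOne _ _
  have hY₁N : Y₁ ∈ subgroupNormalizer R :=
    mem_N_of_five M (c₁ := a₁ * a₂) (c₂ := a₁) (c₃ := b₁) (c₄ := b₂)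
      (qy_left hAA hBB hAB) (qy_right hAA hBB hAB) cm₁C cm₁E
  have hY₂N : Y₂ ∈ subgroupNormalizer R :=
    mem_N_of_five M (c₁ := a₁) (c₂ := a₂) (c₃ := b₁ * b₂) (c₄ := b₁)
      cm₂A cm₂B (qy_left hCC hEE hCE) (qy_right hCC hEE hCE)
  have hcomm : Y₁ * Y₂ = Y₂ * Y₁ := Units.ext cm₁₂
  refine ⟨Y₁, Y₁ * Y₂, hY₁, ad₁, hY₁N, tr₁, ?_, ?_, mul_mem hY₁N hY₂N, ?_⟩
  · rw [(show Commute Y₁ Y₂ from hcomm).mul_pow, hY₁, hY₂, one_mul]
  · rw [Units.val_mul, hY₁v, hY₂v, adjM_mul]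
    calc adjM hF y₂ * adjM hF y₁ * (y₁ * y₂) = adjM hF y₂ * (adjM hF y₁ * y₁) * y₂ := by noncomm_ring
      _ = 1 := by rw [ad₁, mul_one, ad₂]
  · rw [Units.val_mul, hY₁v, hY₂v, hy₁]
    unfold qy
    rw [Matrix.smul_mul, Matrix.trace_smul]
    have hBA : B * A = -(A * B) := by rw [hAB, neg_neg]
    have t1 : (A * y₂).trace = 0 := by
      apply trace_anti M h2F a₂
      show B * (A * y₂) = -(A * y₂ * B)
      calc B * (A * y₂) = (B * A) * y₂ := by noncomm_ring
        _ = -(A * (B * y₂)) := by rw [hBA]; noncomm_ring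
        _ = -(A * y₂ * B) := by rw [← cm₂B]; noncomm_ring
    have t2 : (B * y₂).trace = 0 := by
      apply trace_anti M h2F a₁
      show A * (B * y₂) = -(B * y₂ * A)
      calc A * (B * y₂) = (A * B) * y₂ := by noncomm_ring
        _ = -(B * (A * y₂)) := by rw [hAB]; noncomm_ring
        _ = -(B * y₂ * A) := by rw [← cm₂A]; noncomm_ring
    have t3 : (A * B * y₂).trace = 0 := by
      apply trace_anti M h2F a₁
      show A * (A * B * y₂) = -(A * B * y₂ * A)
      have u1 : A * (A * B * y₂) = -(B * y₂) := by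
        calc A * (A * B * y₂) = (A * A) * B * y₂ := by noncomm_ring
          _ = -(B * y₂) := by rw [hAA]; noncomm_ring
      have u2 : A * B * y₂ * A = B * y₂ := by
        calc A * B * y₂ * A = A * B * (y₂ * A) := by noncomm_ring
          _ = A * B * (A * y₂) := by rw [cm₂A]
          _ = (A * (B * A)) * y₂ := by noncomm_ring
          _ = (-((A * A) * B)) * y₂ := by rw [hBA]; noncomm_ring
          _ = B * y₂ := by rw [hAA]; noncomm_ring
      rw [u1, u2]
    have e : (-1 + A + B + A * B) * y₂ = -y₂ + A * y₂ + B * y₂ + A * B * y₂ := by noncomm_ring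
    rw [e, Matrix.trace_add, Matrix.trace_add, Matrix.trace_add, Matrix.trace_neg, tr₂, t1, t2, t3]
    simp only [smul_eq_mul, add_zero, neg_neg]
    exact inv_mul_cancel₀ h2F

end targets

section back

variable {R : Subgroup (GL (Fin 4) F)} {z ι a₁ a₂ b₁ b₂ : R} {i : F}

theorem det_of_G {x : GL (Fin 4) F} (hxG : x ∈ GU 4 F p ⊓ specialLinear (Fin 4) F) : x.val.det = 1 := by
  have h2 : Matrix.GeneralLinearGroup.det x = 1 := hxG.2
  have h3 := congrArg Units.val h2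
  simpa using h3

theorem G_of {x : GL (Fin 4) F} (hF : Fintype.card F = p ^ 2) (h1 : adjM hF x.val * x.val = 1)
    (h2 : x.val.det = 1) : x ∈ GU 4 F p ⊓ specialLinear (Fin 4) F := by
  refine ⟨GU_of_adjM hF h1, ?_⟩
  show Matrix.GeneralLinearGroup.det x = 1
  apply Units.ext
  exact h2

theorem scalar_facts (hF : Fintype.card F = p ^ 2) {x : GL (Fin 4) F}
    (hxG : x ∈ GU 4 F p ⊓ specialLinear (Fin 4) F) {r : ℕ} {s : F}
    (hs : ((x ^ r : GL (Fin 4) F) : Mat F) = s • 1) : s ^ 4 = 1 ∧ s ^ p * s = 1 ∧ s ≠ 0 := by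
  have h1 : ((x ^ r : GL (Fin 4) F) : Mat F).det = 1 := det_of_G (pow_mem hxG r)
  rw [hs, Matrix.det_smul, Matrix.det_one, mul_one] at h1
  have h1' : s ^ 4 = 1 := by simpa using h1
  have h2 := adjM_of_GU hF (pow_mem hxG.1 r)
  rw [hs, adjM_smul hF, adjM_one, Matrix.smul_mul, Matrix.mul_smul, Matrix.one_mul, smul_smul] at h2
  have h3 := congrFun (congrFun h2 0) 0
  have h4 : s ^ p * s = 1 := by simpa using h3
  refine ⟨h1', h4, ?_⟩
  rintro rfl
  rw [mul_zero] at h4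
  exact zero_ne_one h4

theorem sc_pow_val (κ : F) (hκ : κ ≠ 0) (n : ℕ) :
    ((sc κ hκ ^ n : GL (Fin 4) F) : Mat F) = (κ ^ n) • 1 := by
  induction n with
  | zero => simp
  | succ n ih =>
    rw [pow_succ, Units.val_mul, ih, sc_val, Matrix.smul_mul, Matrix.mul_smul, Matrix.one_mul,
      smul_smul, pow_succ]

theorem reduce_scalar (hF : Fintype.card F = p ^ 2) (R : Subgroup (GL (Fin 4) F)) {x : GL (Fin 4) F}
    (hxG : x ∈ GU 4 F p ⊓ specialLinear (Fin 4) F) {r : ℕ} {s : F}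
    (hs : ((x ^ r : GL (Fin 4) F) : Mat F) = s • 1) {κ : F} (hκ0 : κ ≠ 0) (hκ4 : κ ^ 4 = 1)
    (hκp : κ ^ p * κ = 1) (hκr : κ ^ r * s = 1)
    (hns : ∀ t : F, (x : Mat F) ≠ t • 1)
    (H : ∀ x' ∈ GU 4 F p ⊓ specialLinear (Fin 4) F, x' ^ r = 1 → (∀ t : F, (x' : Mat F) ≠ t • 1) →
      ∃ g ∈ GU 4 F p ⊓ specialLinear (Fin 4) F, g⁻¹ * x' * g ∈ subgroupNormalizer R) :
    ∃ g ∈ GU 4 F p ⊓ specialLinear (Fin 4) F, g⁻¹ * x * g ∈ subgroupNormalizer R := by
  set x' := sc κ hκ0 * x with hx'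
  have hx'v : (x' : Mat F) = κ • (x : Mat F) := by
    rw [hx', Units.val_mul, sc_val, Matrix.smul_mul, Matrix.one_mul]
  have hG : x' ∈ GU 4 F p ⊓ specialLinear (Fin 4) F := by
    apply G_of hF
    · rw [hx'v, adjM_smul hF, Matrix.smul_mul, Matrix.mul_smul, smul_smul, hκp, one_smul]
      exact adjM_of_GU hF hxG.1
    · rw [hx'v, Matrix.det_smul, det_of_G hxG, mul_one]
      simpa using hκ4
  have hr1 : x' ^ r = 1 := by
    apply Units.ext
    rw [hx', (show Commute (sc κ hκ0) x from sc_comm κ hκ0 x).mul_pow, Units.val_mul, sc_pow_val, hs,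
      Matrix.smul_mul, Matrix.mul_smul, Matrix.one_mul, smul_smul, hκr, one_smul, Units.val_one]
  obtain ⟨g, hg, hN⟩ := H x' hG hr1 (by
    intro t ht
    apply hns (κ⁻¹ * t)
    rw [hx'v] at ht
    rw [mul_smul, ← ht, smul_smul, inv_mul_cancel₀ hκ0, one_smul])
  refine ⟨g, hg, ?_⟩
  have e : g⁻¹ * x * g = (sc κ hκ0)⁻¹ * (g⁻¹ * x' * g) := by
    have h1 : g⁻¹ * x' * g = sc κ hκ0 * (g⁻¹ * x * g) := by
      rw [hx']
      have h2 := sc_comm κ hκ0 g⁻¹
      calc g⁻¹ * (sc κ hκ0 * x) * g = (g⁻¹ * sc κ hκ0) * x * g := by group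
        _ = (sc κ hκ0 * g⁻¹) * x * g := by rw [h2]
        _ = _ := by group
    rw [h1]
    group
  rw [e]
  exact mul_mem (inv_mem (sc_mem_normalizer R κ hκ0)) hN

/-- Order three. -/
theorem bwd_three [Fact p.Prime] [CharP F p] (hF : Fintype.card F = p ^ 2) (hp4 : p % 4 = 3)
    (hp3 : p % 3 = 1) (M : MSix R z ι a₁ a₂ b₁ b₂ i) (hRU : R ≤ GU 4 F p) : AllN F p 3 R := by
  classical
  rintro x hxG ⟨s, hs⟩ hns
  have hpP : p.Prime := Fact.out
  obtain ⟨hs4, hsp, hs0⟩ := scalar_facts hF hxG hs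
  refine reduce_scalar hF R hxG hs hs0 hs4 hsp (by rw [← pow_succ]; exact hs4) hns ?_
  intro x' hG hx3 hns'
  have hp7 : 7 ≤ p := by
    have := hpP.two_le
    omega
  have hp3' : p ≠ 3 := by omega
  have h2F : (2 : F) ≠ 0 := by
    intro h
    have h1 : ((2 : ℕ) : F) = 0 := by exact_mod_cast h
    have h2 := (CharP.cast_eq_zero_iff F p 2).1 h1
    have := Nat.le_of_dvd (by norm_num) h2
    omega
  have h3F : (3 : F) ≠ 0 := by
    intro h
    have h1 : ((3 : ℕ) : F) = 0 := by exact_mod_cast h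
    have h2 := (CharP.cast_eq_zero_iff F p 3).1 h1
    have := Nat.le_of_dvd (by norm_num) h2
    omega
  have hd : 3 ∣ p ^ 2 - 1 := by
    have h1 : p ^ 2 % 3 = 1 := by
      rw [Nat.pow_mod, hp3]
    have h2 : 1 ≤ p ^ 2 := Nat.one_le_pow _ _ hpP.pos
    omega
  obtain ⟨ω, hω⟩ := exists_omega hF h3F hd
  have hω3 : ω ^ 3 = 1 := by linear_combination (ω - 1) * hω
  have hωp : ω ^ p = ω := by
    obtain ⟨k, hk⟩ : 3 ∣ p - 1 := by omega
    have e : p = 3 * k + 1 := by omega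
    rw [e, pow_succ, pow_mul, hω3, one_pow, one_mul]
  have hmat : ∀ {w : GL (Fin 4) F}, w ^ 3 = 1 → (w.val : Mat F) ^ 3 = 1 := by
    intro w hw
    rw [← Units.val_pow_eq_pow_val, hw, Units.val_one]
  obtain ⟨n, hn, hcp, htr, h0, -⟩ := frame3 hF hp7 hω hωp h3F (hmat hx3) (adjM_of_GU hF hG.1)
  obtain ⟨y, y', hy3, hya, hyN, hyt, hy'3, hy'a, hy'N, hy't⟩ := exists_three hF h2F M hRU
  have hn0 : n ≠ 0 := by
    rintro rfl
    apply hns' 1
    rw [h0 rfl, one_smul]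
  have hcop : Nat.Coprime 3 p := by
    rw [Nat.coprime_comm, hpP.coprime_iff_not_dvd]
    intro h
    have := Nat.le_of_dvd (by norm_num) h
    omega
  have hfin : ∀ w : GL (Fin 4) F, w ^ 3 = 1 → adjM hF w.val * w.val = 1 → w ∈ subgroupNormalizer R →
      x'.val.trace = w.val.trace → ∃ g ∈ GU 4 F p ⊓ specialLinear (Fin 4) F,
        g⁻¹ * x' * g ∈ subgroupNormalizer R := by
    intro w hw3 hwa hwN htr'
    obtain ⟨_, _, _, _, _, hdet⟩ := frame3 hF hp7 hω hωp h3F (hmat hw3) hwa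
    have hwG := G_of hF hwa hdet
    obtain ⟨g, hg, he⟩ := conj_of_charpoly hF hG hwG hcop hx3 hw3
      (charpoly_eq3 hF hp7 hω hωp h3F (hmat hx3) (adjM_of_GU hF hG.1) (hmat hw3) hwa htr')
    exact ⟨g, hg, by rw [he]; exact hwN⟩
  have hn12 : n = 1 ∨ n = 2 := by omega
  rcases hn12 with rfl | rfl
  · apply hfin y' hy'3 hy'a hy'N
    rw [htr, hy't]
    norm_num
  · apply hfin y hy3 hya hyN
    rw [htr, hyt]
    norm_num

/-- Target of the right shape for involutions. -/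
theorem target2 [Fact p.Prime] [CharP F p] (hF : Fintype.card F = p ^ 2) (h2F : (2 : F) ≠ 0)
    {μ : F} (hμ : μ ≠ 0) (hμp : μ ^ p * μ = 1) (hμ8 : μ ^ 8 = 1) {g : GL (Fin 4) F}
    (hg2 : g.val * g.val = 1) (hadj : adjM hF g.val * g.val = 1) (hN : g ∈ subgroupNormalizer R)
    (k : ℕ) (htr : ∀ n : ℕ, n ≤ 4 → ((n : F) - ((4 - n : ℕ) : F)) * μ = μ * g.val.trace → n = k)
    (hdet : μ ^ k * (-μ) ^ (4 - k) = 1) :
    ∃ T : GL (Fin 4) F, T ∈ GU 4 F p ⊓ specialLinear (Fin 4) F ∧ T ∈ subgroupNormalizer R ∧ T ^ 8 = 1 ∧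
      T.val.charpoly = (X - C μ) ^ k * (X - C (-μ)) ^ (4 - k) := by
  set T := sc μ hμ * g with hT
  have hTv : (T : Mat F) = μ • (g : Mat F) := by
    rw [hT, Units.val_mul, sc_val, Matrix.smul_mul, Matrix.one_mul]
  have hTT : (T : Mat F) * T = (μ * μ) • 1 := by
    rw [hTv, Matrix.smul_mul, Matrix.mul_smul, hg2, smul_smul]
  obtain ⟨n, hn, hcp, htrT, hdt, -, -⟩ := frame2 (T := (T : Mat F)) hμ h2F hTT
  have hnk : n = k := htr n hn (by
    rw [← htrT, hTv, Matrix.trace_smul, smul_eq_mul])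
  subst hnk
  refine ⟨T, ?_, mul_mem (sc_mem_normalizer R μ hμ) hN, ?_, hcp⟩
  · apply G_of hF
    · rw [hTv, adjM_smul hF, Matrix.smul_mul, Matrix.mul_smul, smul_smul, hμp, one_smul, hadj]
    · rw [hdt, hdet]
  · apply Units.ext
    rw [Units.val_pow_eq_pow_val, Units.val_one]
    have e : (T : Mat F) ^ 8 = ((T : Mat F) * T) ^ 4 := by
      rw [← pow_two, ← pow_mul]
    rw [e, hTT, _root_.smul_pow, one_pow]
    have e2 : (μ * μ) ^ 4 = μ ^ 8 := by ring
    rw [e2, hμ8, one_smul]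

/-- Involutions. -/
theorem bwd_two [Fact p.Prime] [CharP F p] (hF : Fintype.card F = p ^ 2) (hp4 : p % 4 = 3)
    (M : MSix R z ι a₁ a₂ b₁ b₂ i) (hRU : R ≤ GU 4 F p) : AllN F p 2 R := by
  classical
  rintro x hxG ⟨s, hs⟩ hns
  have hpP : p.Prime := Fact.out
  have hp2 : p ≠ 2 := by omega
  obtain ⟨hs4, hsp, hs0⟩ := scalar_facts hF hxG hs
  have h2F : (2 : F) ≠ 0 := by
    intro h
    have h1 : ((2 : ℕ) : F) = 0 := by exact_mod_cast h
    have h2 := (CharP.cast_eq_zero_iff F p 2).1 h1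
    exact hp2 ((Nat.prime_dvd_prime_iff_eq hpP Nat.prime_two).1 h2)
  have h4F : (4 : F) ≠ 0 := by
    have : (4 : F) = 2 * 2 := by norm_num
    rw [this]
    exact mul_ne_zero h2F h2F
  set X : Mat F := (x : Mat F) with hX
  have hXX : X * X = s • 1 := by
    rw [← hs, Units.val_pow_eq_pow_val, pow_two]
  have hdetX : X.det = 1 := det_of_G hxG
  have hadjX : adjM hF X * X = 1 := adjM_of_GU hF hxG.1
  have hx8 : x ^ 8 = 1 := by
    apply Units.ext
    rw [Units.val_pow_eq_pow_val, Units.val_one]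
    have e : X ^ 8 = (X * X) ^ 4 := by
      rw [← pow_two, ← pow_mul]
    rw [e, hXX, _root_.smul_pow, one_pow, hs4, one_smul]
  -- the square root
  obtain ⟨m, hm⟩ : ∃ m, p = 4 * m + 3 := ⟨p / 4, by omega⟩
  have hcardF : Fintype.card F / 2 = 4 * (2 * m * m + 3 * m + 1) := by
    rw [hF, hm]
    have : (4 * m + 3) ^ 2 = 2 * (4 * (2 * m * m + 3 * m + 1)) + 1 := by ring
    rw [this]
    omega
  have hsq : IsSquare s := by
    have hrc : ringChar F ≠ 2 := by
      rw [ringChar.eq F p]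
      exact hp2
    rw [FiniteField.isSquare_iff hrc hs0, hcardF, pow_mul, hs4, one_pow]
  obtain ⟨μ₀, hμ₀⟩ := hsq
  have hμ₀0 : μ₀ ≠ 0 := by
    rintro rfl
    apply hs0
    rw [hμ₀, mul_zero]
  have hcop : Nat.Coprime 8 p := by
    have h1 : Nat.Coprime (2 ^ 3) p := by
      apply Nat.Coprime.pow_left
      rw [Nat.coprime_comm, hpP.coprime_iff_not_dvd]
      intro h
      exact hp2 ((Nat.prime_dvd_prime_iff_eq hpP Nat.prime_two).1 h)
    simpa using h1
  have hfin : ∀ {μ : F} {k : ℕ}, X.charpoly = (Polynomial.X - C μ) ^ k * (Polynomial.X - C (-μ)) ^ (4 - k) →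
      (∃ T : GL (Fin 4) F, T ∈ GU 4 F p ⊓ specialLinear (Fin 4) F ∧ T ∈ subgroupNormalizer R ∧ T ^ 8 = 1 ∧
      T.val.charpoly = (Polynomial.X - C μ) ^ k * (Polynomial.X - C (-μ)) ^ (4 - k)) →
      ∃ g ∈ GU 4 F p ⊓ specialLinear (Fin 4) F, g⁻¹ * x * g ∈ subgroupNormalizer R := by
    rintro μ k hc ⟨T, hTG, hTN, hT8, hTc⟩
    obtain ⟨g, hg, he⟩ := conj_of_charpoly hF hxG hTG hcop hx8 hT8 (by rw [hc, hTc])
    exact ⟨g, hg, by rw [he]; exact hTN⟩
  obtain ⟨g₀, W, hg2, hga, hgN, hgt, hW2, hWa, hWN, hWt⟩ := exists_cz hF h2F M hRU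
  -- the case `n = 2`
  have caseA : ∀ {μ : F}, μ * μ = s → μ ≠ 0 → μ ^ 4 = 1 →
      X.charpoly = (Polynomial.X - C μ) ^ 2 * (Polynomial.X - C (-μ)) ^ (4 - 2) →
      ∃ g ∈ GU 4 F p ⊓ specialLinear (Fin 4) F, g⁻¹ * x * g ∈ subgroupNormalizer R := by
    intro μ hμs hμ hμ4 hc
    apply hfin hc
    refine target2 hF h2F hμ ?_ ?_ hg2 hga hgN 2 ?_ ?_
    · rw [← pow_succ, hm]
      have : 4 * m + 3 + 1 = 4 * (m + 1) := by ring
      rw [this, pow_mul, hμ4, one_pow]
    · have : μ ^ 8 = (μ ^ 4) ^ 2 := by ring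
      rw [this, hμ4, one_pow]
    · intro n hn h
      rw [hgt, mul_zero] at h
      have h1 := (mul_eq_zero.1 h).resolve_right hμ
      have hn' : n = 0 ∨ n = 1 ∨ n = 2 ∨ n = 3 ∨ n = 4 := by omega
      rcases hn' with rfl | rfl | rfl | rfl | rfl
      · exfalso
        apply h4F
        push_cast at h1
        linear_combination -h1
      · exfalso
        apply h2F
        push_cast at h1
        linear_combination (-1 : F) * h1 
      · rfl
      · exfalso
        apply h2F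
        push_cast at h1
        linear_combination h1
      · exfalso
        apply h4F
        push_cast at h1
        linear_combination h1
    · have : μ ^ 2 * (-μ) ^ (4 - 2) = μ ^ 4 := by ring
      rw [this, hμ4]
  -- the case `n = 3`
  have caseB : ∀ {μ : F}, μ * μ = s → μ ≠ 0 → μ ^ 4 = -1 → X.trace = 2 * μ →
      X.charpoly = (Polynomial.X - C μ) ^ 3 * (Polynomial.X - C (-μ)) ^ (4 - 3) →
      ∃ g ∈ GU 4 F p ⊓ specialLinear (Fin 4) F, g⁻¹ * x * g ∈ subgroupNormalizer R := by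
    intro μ hμs hμ hμ4 htr hc
    have hμp : μ ^ p * μ = 1 := by
      have hadjE : adjM hF X = s⁻¹ • X := by
        apply adjM_eq_of hF hadjX
        rw [Matrix.mul_smul, hXX, smul_smul, inv_mul_cancel₀ hs0, one_smul]
      have h1 := trace_adjM hF X
      rw [hadjE, Matrix.trace_smul, htr, smul_eq_mul, mul_pow] at h1
      have h2p : (2 : F) ^ p = 2 := by
        have := pow_p_natCast (F := F) (p := p) hF 2
        simpa using this
      rw [h2p, ← hμs] at h1
      have h3 : (2 : F) * (μ ^ p * μ) = 2 * 1 := by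
        have e : (μ * μ)⁻¹ * (2 * μ) * μ = 2 := by
          field_simp
        calc (2 : F) * (μ ^ p * μ) = (2 * μ ^ p) * μ := by ring
          _ = (μ * μ)⁻¹ * (2 * μ) * μ := by rw [h1]
          _ = 2 * 1 := by rw [e, mul_one]
      exact mul_left_cancel₀ h2F h3
    have hp3 : (3 : F) ≠ 0 := by
      intro h
      have h1 : ((3 : ℕ) : F) = 0 := by exact_mod_cast h
      have h2 := (CharP.cast_eq_zero_iff F p 3).1 h1
      have h3 : p = 3 := (Nat.prime_dvd_prime_iff_eq hpP Nat.prime_three).1 h2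
      rw [h3, ← pow_succ] at hμp
      have h5 : μ ^ 4 = 1 := hμp
      rw [h5] at hμ4
      apply h2F
      linear_combination hμ4
    apply hfin hc
    refine target2 hF h2F hμ hμp ?_ hW2 hWa hWN 3 ?_ ?_
    · have : μ ^ 8 = (μ ^ 4) ^ 2 := by ring
      rw [this, hμ4]
      ring
    · intro n hn h
      rw [hWt] at h
      have h1 : ((n : F) - ((4 - n : ℕ) : F)) * μ = 2 * μ := by rw [h]; ring
      have h2 := mul_right_cancel₀ hμ h1
      have hn' : n = 0 ∨ n = 1 ∨ n = 2 ∨ n = 3 ∨ n = 4 := by omega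
      rcases hn' with rfl | rfl | rfl | rfl | rfl
      · exfalso
        push_cast at h2
        apply mul_ne_zero h2F hp3
        linear_combination -h2
      · exfalso
        apply h4F
        push_cast at h2
        linear_combination -h2
      · exfalso
        apply h2F
        push_cast at h2
        linear_combination -h2
      · rfl
      · exfalso
        apply h2F
        push_cast at h2
        linear_combination h2
    · have : μ ^ 3 * (-μ) ^ (4 - 3) = - μ ^ 4 := by ring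
      rw [this, hμ4, neg_neg]
  obtain ⟨n, hn, hcp, htr, hdt, h4, h0⟩ := frame2 (T := X) hμ₀0 h2F (by rw [hXX, hμ₀])
  have hn0 : n ≠ 0 := by
    rintro rfl
    exact hns _ (h0 rfl)
  have hn4 : n ≠ 4 := by
    rintro rfl
    exact hns _ (h4 rfl)
  rw [hdetX] at hdt
  have hn' : n = 1 ∨ n = 2 ∨ n = 3 := by omega
  rcases hn' with rfl | rfl | rfl
  · -- swap the root
    refine caseB (μ := -μ₀) (by rw [neg_mul_neg, hμ₀]) (neg_ne_zero.2 hμ₀0) ?_ ?_ ?_
    · have e : μ₀ ^ 1 * (-μ₀) ^ (4 - 1) = - μ₀ ^ 4 := by ring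
      rw [e] at hdt
      have : (-μ₀) ^ 4 = μ₀ ^ 4 := by ring
      rw [this]
      linear_combination hdt
    · rw [htr]
      push_cast
      ring
    · rw [hcp, neg_neg]
      ring
  · refine caseA hμ₀.symm hμ₀0 ?_ hcp
    have e : μ₀ ^ 2 * (-μ₀) ^ (4 - 2) = μ₀ ^ 4 := by ring
    rw [e] at hdt
    exact hdt.symm
  · refine caseB hμ₀.symm hμ₀0 ?_ ?_ hcp
    · have e : μ₀ ^ 3 * (-μ₀) ^ (4 - 3) = - μ₀ ^ 4 := by ring
      rw [e] at hdt
      linear_combination hdt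
    · rw [htr]
      push_cast
      ring

end back

end Cfsg.Agent.Lib.FGStruct.SuFourC
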