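import Cfsg.Agent.Lib.FGStruct.SuFourC

/-!
# `2^{2+4}` in `SU₄(p)`: elements of order five
-/

set_option autoImplicit false
set_option linter.unusedSectionVars false
set_option linter.style.haveILetI false
set_option linter.unusedVariables false
set_option linter.unusedSimpArgs false

open Polynomial Module Matrix
open scoped MatrixGroups

namespace Cfsg.Agent.Lib.FGStruct.SuFourD

open Cfsg Cfsg.Geo Cfsg.Agent.Lib.FGStruct.Cliff5 Cfsg.Agent.Lib.FGStruct.Cliff6
  Cfsg.Agent.Lib.FGStruct.SpFour Cfsg.Agent.Lib.SUConj.Adj Cfsg.Agent.Lib.SUConj.Main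
  Cfsg.Agent.Lib.HermCount.Field Cfsg.Agent.Lib.HermCount.Space Cfsg.Agent.Lib.HermCount.Lines
  Cfsg.Agent.Lib.FGStruct.SuFourA Cfsg.Agent.Lib.FGStruct.SuFourB Cfsg.Agent.Lib.FGStruct.SuFourC

variable {F : Type*} [Field F] [Fintype F] {p : ℕ}

section roots

theorem isSquare_of_fixed [Fact p.Prime] [CharP F p] (hF : Fintype.card F = p ^ 2) (hp4 : p % 4 = 3)
    {t : F} (ht : t ^ p = t) (ht0 : t ≠ 0) : IsSquare t := by
  have hp2 : p ≠ 2 := by omega
  obtain ⟨m, hm⟩ : ∃ m, p = 4 * m + 3 := ⟨p / 4, by omega⟩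
  have hcardF : Fintype.card F / 2 = (4 * m + 2) * (2 * m + 2) := by
    rw [hF, hm]
    have : (4 * m + 3) ^ 2 = 2 * ((4 * m + 2) * (2 * m + 2)) + 1 := by ring
    rw [this]
    omega
  have hrc : ringChar F ≠ 2 := by
    rw [ringChar.eq F p]
    exact hp2
  have h1 : t ^ (4 * m + 2) = 1 := by
    have e : t ^ (4 * m + 2) * t = t * 1 := by
      rw [← pow_succ, mul_one]
      have : 4 * m + 2 + 1 = p := by omega
      rw [this, ht]
    rw [mul_comm] at e
    exact mul_left_cancel₀ ht0 e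
  rw [FiniteField.isSquare_iff hrc ht0, hcardF, pow_mul, h1, one_pow]

/-- There are no non-trivial fifth roots of unity. -/
theorem no_fifth_root (hF : Fintype.card F = p ^ 2) (hord : orderOf (p : ZMod 5) = 4) {l : F}
    (h : l ^ 5 = 1) : l = 1 := by
  classical
  by_contra hne
  haveI : Fact (Nat.Prime 5) := ⟨by norm_num⟩
  have hl0 : l ≠ 0 := by
    rintro rfl
    simp at h
  set u : Fˣ := Units.mk0 l hl0 with hu
  have hu5 : u ^ 5 = 1 := by
    apply Units.ext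
    simpa [hu] using h
  have hu1 : u ≠ 1 := by
    intro h1
    apply hne
    have := congrArg Units.val h1
    simpa [hu] using this
  have ho : orderOf u = 5 := orderOf_eq_prime hu5 hu1
  have hd : 5 ∣ p ^ 2 - 1 := by
    have h1 := orderOf_dvd_natCard u
    rw [ho, Nat.card_eq_fintype_card, Fintype.card_units, hF] at h1
    exact h1
  have hple : 1 ≤ p ^ 2 := by
    rcases Nat.eq_zero_or_pos p with rfl | h0
    · exfalso
      have := Fintype.one_lt_card (α := F)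
      rw [hF] at this
      norm_num at this
    · exact Nat.one_le_pow _ _ h0
  have hz : (p : ZMod 5) ^ 2 = 1 := by
    have h2 : ((p ^ 2 - 1 : ℕ) : ZMod 5) = 0 := (ZMod.natCast_eq_zero_iff _ _).2 hd
    rw [Nat.cast_sub hple] at h2
    push_cast at h2
    exact sub_eq_zero.1 h2
  have := orderOf_dvd_of_pow_eq_one hz
  rw [hord] at this
  omega

/-- The golden root not in the prime field. -/
theorem exists_tau4 [Fact p.Prime] [CharP F p] (hF : Fintype.card F = p ^ 2) (hp4 : p % 4 = 3)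
    (hord : orderOf (p : ZMod 5) = 4) (h2F : (2 : F) ≠ 0) (h5F : (5 : F) ≠ 0) :
    ∃ τ : F, τ * τ + τ - 1 = 0 ∧ τ ^ p = -1 - τ := by
  have h2p : (2 : F) ^ p = 2 := by
    have := pow_p_natCast (F := F) (p := p) hF 2
    simpa using this
  have h5p : (5 : F) ^ p = 5 := by
    have := pow_p_natCast (F := F) (p := p) hF 5
    simpa using this
  have h1p : (-1 : F) ^ p = -1 := by
    have h := map_neg (frobHom hF) (1 : F)
    simpa using h
  obtain ⟨s, hs⟩ := isSquare_of_fixed hF hp4 h5p h5F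
  set τ := (s - 1) / 2 with hτd
  have hτ : τ * τ + τ - 1 = 0 := by
    rw [hτd]
    field_simp
    linear_combination -hs
  refine ⟨τ, hτ, ?_⟩
  have hτp : τ ^ p * τ ^ p + τ ^ p - 1 = 0 := by
    have e : τ ^ p * τ ^ p + τ ^ p - 1 = (τ * τ + τ - 1) ^ p := by
      rw [sub_pow_char, add_pow_char, mul_pow, one_pow]
    rw [e, hτ, zero_pow (Fact.out : p.Prime).ne_zero]
  have hfac : (τ ^ p - τ) * (τ ^ p + 1 + τ) = 0 := by
    linear_combination hτp - hτ
  rcases mul_eq_zero.1 hfac with h | h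
  · exfalso
    have hfix : τ ^ p = τ := sub_eq_zero.1 h
    set t := τ * τ - 4 with ht
    have htp : t ^ p = t := by
      have h4p : (4 : F) ^ p = 4 := by
        have := pow_p_natCast (F := F) (p := p) hF 4
        simpa using this
      rw [ht, sub_pow_char, mul_pow, hfix, h4p]
    have ht0 : t ≠ 0 := by
      intro h0
      have e1 : (τ - 2) * (τ + 2) = 0 := by rw [ht] at h0; linear_combination h0
      rcases mul_eq_zero.1 e1 with e2 | e2
      · have e3 : τ = 2 := sub_eq_zero.1 e2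
        rw [e3] at hτ
        apply h5F
        linear_combination hτ
      · have e3 : τ = -2 := eq_neg_of_add_eq_zero_left e2
        rw [e3] at hτ
        apply one_ne_zero (α := F)
        linear_combination hτ
    obtain ⟨u, hu⟩ := isSquare_of_fixed hF hp4 htp ht0
    set ζ := (τ + u) / 2 with hζd
    have hζ : ζ * ζ - τ * ζ + 1 = 0 := by
      rw [hζd]
      field_simp
      rw [ht] at hu
      linear_combination -hu
    have hζ5 : ζ ^ 5 = 1 := by
      linear_combination (ζ ^ 3 + τ * ζ ^ 2 + (τ ^ 2 - 1) * ζ + (τ ^ 3 - 2 * τ)) * hζ +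
        ((τ ^ 2 - τ - 1) * ζ - (τ - 1)) * hτ
    have hζ1 := no_fifth_root hF hord hζ5
    rw [hζ1] at hζ
    have e3 : τ = 2 := by linear_combination -hζ
    rw [e3] at hτ
    apply h5F
    linear_combination hτ
  · linear_combination h

end roots

section fiveTarget

variable {R : Subgroup (GL (Fin 4) F)} {z ι a₁ a₂ b₁ b₂ : R} {i : F}

/-- Commutant through the five involutions. -/
theorem comm_five (M : MSix R z ι a₁ a₂ b₁ b₂ i) (T : Mat F)
    (h : ∀ k, T * mm (Hyp.five ι a₁ a₂ b₁ b₂ k) = mm (Hyp.five ι a₁ a₂ b₁ b₂ k) * T) :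
    ∃ s : F, T = s • 1 := by
  have key : ∀ t : R, t ∈ Subgroup.closure (insert ι (Set.range (Hyp.five ι a₁ a₂ b₁ b₂))) →
      T * mm t = mm t * T := by
    intro t ht
    induction ht using Subgroup.closure_induction with
    | mem x hx =>
      rcases hx with rfl | ⟨k, rfl⟩
      · exact ι_comm M T
      · exact h k
    | one => simp [mm_one]
    | mul a b _ _ h1 h2 =>
      rw [mm_mul, ← mul_assoc, h1, mul_assoc, h2, mul_assoc]
    | inv a _ h1 =>
      have h2 : mm a⁻¹ * mm a = 1 := by rw [← mm_mul, inv_mul_cancel, mm_one]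
      have h3 : mm a * mm a⁻¹ = 1 := by rw [← mm_mul, mul_inv_cancel, mm_one]
      calc T * mm a⁻¹ = (mm a⁻¹ * mm a) * (T * mm a⁻¹) := by rw [h2, one_mul]
        _ = mm a⁻¹ * (mm a * T) * mm a⁻¹ := by noncomm_ring
        _ = mm a⁻¹ * (T * mm a) * mm a⁻¹ := by rw [h1]
        _ = mm a⁻¹ * T * (mm a * mm a⁻¹) := by noncomm_ring
        _ = mm a⁻¹ * T := by rw [h3, mul_one]
  have key' : ∀ t : R, T * mm t = mm t * T := fun t => key t (M.D.five_gen t)
  exact M.comm T (key' _) (key' _) (key' _) (key' _)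

/-- The element of order five in the normaliser. -/
theorem exists_five_target [Fact p.Prime] [CharP F p] (hF : Fintype.card F = p ^ 2) (h2F : (2 : F) ≠ 0)
    (M : MSix R z ι a₁ a₂ b₁ b₂ i) (hRU : R ≤ GU 4 F p) :
    ∃ y : GL (Fin 4) F, y ∈ GU 4 F p ⊓ specialLinear (Fin 4) F ∧ y ^ 5 = 1 ∧ y ≠ 1 ∧
      y ∈ subgroupNormalizer R := by
  classical
  have D := M.D
  set c := Hyp.five ι a₁ a₂ b₁ b₂ with hc
  set K : Fin 5 → Mat F := fun k => mm (c k) with hK
  have s : ∀ k, K k * K k = 1 := fun k => M.msq_one (D.five_sq k)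
  have an : ∀ k l, k ≠ l → K k * K l = -(K l * K k) := fun k l h => M.manti (D.five_anti k l h)
  set Y₀ := (K 0 - K 1) * (K 1 - K 2) * (K 2 - K 3) * (K 3 - K 4) with hY₀
  set Y' := (K 3 - K 4) * (K 2 - K 3) * (K 1 - K 2) * (K 0 - K 1) with hY'
  have n0 := nu_sq (s 0) (s 1) (an 0 1 (by decide))
  have n1 := nu_sq (s 1) (s 2) (an 1 2 (by decide))
  have n2 := nu_sq (s 2) (s 3) (an 2 3 (by decide))
  have n3 := nu_sq (s 3) (s 4) (an 3 4 (by decide))
  have h16 : Y₀ * Y' = (16 : F) • 1 := four_inv n0 n1 n2 n3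
  have h16' : Y' * Y₀ = (16 : F) • 1 := four_inv n3 n2 n1 n0
  have o : ∀ k l m, k ≠ m → l ≠ m → (K k - K l) * K m = -(K m * (K k - K l)) :=
    fun k l m h1 h2 => nu_other (an k m h1) (an l m h2)
  have m0 : Y₀ * K 0 = K 1 * Y₀ := four_step (o 3 4 0 (by decide) (by decide))
    (o 2 3 0 (by decide) (by decide)) (o 1 2 0 (by decide) (by decide)) (nu_left (s 0) (s 1))
  have m1 : Y₀ * K 1 = K 2 * Y₀ := four_step (o 3 4 1 (by decide) (by decide))
    (o 2 3 1 (by decide) (by decide)) (nu_left (s 1) (s 2)) (o 0 1 2 (by decide) (by decide))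
  have m2 : Y₀ * K 2 = K 3 * Y₀ := four_step (o 3 4 2 (by decide) (by decide))
    (nu_left (s 2) (s 3)) (o 1 2 3 (by decide) (by decide)) (o 0 1 3 (by decide) (by decide))
  have m3 : Y₀ * K 3 = K 4 * Y₀ := four_step (nu_left (s 3) (s 4))
    (o 2 3 4 (by decide) (by decide)) (o 1 2 4 (by decide) (by decide)) (o 0 1 4 (by decide) (by decide))
  have m4 : Y₀ * K 4 = K 0 * Y₀ := four_step (nu_right (s 3) (s 4) (an 3 4 (by decide)))
    (nu_right (s 2) (s 3) (an 2 3 (by decide))) (nu_right (s 1) (s 2) (an 1 2 (by decide)))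
    (nu_right (s 0) (s 1) (an 0 1 (by decide)))
  have h4 : (4 : F) ≠ 0 := by
    have : (4 : F) = 2 * 2 := by norm_num
    rw [this]
    exact mul_ne_zero h2F h2F
  set q : F := (4 : F)⁻¹ with hq
  have hqq : q * q * 16 = 1 := by
    rw [hq]
    field_simp
    norm_num
  have hqp : q ^ p = q := by
    rw [hq, inv_pow]
    congr 1
    have := pow_p_natCast (F := F) (p := p) hF 4
    simpa using this
  let y : GL (Fin 4) F := ⟨q • Y₀, q • Y', by
    rw [Matrix.smul_mul, Matrix.mul_smul, h16, smul_smul, smul_smul, hqq, one_smul], by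
    rw [Matrix.smul_mul, Matrix.mul_smul, h16', smul_smul, smul_smul, hqq, one_smul]⟩
  have hyv : (y : Mat F) = q • Y₀ := rfl
  have my : ∀ {A B : Mat F}, Y₀ * A = B * Y₀ → (y : Mat F) * A = B * y := by
    intro A B h
    rw [hyv, Matrix.smul_mul, Matrix.mul_smul, h]
  have y0 := my m0
  have y1 := my m1
  have y2 := my m2
  have y3 := my m3
  have y4 := my m4
  have hyN : y ∈ subgroupNormalizer R := by
    apply mem_normalizer_of_gens _ (fun t => D.five_gen t)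
    rintro t (rfl | ⟨k, rfl⟩)
    · exact conj_mem' (ι_comm M _)
    · fin_cases k
      · exact conj_mem' (a := c 0) (c := c 1) y0
      · exact conj_mem' (a := c 1) (c := c 2) y1
      · exact conj_mem' (a := c 2) (c := c 3) y2
      · exact conj_mem' (a := c 3) (c := c 4) y3
      · exact conj_mem' (a := c 4) (c := c 0) y4
  have anu : ∀ k l, adjM hF (K k - K l) = K k - K l := by
    intro k l
    rw [adjM_sub, adj_inv M hF hRU (D.five_sq k), adj_inv M hF hRU (D.five_sq l)]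
  have hyad : adjM hF (y : Mat F) * y = 1 := by
    have e : adjM hF Y₀ = Y' := by
      rw [hY₀, adjM_mul, adjM_mul, adjM_mul, anu, anu, anu, anu, hY']
      simp only [mul_assoc]
    rw [hyv, adjM_smul hF, hqp, e, Matrix.smul_mul, Matrix.mul_smul, h16', smul_smul, smul_smul, hqq,
      one_smul]
  set Mm : Mat F := (y : Mat F) with hMm
  obtain ⟨σ, hσ⟩ := comm_five M (Mm ^ 5) (by
    intro k
    fin_cases k
    · exact cyc_comm y0 y1 y2 y3 y4
    · exact cyc_comm y1 y2 y3 y4 y0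
    · exact cyc_comm y2 y3 y4 y0 y1
    · exact cyc_comm y3 y4 y0 y1 y2
    · exact cyc_comm y4 y0 y1 y2 y3)
  -- determinants
  have hd2 : Matrix.det Y' = Matrix.det Y₀ := by
    rw [hY₀, hY', Matrix.det_mul, Matrix.det_mul, Matrix.det_mul, Matrix.det_mul, Matrix.det_mul,
      Matrix.det_mul]
    ring
  have hδ : (Mm.det) ^ 2 = 1 := by
    have h1 := congrArg Matrix.det h16
    rw [Matrix.det_mul, hd2, Matrix.det_smul, Matrix.det_one, mul_one] at h1
    rw [hyv, Matrix.det_smul]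
    simp only [Fintype.card_fin] at h1 ⊢
    have e : (q ^ 4 * Y₀.det) ^ 2 = (q * q * 16) ^ 4 := by
      have : (q ^ 4 * Y₀.det) ^ 2 = q ^ 8 * (Y₀.det * Y₀.det) := by ring
      rw [this, h1]
      ring
    rw [e, hqq, one_pow]
  have hσ8 : σ ^ 8 = 1 := by
    have h0 := congrArg Matrix.det hσ
    have e0 : Matrix.det (σ • (1 : Mat F)) = σ ^ 4 := by
      rw [Matrix.det_smul, Matrix.det_one, mul_one]
      simp
    rw [e0, Matrix.det_pow] at h0
    have e : σ ^ 8 = (σ ^ 4) ^ 2 := by ring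
    rw [e, ← h0, ← pow_mul, show 5 * 2 = 2 * 5 by norm_num, pow_mul, hδ, one_pow]
  have hy80 : (y ^ 16) ^ 5 = 1 := by
    apply Units.ext
    rw [Units.val_pow_eq_pow_val, Units.val_pow_eq_pow_val, Units.val_one, ← pow_mul,
      show 16 * 5 = 5 * 16 by norm_num, pow_mul, ← hMm, hσ, _root_.smul_pow, one_pow]
    have e : σ ^ 16 = (σ ^ 8) ^ 2 := by ring
    rw [e, hσ8, one_pow, one_smul]
  refine ⟨y ^ 16, ?_, hy80, ?_, pow_mem hyN 16⟩
  · have hyU : y ∈ GU 4 F p := GU_of_adjM hF hyad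
    apply G_of hF
    · exact adjM_of_GU hF (pow_mem hyU 16)
    · rw [Units.val_pow_eq_pow_val, Matrix.det_pow, ← hMm]
      have e : Mm.det ^ 16 = (Mm.det ^ 2) ^ 8 := by rw [← pow_mul]
      rw [e, hδ, one_pow]
  · intro h16y
    have h1 : Mm ^ 16 = 1 := by
      rw [hMm, ← Units.val_pow_eq_pow_val, h16y, Units.val_one]
    have h2 : Mm ^ 16 * K 0 = K 1 * Mm ^ 16 := by
      have e : ∀ n : ℕ, (Mm ^ 5) ^ n * K 1 = K 1 * (Mm ^ 5) ^ n := by
        intro n
        rw [hσ, _root_.smul_pow, one_pow, Matrix.smul_mul, Matrix.mul_smul, Matrix.one_mul, Matrix.mul_one]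
      have e2 : Mm ^ 16 = (Mm ^ 5) ^ 3 * Mm := by
        rw [← pow_mul, ← pow_succ]
      rw [e2, mul_assoc, y0, ← mul_assoc, e, mul_assoc]
    rw [h1, one_mul, mul_one] at h2
    have h3 := an 0 1 (by decide)
    rw [h2, s 1] at h3
    have h4' : (2 : F) • (1 : Mat F) = 0 := by
      rw [two_smul]
      nth_rw 1 [h3]
      simp
    have := congrFun (congrFun h4' 0) 0
    simp at this
    exact h2F this

end fiveTarget

section charpoly

/-- The companion form. -/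
def Cm (τ : F) : Mat F := !![0, -1, 0, 0; 1, τ, 0, 0; 0, 0, 0, -1; 0, 0, 1, -1 - τ]

theorem five_charpoly [Fact p.Prime] [CharP F p] (hF : Fintype.card F = p ^ 2)
    (hord : orderOf (p : ZMod 5) = 4) (h2F : (2 : F) ≠ 0) (h5F : (5 : F) ≠ 0) {τ : F}
    (hτ : τ * τ + τ - 1 = 0) (hτp : τ ^ p = -1 - τ) {w : GL (Fin 4) F} (hw : w ∈ GU 4 F p)
    (hw5 : w ^ 5 = 1) (hw1 : w ≠ 1) : w.val.charpoly = (Cm τ).charpoly := by
  classical
  have S0 := herm_space (F := F) (q := p) 4 hF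
  set f := hermForm 4 F p with hf
  set W : Mat F := w.val with hWd
  set W4 : Mat F := W ^ 4 with hW4
  have hW5 : W ^ 5 = 1 := by rw [hWd, ← Units.val_pow_eq_pow_val, hw5, Units.val_one]
  have h41 : W * W4 = 1 := by rw [hW4, ← pow_succ', hW5]
  have h14 : W4 * W = 1 := by rw [hW4, ← pow_succ, hW5]
  set Sm : Mat F := W + W4 with hSm
  have iso : ∀ u v, f (W *ᵥ u) (W *ᵥ v) = f u v := fun u v => hw u v
  have e1 : ∀ v, W *ᵥ (W4 *ᵥ v) = v := fun v => by rw [Matrix.mulVec_mulVec, h41, Matrix.one_mulVec]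
  have e2 : ∀ v, W4 *ᵥ (W *ᵥ v) = v := fun v => by rw [Matrix.mulVec_mulVec, h14, Matrix.one_mulVec]
  have hSsa : ∀ a b, f a (Sm *ᵥ b) = f (Sm *ᵥ a) b := by
    intro a b
    rw [hSm, Matrix.add_mulVec, Matrix.add_mulVec, S0.add_right hF, S0.add_left]
    have t1 : f a (W *ᵥ b) = f (W4 *ᵥ a) b := by rw [← iso (W4 *ᵥ a) b, e1]
    have t2 : f a (W4 *ᵥ b) = f (W *ᵥ a) b := by rw [← iso a (W4 *ᵥ b), e1]
    rw [t1, t2]
    ring
  set P : Mat F := W ^ 4 + W ^ 3 + W ^ 2 + W + 1 with hP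
  have hPW : P * (W - 1) = 0 := by
    have e : P * (W - 1) = W ^ 5 - 1 := by rw [hP]; noncomm_ring
    rw [e, hW5, sub_self]
  have hWP : W * P = P := by
    have e : W * P = W ^ 5 + W ^ 4 + W ^ 3 + W ^ 2 + W := by rw [hP]; noncomm_ring
    rw [e, hW5, hP]
    abel
  have hW4P : W4 * P = P := by
    have e : W4 * P = W * (W * (W * (W * P))) := by
      rw [hW4]
      simp only [pow_succ, pow_zero, one_mul, mul_assoc]
    rw [e, hWP, hWP, hWP, hWP]
  have hSP : Sm * Sm + Sm - 1 = P := by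
    have e8 : W4 * W4 = W ^ 3 := by
      rw [hW4, ← pow_add, show 4 + 4 = 5 + 3 by norm_num, pow_add, hW5, one_mul]
    have e : Sm * Sm = W * W + W * W4 + W4 * W + W4 * W4 := by rw [hSm]; noncomm_ring
    rw [e, h41, h14, e8, hSm, hP, hW4, pow_two]
    abel
  have hSPP : Sm * P = (2 : F) • P := by
    rw [hSm, add_mul, hWP, hW4P, two_smul]
  have hSW : Sm * W = W * Sm := by
    rw [hSm, add_mul, mul_add, h41, h14]
  -- vector forms
  have vSW : ∀ x, Sm *ᵥ (W *ᵥ x) = W *ᵥ (Sm *ᵥ x) := fun x => by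
    rw [Matrix.mulVec_mulVec, Matrix.mulVec_mulVec, hSW]
  have vSP : ∀ x, Sm *ᵥ (P *ᵥ x) = (2 : F) • (P *ᵥ x) := fun x => by
    rw [Matrix.mulVec_mulVec, hSPP, Matrix.smul_mulVec]
  have vP : ∀ x, Sm *ᵥ (Sm *ᵥ x) + Sm *ᵥ x - x = P *ᵥ x := fun x => by
    have h1 : (Sm * Sm + Sm - 1) *ᵥ x = (Sm * Sm) *ᵥ x + Sm *ᵥ x - x := by
      rw [Matrix.sub_mulVec, Matrix.add_mulVec (Sm * Sm) Sm, Matrix.one_mulVec]
    rw [← hSP, h1, ← Matrix.mulVec_mulVec]
  have vPW : ∀ x, P *ᵥ (W *ᵥ x - x) = 0 := fun x => by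
    have h := congrArg (fun M : Mat F => M *ᵥ x) hPW
    simp only [Matrix.zero_mulVec] at h
    rw [← h, mul_sub, mul_one, Matrix.sub_mulVec, Matrix.mulVec_sub, Matrix.mulVec_mulVec]
  -- the quadratic factor
  have hquad : ∀ σ σ' : F, σ + σ' = -1 → σ * σ' = -1 → ∀ x,
      Sm *ᵥ (Sm *ᵥ x - σ • x) - σ' • (Sm *ᵥ x - σ • x) = P *ᵥ x := by
    intro σ σ' h1 h2 x
    rw [← vP x, Matrix.mulVec_sub, Matrix.mulVec_smul]
    have e : Sm *ᵥ (Sm *ᵥ x) - σ • (Sm *ᵥ x) - σ' • (Sm *ᵥ x - σ • x) =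
        Sm *ᵥ (Sm *ᵥ x) - (σ + σ') • (Sm *ᵥ x) + (σ * σ') • x := by
      module
    rw [e, h1, h2]
    module
  have hpartner : ∀ σ σ' : F, σ + σ' = -1 → σ * σ' = -1 → σ ^ p = σ' → σ ≠ σ' → σ ≠ 2 → ∀ e : Fin 4 → F,
      e ≠ 0 → Sm *ᵥ e = σ • e → ∃ e' : Fin 4 → F, e' ≠ 0 ∧ Sm *ᵥ e' = σ' • e' := by
    intro σ σ' hs hm hσp hne hσ2 e he0 he
    obtain ⟨v, hv⟩ : ∃ v, f e v ≠ 0 := by
      by_contra hcon
      push Not at hcon
      exact he0 (S0.nd e hcon)
    set y₁ := Sm *ᵥ v - σ • v with hy₁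
    have hy := hquad σ σ' hs hm v
    rw [← hy₁] at hy
    refine ⟨Sm *ᵥ y₁ - (2 : F) • y₁, ?_, ?_⟩
    · intro h0
      have h2p : (2 : F) ^ p = 2 := by
        have := pow_p_natCast (F := F) (p := p) hF 2
        simpa using this
      have t1 : f e y₁ = (σ - σ') * f e v := by
        rw [hy₁, S0.sub_right hF, hSsa, he, S0.smul_left, S0.smul_right hF, hσp]
        ring
      have t2 : f e (Sm *ᵥ y₁ - (2 : F) • y₁) = (σ - 2) * f e y₁ := by
        rw [S0.sub_right hF, hSsa, he, S0.smul_left, S0.smul_right hF, h2p]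
        ring
      rw [h0, S0.zero_right hF, t1] at t2
      have t3 := mul_ne_zero (sub_ne_zero.2 hσ2) (mul_ne_zero (sub_ne_zero.2 hne) hv)
      exact t3 t2.symm
    · have hA : Sm *ᵥ y₁ = σ' • y₁ + P *ᵥ v := by
        rw [← hy]
        abel
      rw [Matrix.mulVec_sub, Matrix.mulVec_smul, hA, Matrix.mulVec_add, Matrix.mulVec_smul, hA, vSP]
      module
  -- the two roots
  set τ' : F := -1 - τ with hτ'
  have hs1 : τ + τ' = -1 := by rw [hτ']; ring
  have hm1 : τ * τ' = -1 := by rw [hτ']; linear_combination -hτ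
  have hs2 : τ' + τ = -1 := by rw [hτ']; ring
  have hm2 : τ' * τ = -1 := by rw [hτ']; linear_combination -hτ
  have hp1 : τ ^ p = τ' := hτp
  have hp2 : τ' ^ p = τ := by
    have h1 : (-1 : F) ^ p = -1 := by
      have h := map_neg (frobHom hF) (1 : F)
      simpa using h
    rw [hτ', sub_pow_char, h1, hτp]
    ring
  have hne : τ ≠ τ' := by
    intro h
    have h1 : 2 * τ + 1 = 0 := by rw [hτ'] at h; linear_combination h
    apply h5F
    linear_combination (2 * τ + 1) * h1 - 4 * hτ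
  have hroot2 : ∀ σ : F, σ * σ + σ - 1 = 0 → σ ≠ 2 := by
    rintro σ hσ rfl
    apply h5F
    linear_combination hσ
  have hτ2 : τ ≠ 2 := hroot2 τ hτ
  have hτ'2 : τ' ≠ 2 := hroot2 τ' (by rw [hτ']; linear_combination hτ)
  -- the eigenvectors
  obtain ⟨u, hu⟩ : ∃ u, W *ᵥ u ≠ u := by
    by_contra hcon
    push Not at hcon
    apply hw1
    apply Units.ext
    rw [Units.val_one]
    show W = 1
    ext a b
    have := congrFun (hcon (Pi.single b 1)) a
    rw [Matrix.mulVec_single_one] at this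
    rw [show W a b = W.col b a from rfl, this, Matrix.one_apply, Pi.single_apply]
  set v₁ := W *ᵥ u - u with hv₁
  have hv₁0 : v₁ ≠ 0 := sub_ne_zero.2 hu
  have hPv₁ : P *ᵥ v₁ = 0 := vPW u
  obtain ⟨e, he0, he, e', he'0, he'⟩ : ∃ e : Fin 4 → F, e ≠ 0 ∧ Sm *ᵥ e = τ • e ∧
      ∃ e' : Fin 4 → F, e' ≠ 0 ∧ Sm *ᵥ e' = τ' • e' := by
    by_cases h0 : Sm *ᵥ v₁ - τ' • v₁ = 0
    · have hv : Sm *ᵥ v₁ = τ' • v₁ := sub_eq_zero.1 h0
      obtain ⟨e, h1, h2⟩ := hpartner τ' τ hs2 hm2 hp2 hne.symm hτ'2 v₁ hv₁0 hv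
      exact ⟨e, h1, h2, v₁, hv₁0, hv⟩
    · have hv := hquad τ' τ hs2 hm2 v₁
      rw [hPv₁] at hv
      have hv' : Sm *ᵥ (Sm *ᵥ v₁ - τ' • v₁) = τ • (Sm *ᵥ v₁ - τ' • v₁) := sub_eq_zero.1 hv
      obtain ⟨e', h1, h2⟩ := hpartner τ τ' hs1 hm1 hp1 hne hτ2 _ h0 hv'
      exact ⟨_, h0, hv', e', h1, h2⟩
  -- no eigenvectors of `W`
  have hnoeig : ∀ σ : F, σ ≠ 2 → ∀ x : Fin 4 → F, x ≠ 0 → Sm *ᵥ x = σ • x → ∀ l : F, W *ᵥ x ≠ l • x := by
    intro σ hσ x hx hSx l hl
    have hpow : ∀ k : ℕ, W ^ k *ᵥ x = l ^ k • x := by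
      intro k
      induction k with
      | zero => simp
      | succ k ih => rw [pow_succ, ← Matrix.mulVec_mulVec, hl, Matrix.mulVec_smul, ih, smul_smul, pow_succ']
    have h5 := hpow 5
    rw [hW5, Matrix.one_mulVec] at h5
    have hl5 : l ^ 5 = 1 := by
      have h6 : (l ^ 5 - 1) • x = 0 := by rw [sub_smul, ← h5, one_smul, sub_self]
      exact sub_eq_zero.1 ((smul_eq_zero.1 h6).resolve_right hx)
    have hl1 := no_fifth_root hF hord hl5
    have h4 := hpow 4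
    rw [hl1, one_pow, one_smul] at h4
    rw [hl1, one_smul] at hl
    have h7 : Sm *ᵥ x = (2 : F) • x := by
      rw [hSm, Matrix.add_mulVec, hl, ← hW4] at *
      rw [h4, two_smul]
    rw [hSx] at h7
    have h8 : (σ - 2) • x = 0 := by rw [sub_smul, h7, sub_self]
    exact hσ (sub_eq_zero.1 ((smul_eq_zero.1 h8).resolve_right hx))
  have hpair : ∀ σ : F, σ ≠ 2 → ∀ x : Fin 4 → F, x ≠ 0 → Sm *ᵥ x = σ • x → ∀ a b : F,
      a • x + b • (W *ᵥ x) = 0 → a = 0 ∧ b = 0 := by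
    intro σ hσ x hx hSx a b hab
    have hb : b = 0 := by
      by_contra hb
      apply hnoeig σ hσ x hx hSx (-(b⁻¹ * a))
      have h1 : b • (W *ᵥ x) = -(a • x) := eq_neg_of_add_eq_zero_right hab
      calc W *ᵥ x = b⁻¹ • (b • (W *ᵥ x)) := by rw [smul_smul, inv_mul_cancel₀ hb, one_smul]
        _ = -(b⁻¹ * a) • x := by rw [h1, smul_neg, smul_smul, neg_smul]
    refine ⟨?_, hb⟩
    rw [hb, zero_smul, add_zero] at hab
    exact (smul_eq_zero.1 hab).resolve_right hx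
  -- independence
  let vv : Fin 4 → (Fin 4 → F) := ![e, W *ᵥ e, e', W *ᵥ e']
  have hLI : LinearIndependent F vv := by
    rw [Fintype.linearIndependent_iff]
    intro g hg
    rw [Fin.sum_univ_four] at hg
    simp only [vv, Matrix.cons_val_zero, Matrix.cons_val_one, Matrix.cons_val] at hg
    have hSe : Sm *ᵥ (W *ᵥ e) = τ • (W *ᵥ e) := by rw [vSW, he, Matrix.mulVec_smul]
    have hSe' : Sm *ᵥ (W *ᵥ e') = τ' • (W *ᵥ e') := by rw [vSW, he', Matrix.mulVec_smul]
    have hS0 : Sm *ᵥ (g 0 • e + g 1 • (W *ᵥ e) + g 2 • e' + g 3 • (W *ᵥ e')) = 0 := by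
      rw [hg, Matrix.mulVec_zero]
    simp only [Matrix.mulVec_add, Matrix.mulVec_smul, he, he', hSe, hSe'] at hS0
    have h1 : (τ - τ') • (g 0 • e + g 1 • (W *ᵥ e)) = 0 := by
      have e3 : (τ - τ') • (g 0 • e + g 1 • (W *ᵥ e)) =
          (g 0 • τ • e + g 1 • τ • (W *ᵥ e) + g 2 • τ' • e' + g 3 • τ' • (W *ᵥ e')) -
            τ' • (g 0 • e + g 1 • (W *ᵥ e) + g 2 • e' + g 3 • (W *ᵥ e')) := by
        module
      rw [e3, hS0, hg, smul_zero, sub_zero]
    have h2 : (τ' - τ) • (g 2 • e' + g 3 • (W *ᵥ e')) = 0 := by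
      have e3 : (τ' - τ) • (g 2 • e' + g 3 • (W *ᵥ e')) =
          (g 0 • τ • e + g 1 • τ • (W *ᵥ e) + g 2 • τ' • e' + g 3 • τ' • (W *ᵥ e')) -
            τ • (g 0 • e + g 1 • (W *ᵥ e) + g 2 • e' + g 3 • (W *ᵥ e')) := by
        module
      rw [e3, hS0, hg, smul_zero, sub_zero]
    have h3 := (smul_eq_zero.1 h1).resolve_left (sub_ne_zero.2 hne)
    have h4 := (smul_eq_zero.1 h2).resolve_left (sub_ne_zero.2 hne.symm)
    obtain ⟨g0, g1⟩ := hpair τ hτ2 e he0 he _ _ h3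
    obtain ⟨g2, g3⟩ := hpair τ' hτ'2 e' he'0 he' _ _ h4
    intro k
    fin_cases k
    · exact g0
    · exact g1
    · exact g2
    · exact g3
  let b : Module.Basis (Fin 4) F (Fin 4 → F) :=
    basisOfLinearIndependentOfCardEqFinrank hLI (by simp)
  have hb : ∀ k, b k = vv k := fun k => by
    simp [b, coe_basisOfLinearIndependentOfCardEqFinrank]
  have hquadW : ∀ (σ : F) (x : Fin 4 → F), Sm *ᵥ x = σ • x → W *ᵥ (W *ᵥ x) = σ • (W *ᵥ x) - x := by
    intro σ x hx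
    have h1 : W *ᵥ (Sm *ᵥ x) = σ • (W *ᵥ x) := by rw [hx, Matrix.mulVec_smul]
    rw [hSm, Matrix.add_mulVec, Matrix.mulVec_add, e1] at h1
    rw [← h1]
    abel
  have hL : ∀ j, Matrix.toLin' W (b j) = ∑ k, (Cm τ) k j • b k := by
    intro j
    rw [Matrix.toLin'_apply, Fin.sum_univ_four, hb, hb, hb, hb, hb]
    fin_cases j <;> simp [vv, Cm]
    · rw [← Matrix.mulVec_mulVec, hquadW τ e he]
      abel
    · rw [← Matrix.mulVec_mulVec, hquadW τ' e' he']
      rw [hτ']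
      abel
  have hM : LinearMap.toMatrix b b (Matrix.toLin' W) = Cm τ := by
    ext k j
    rw [LinearMap.toMatrix_apply, hL j, Module.Basis.repr_sum_self]
  rw [← Matrix.charpoly_toLin' W, ← LinearMap.charpoly_toMatrix (Matrix.toLin' W) b, hM]

end charpoly

section main

variable {R : Subgroup (GL (Fin 4) F)} {z ι a₁ a₂ b₁ b₂ : R} {i : F}

/-- Order five. -/
theorem bwd_five [Fact p.Prime] [CharP F p] (hF : Fintype.card F = p ^ 2) (hp4 : p % 4 = 3)
    (hord : orderOf (p : ZMod 5) = 4) (M : MSix R z ι a₁ a₂ b₁ b₂ i) (hRU : R ≤ GU 4 F p) :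
    AllN F p 5 R := by
  classical
  rintro x hxG ⟨s, hs⟩ hns
  have hpP : p.Prime := Fact.out
  have hp5 : p ≠ 5 := by
    rintro rfl
    omega
  have hp2 : p ≠ 2 := by omega
  have h2F : (2 : F) ≠ 0 := by
    intro h
    have h1 : ((2 : ℕ) : F) = 0 := by exact_mod_cast h
    have h2 := (CharP.cast_eq_zero_iff F p 2).1 h1
    exact hp2 ((Nat.prime_dvd_prime_iff_eq hpP Nat.prime_two).1 h2)
  have h5F : (5 : F) ≠ 0 := by
    intro h
    have h1 : ((5 : ℕ) : F) = 0 := by exact_mod_cast h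
    have h2 := (CharP.cast_eq_zero_iff F p 5).1 h1
    exact hp5 ((Nat.prime_dvd_prime_iff_eq hpP (by norm_num)).1 h2)
  obtain ⟨hs4, hsp, hs0⟩ := scalar_facts hF hxG hs
  obtain ⟨τ, hτ, hτp⟩ := exists_tau4 hF hp4 hord h2F h5F
  refine reduce_scalar hF R hxG hs (κ := s ^ 3) (pow_ne_zero 3 hs0) ?_ ?_ ?_ hns ?_
  · rw [← pow_mul, show 3 * 4 = 4 * 3 by norm_num, pow_mul, hs4, one_pow]
  · rw [← pow_mul, mul_comm 3 p, pow_mul, ← mul_pow, hsp, one_pow]
  · rw [← pow_mul, ← pow_succ, show 3 * 5 + 1 = 4 * 4 by norm_num, pow_mul, hs4, one_pow]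
  intro x' hG hx5 hns'
  obtain ⟨y, hyG, hy5, hy1, hyN⟩ := exists_five_target hF h2F M hRU
  have hx'1 : x' ≠ 1 := by
    rintro rfl
    apply hns' 1
    simp
  have hcop : Nat.Coprime 5 p := by
    rw [Nat.coprime_comm, hpP.coprime_iff_not_dvd]
    intro h
    exact hp5 ((Nat.prime_dvd_prime_iff_eq hpP (by norm_num)).1 h)
  obtain ⟨g, hg, he⟩ := conj_of_charpoly hF hG hyG hcop hx5 hy5
    (by rw [five_charpoly hF hord h2F h5F hτ hτp hG.1 hx5 hx'1,
      five_charpoly hF hord h2F h5F hτ hτp hyG.1 hy5 hy1])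
  exact ⟨g, hg, by rw [he]; exact hyN⟩

end main

end Cfsg.Agent.Lib.FGStruct.SuFourD
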